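import Mathlib

/-! An automorphism `τ` acting irreducibly on an elementary abelian group of order `p ^ d` generates a field
with `p ^ d` elements: `field_irred` (the order of `p` modulo the order of `τ` is `d`, and the normalizer acts
by powers of the Frobenius map). -/

set_option autoImplicit false
set_option linter.style.haveILetI false

namespace H17.FIr
open scoped IsMulCommutative

theorem field_irred {V : Type*} [CommGroup V] [Finite V] [Nontrivial V] {p d : ℕ} (hp : p.Prime)
    (hV : ∀ v : V, v ^ p = 1) (hd : Nat.card V = p ^ d) (τ : MulAut V)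
    (hirr : ∀ W : Subgroup V, (∀ w ∈ W, τ w ∈ W) → W = ⊥ ∨ W = ⊤) :
    (∀ i, τ ^ p ^ i = τ ↔ d ∣ i) ∧
      ∀ (σ : MulAut V) (j : ℕ), σ * τ * σ⁻¹ = τ ^ j → ∃ k : ℕ, σ * τ * σ⁻¹ = τ ^ p ^ k := by
  haveI := Fact.mk hp
  let φ : MulAut V →* AddMonoid.End (Additive V) :=
    { toFun := fun a => MonoidHom.toAdditive a.toMonoidHom
      map_one' := rfl
      map_mul' := fun _ _ => rfl }
  have hφ : Function.Injective φ := fun a b e => MulEquiv.ext fun v => DFunLike.congr_fun e (Additive.ofMul v)
  let K := Subring.closure {φ τ}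
  haveI : IsMulCommutative K := Subring.isMulCommutative_closure (by rintro _ rfl _ rfl; rfl)
  let a : K := ⟨φ τ, Subring.subset_closure rfl⟩
  have inj : ∀ r : K, r ≠ 0 → ∀ v, r.1 v = 0 → v = 0 := fun r hr v hv => by
    rcases hirr (MonoidHom.toAdditive.symm r.1).ker (fun w hw => by
      have e1 := DFunLike.congr_fun (congrArg Subtype.val (mul_comm r a)) (Additive.ofMul w)
      have e2 : r.1 (Additive.ofMul w) = 0 := hw
      show r.1 (φ τ (Additive.ofMul w)) = 0
      rw [show r.1 (φ τ (Additive.ofMul w)) = φ τ (r.1 (Additive.ofMul w)) from e1, e2, map_zero]) with h | h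
    · exact (eq_bot_iff.1 h : _ ≤ _) (show v.toMul ∈ (MonoidHom.toAdditive.symm r.1).ker from hv)
    · exact absurd (Subtype.ext (AddMonoidHom.ext fun v =>
        (h ▸ Subgroup.mem_top _ : v.toMul ∈ (MonoidHom.toAdditive.symm r.1).ker))) hr
  obtain ⟨v, hv⟩ := exists_ne (0 : Additive V)
  haveI : Nontrivial K := ⟨⟨0, 1, fun e => hv (DFunLike.congr_fun (congrArg Subtype.val e) v).symm⟩⟩
  haveI : NoZeroDivisors K := ⟨fun {r s} e => or_iff_not_imp_left.2 fun hr => Subtype.ext
    (AddMonoidHom.ext fun w => inj r hr _ (DFunLike.congr_fun (congrArg Subtype.val e) w))⟩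
  haveI : IsDomain K := NoZeroDivisors.to_isDomain K
  let ev : K →+ Additive V := { toFun := fun r => r.1 v, map_zero' := rfl, map_add' := fun _ _ => rfl }
  have ev1 : Function.Injective ev := (injective_iff_map_eq_zero ev).2 fun r e => by_contra fun hr => hv (inj r hr v e)
  have ev2 : Function.Surjective ev := by
    rcases hirr ev.range.toSubgroup' (by rintro _ ⟨r, rfl⟩; exact ⟨a * r, rfl⟩) with h | h
    · exact absurd ((eq_bot_iff.1 h : _ ≤ _) (show v.toMul ∈ ev.range.toSubgroup' from ⟨1, rfl⟩)) hv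
    · exact fun w => (h ▸ Subgroup.mem_top _ : w.toMul ∈ ev.range.toSubgroup')
  haveI : Finite K := Finite.of_injective _ ev1
  have cK : Nat.card K = p ^ d := (Nat.card_eq_of_bijective _ ⟨ev1, ev2⟩).trans hd
  letI : Field K := (Finite.isField_of_domain K).toField
  haveI : CharP K p := (CharP.charP_iff_prime_eq_zero hp).2 (ev1 (by
    rw [← nsmul_one, map_nsmul, map_zero]; exact hV v.toMul))
  letI : Algebra (ZMod p) K := ZMod.algebra K p
  have fr : Module.finrank (ZMod p) K = d := by
    have := Module.natCard_eq_pow_finrank (K := ZMod p) (V := K)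
    rw [cK, Nat.card_zmod] at this
    exact (Nat.pow_right_injective hp.two_le this).symm
  have ext : ∀ f g : K →ₐ[ZMod p] K, f a = g a → f = g := fun f g e => AlgHom.ext fun ⟨x, hx⟩ => by
    induction hx using Subring.closure_induction with
    | mem x hx => obtain rfl := hx; exact e
    | zero => exact (map_zero f).trans (map_zero g).symm
    | one => exact (map_one f).trans (map_one g).symm
    | add x y hx hy h1 h2 => exact (map_add f ⟨x, hx⟩ ⟨y, hy⟩).trans ((congrArg₂ _ h1 h2).trans (map_add g _ _).symm)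
    | neg x hx h => exact (map_neg f ⟨x, hx⟩).trans ((congrArg _ h).trans (map_neg g _).symm)
    | mul x y hx hy h1 h2 => exact (map_mul f ⟨x, hx⟩ ⟨y, hy⟩).trans ((congrArg₂ _ h1 h2).trans (map_mul g _ _).symm)
  have fa : ∀ i, ((FiniteField.frobeniusAlgHom (ZMod p) K ^ i) a).1 = φ (τ ^ p ^ i) := fun i => by
    rw [AlgHom.coe_pow, FiniteField.coe_frobeniusAlgHom, pow_iterate, ZMod.card, map_pow]
    rfl
  refine ⟨fun i => ?_, fun σ j e => ?_⟩
  · rw [← fr, ← FiniteField.orderOf_frobeniusAlgHom, orderOf_dvd_iff_pow_eq_one]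
    exact ⟨fun h => ext _ _ (Subtype.ext ((fa i).trans (congrArg φ h))),
      fun h => hφ ((fa i).symm.trans (by rw [h]; rfl))⟩
  · have i1 : φ σ⁻¹ * φ σ = 1 := by rw [← map_mul, inv_mul_cancel, map_one]
    let c : AddMonoid.End (Additive V) →+* AddMonoid.End (Additive V) :=
      { toFun := fun x => φ σ * x * φ σ⁻¹
        map_one' := by rw [mul_one, ← map_mul, mul_inv_cancel, map_one]
        map_mul' := fun x y => by
          rw [mul_assoc (φ σ * x), ← mul_assoc (φ σ⁻¹), ← mul_assoc (φ σ⁻¹), i1, one_mul]; simp only [mul_assoc]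
        map_zero' := by rw [mul_zero, zero_mul]
        map_add' := fun x y => by rw [mul_add, add_mul] }
    have ca : c (φ τ) = φ (σ * τ * σ⁻¹) := by rw [map_mul, map_mul]; rfl
    have hc : K ≤ K.comap c := Subring.closure_le.2 (by
      rintro _ rfl
      show c (φ τ) ∈ K
      rw [ca, e, map_pow]
      exact pow_mem a.2 j)
    let c' : K →+* K := c.restrict K K hc
    obtain ⟨k, hk⟩ := (FiniteField.bijective_frobeniusAlgHom_pow (ZMod p) K).2
      { c' with commutes' := RingHom.congr_fun (RingHom.ext_zmod (c'.comp (algebraMap _ _)) (algebraMap _ _)) }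
    exact ⟨k, hφ (ca.symm.trans ((congrArg (fun f : K →ₐ[ZMod p] K => (f a).1) hk).symm.trans (fa k)))⟩

end H17.FIr
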