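import Mathlib

/-! Free `kH`-modules: `H17.Fre.Fr τ` (generated by `dim V / #H` vectors), the normal basis theorem for a faithful group of
field automorphisms (`nb`), semilinear modules over "Galois" algebras are free (`core`, `fr_gal`), Frobenius groups
of linear maps (`fr_solv`). -/

set_option autoImplicit false
open Module

namespace H17.Fre

universe u

variable {k : Type*} [Field k]

theorem nb {K G : Type*} [Field K] [Algebra k K] [FiniteDimensional k K] [Group G] (σ : G →* (K ≃ₐ[k] K))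
    (hσ : Function.Injective σ) :
    ∃ (n : ℕ) (x : Fin n → K) (b : Basis (G × Fin n) k K), ∀ g i, b (g, i) = σ g (x i) := by
  let F := IntermediateField.fixedField σ.range
  let e := IntermediateField.subgroupEquivAlgEquiv σ.range
  have : IsGalois F K := IsGalois.of_card_aut_eq_finrank F K
    ((Nat.card_congr e.toEquiv).symm.trans (IntermediateField.finrank_fixedField_eq_card _).symm)
  let c := Module.finBasis k F
  let θ := IsGalois.normalBasis F K
  let e' := (MonoidHom.ofInjective hσ).trans e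
  refine ⟨_, fun i => c i • θ 1, (c.smulTower θ).reindex ((Equiv.prodComm _ _).trans (e'.toEquiv.symm.prodCongr (.refl _))),
    fun g i => ?_⟩
  have h1 : ∀ y, e' g y = σ g y := fun _ => rfl
  rw [← h1, map_smul, ← IsGalois.normalBasis_apply]
  simp [θ, F]

variable {H : Type*} [Group H] {V : Type*} [AddCommGroup V] [Module k V]

/-- `U` is generated by at most `dim U / #H` vectors. -/
def Fr (τ : Representation k H V) (U : Submodule k V) : Prop :=
  ∃ (ι : Type) (_ : Finite ι) (v : ι → V), Submodule.span k (Set.range fun p : H × ι => τ p.1 (v p.2)) = U ∧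
    Nat.card H * Nat.card ι ≤ finrank k U

theorem fr_of_subsingleton [Subsingleton V] (τ : Representation k H V) : Fr τ ⊤ :=
  ⟨Empty, inferInstance, fun _ => 0, Subsingleton.elim _ _, by simp⟩

theorem Fr.ext [FiniteDimensional k V] {τ : Representation k H V} {U : Submodule k V} (hU : ∀ g, U ≤ U.comap (τ g))
    (h1 : Fr τ U) (h2 : Fr (τ.quotient U hU) ⊤) : Fr τ ⊤ := by
  obtain ⟨ι, _, v, hv, hι⟩ := h1
  obtain ⟨κ, _, w, hw, hκ⟩ := h2
  choose w' hw' using fun j => U.mkQ_surjective (w j)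
  refine ⟨ι ⊕ κ, inferInstance, Sum.elim v w', ?_, ?_⟩
  · set S := Submodule.span k (Set.range fun p : H × (ι ⊕ κ) => τ p.1 (Sum.elim v w' p.2))
    have hUS : U ≤ S := hv ▸ Submodule.span_mono (by rintro _ ⟨p, rfl⟩; exact ⟨(p.1, .inl p.2), rfl⟩)
    have : S.map U.mkQ = ⊤ := top_le_iff.1 (hw ▸ Submodule.span_le.2 (by
      rintro _ ⟨p, rfl⟩
      exact ⟨_, Submodule.subset_span ⟨(p.1, .inr p.2), rfl⟩, by simp [← hw', Representation.quotient]⟩))
    rw [Submodule.map_mkQ_eq_top] at this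
    exact top_le_iff.1 (this ▸ sup_le hUS le_rfl)
  · have := U.finrank_quotient_add_finrank
    rw [finrank_top] at hκ ⊢
    rw [Nat.card_sum, mul_add]; omega

theorem Fr.of_sub {τ : Representation k H V} {U : Submodule k V} (hU : ∀ g, U ≤ U.comap (τ g))
    (h : Fr (τ.subrepresentation U hU) ⊤) : Fr τ U := by
  obtain ⟨ι, _, v, hv, hι⟩ := h
  refine ⟨ι, inferInstance, fun i => v i, ?_, by rwa [finrank_top] at hι⟩
  have := congrArg (Submodule.map U.subtype) hv
  rw [Submodule.map_span, Submodule.map_subtype_top, ← Set.range_comp] at this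
  exact this

theorem Fr.internal [Finite H] [DecidableEq H] [FiniteDimensional k V] {τ : Representation k H V} (h : Fr τ ⊤) :
    ∃ W : Submodule k V, DirectSum.IsInternal fun h : H => W.map (τ h) := by
  obtain ⟨ι, _, v, hv, hι⟩ := h
  have := Fintype.ofFinite H
  have := Fintype.ofFinite ι
  have hli : LinearIndependent k fun p : H × ι => τ p.1 (v p.2) := by
    rw [finrank_top, ← Nat.card_prod, Nat.card_eq_fintype_card] at hι
    refine linearIndependent_of_top_le_span_of_card_eq_finrank hv.ge (le_antisymm hι ?_)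
    exact finrank_le_of_span_eq_top hv
  have e : ∀ h, (Submodule.span k (Set.range v)).map (τ h) =
      Submodule.span k ((fun p : H × ι => τ p.1 (v p.2)) '' {p | p.1 = h}) := fun h => by
    rw [Submodule.map_span]
    congr 1
    ext x
    exact ⟨by rintro ⟨_, ⟨i, rfl⟩, rfl⟩; exact ⟨(h, i), rfl, rfl⟩, by rintro ⟨⟨_, i⟩, rfl, rfl⟩; exact ⟨_, ⟨i, rfl⟩, rfl⟩⟩
  refine ⟨Submodule.span k (Set.range v), DirectSum.isInternal_submodule_of_iSupIndep_of_iSup_eq_top (fun h => ?_) ?_⟩
  · simp only [e]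
    refine (hli.disjoint_span_image (s := {p | p.1 = h}) (t := {p | p.1 ≠ h})
      (Set.disjoint_left.2 fun p h1 h2 => h2 h1)).mono_right (iSup₂_le fun j hj => Submodule.span_mono ?_)
    exact Set.image_mono fun p (hp : p.1 = j) => show p.1 ≠ h from hp ▸ hj
  · refine top_le_iff.1 (hv ▸ Submodule.span_le.2 ?_)
    rintro _ ⟨p, rfl⟩
    exact Submodule.mem_iSup_of_mem p.1 ⟨_, Submodule.subset_span ⟨p.2, rfl⟩, rfl⟩

variable {B : Type*} [CommRing B] [Algebra k B]

theorem exists_max [FiniteDimensional k V] [Nontrivial V] (φ : B →ₐ[k] End k V) :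
    ∃ m : Ideal B, m.IsMaximal ∧ ∃ s : V, s ≠ 0 ∧ ∀ b, b ∈ m ↔ φ b s = 0 := by
  let W : V → Submodule k V := fun s => LinearMap.range ((LinearMap.applyₗ s).comp φ.toLinearMap)
  obtain ⟨s, hs, hmin⟩ := (measure fun s => finrank k (W s)).wf.has_min {s | s ≠ 0} (exists_ne 0)
  let m : Ideal B :=
    { carrier := {b | φ b s = 0}
      zero_mem' := by simp
      add_mem' := fun {a b} ha hb => by simp_all
      smul_mem' := fun c b hb => by simp_all }
  refine ⟨m, Ideal.isMaximal_iff.2 ⟨fun h => hs (by simpa [m] using h), fun J b hJ hb hbJ => ?_⟩, s, hs, fun _ => Iff.rfl⟩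
  have hle : W (φ b s) ≤ W s := by
    rintro _ ⟨c, rfl⟩; exact ⟨c * b, by simp⟩
  have : W (φ b s) = W s := Submodule.eq_of_le_of_finrank_le hle (not_lt.1 (hmin _ hb))
  obtain ⟨c, hc⟩ : s ∈ W (φ b s) := this ▸ ⟨1, by simp⟩
  have h1 : 1 - c * b ∈ m := by
    show φ _ s = 0
    simpa [sub_eq_zero] using hc.symm
  simpa using J.add_mem (hJ h1) (J.mul_mem_left c hbJ)

theorem core [Finite H] [FiniteDimensional k V] [Nontrivial V] [FiniteDimensional k B] (σ : H →* (B ≃ₐ[k] B)) (e : B)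
    (hG : ∀ m : Ideal B, m.IsMaximal → ∀ h, (∀ b, σ h b - b ∈ m) → e ∈ m → h = 1)
    (φ : B →ₐ[k] End k V) (τ : Representation k H V) (hc : ∀ h b v, τ h (φ b v) = φ (σ h b) (τ h v)) (he : φ e = 0) :
    ∃ U : Submodule k V, U ≠ ⊥ ∧ (∀ g, U ≤ U.comap (τ g)) ∧ (∀ b, U ≤ U.comap (φ b)) ∧ Fr τ U := by
  classical
  have := Fintype.ofFinite H
  obtain ⟨m, hm, s, hs, hms⟩ := exists_max φ
  have σi : ∀ h b, σ h (σ h⁻¹ b) = b := fun h b => by simp
  let H₁ : Subgroup H :=
    { carrier := {h | ∀ b, σ h b ∈ m ↔ b ∈ m}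
      one_mem' := fun b => by simp
      mul_mem' := fun {x y} hx hy b => by rw [map_mul, AlgEquiv.mul_apply, hx, hy]
      inv_mem' := fun {x} hx b => by rw [← hx, σi] }
  let _ := Ideal.Quotient.field m
  let mk := Ideal.Quotient.mk m
  have hmk := Ideal.Quotient.mk_surjective (I := m)
  let σ' : H₁ →* ((B ⧸ m) ≃ₐ[k] (B ⧸ m)) :=
    { toFun := fun h => Ideal.quotientEquivAlg m m (σ h) (le_antisymm
        (fun b hb => σi h b ▸ Ideal.mem_map_of_mem (σ h : B →+* B) ((H₁.inv_mem h.2 b).2 hb))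
        (Ideal.map_le_iff_le_comap.2 fun b hb => (h.2 b).2 hb))
      map_one' := AlgEquiv.ext fun x => by obtain ⟨b, rfl⟩ := hmk x; simp
      map_mul' := fun g h => AlgEquiv.ext fun x => by obtain ⟨b, rfl⟩ := hmk x; simp }
  have hσ' : ∀ (h : H₁) b, σ' h (mk b) = mk (σ h b) := fun _ _ => rfl
  have hinj : Function.Injective σ' := (injective_iff_map_eq_one _).2 fun h hh => Subtype.ext
    (hG m hm h (fun b => Ideal.Quotient.eq.1 (by rw [← hσ', hh]; rfl)) ((hms e).2 (by simp [he])))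
  have hann : ∀ (h : H₁) v, (∀ b ∈ m, φ b v = 0) → ∀ b ∈ m, φ b (τ h v) = 0 := fun h v hv b hb => by
    rw [← σi h b, ← hc, hv _ ((H₁.inv_mem h.2 b).2 hb), map_zero]
  obtain ⟨b₀, hb₀⟩ : ∃ b₀, ∑ h : H₁, τ h (φ b₀ s) ≠ 0 := by
    by_contra hc'
    push Not at hc'
    have hli : LinearIndependent (B ⧸ m) fun (h : H₁) (x : B ⧸ m) => σ' h x :=
      (linearIndependent_monoidHom (B ⧸ m) (B ⧸ m)).comp (fun h : H₁ => (σ' h : (B ⧸ m) →* (B ⧸ m)))
        fun g h e => hinj (AlgEquiv.ext fun x => DFunLike.congr_fun e x)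
    have key : ∀ w ∈ Submodule.span (B ⧸ m) (Set.range (flip fun (h : H₁) (x : B ⧸ m) => σ' h x)),
        ∃ w' : H₁ → B, (∀ h, mk (w' h) = w h) ∧ ∑ h : H₁, φ (w' h) (τ h s) = 0 := by
      intro w hw
      induction hw using Submodule.span_induction with
      | mem x hx =>
        obtain ⟨y, rfl⟩ := hx
        obtain ⟨b, rfl⟩ := hmk y
        exact ⟨fun h => σ h b, fun h => rfl, by simpa only [hc] using hc' b⟩
      | zero => exact ⟨0, by simp, by simp⟩
      | add x y _ _ hx hy =>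
        obtain ⟨x', h1, h2⟩ := hx
        obtain ⟨y', h3, h4⟩ := hy
        exact ⟨x' + y', fun h => by simp [h1, h3], by simp [Finset.sum_add_distrib, h2, h4]⟩
      | smul a x _ hx =>
        obtain ⟨x', h1, h2⟩ := hx
        obtain ⟨c, rfl⟩ := hmk a
        exact ⟨fun h => c * x' h, fun h => by simp [h1, mk], by simp [← map_sum, h2]⟩
    obtain ⟨w, h1, h2⟩ := key (Pi.single 1 1) (span_flip_eq_top_iff_linearIndependent.2 hli ▸ Submodule.mem_top)
    rw [Finset.sum_eq_single 1 (fun h _ hh => hann h s (fun b => (hms b).1) _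
      (Ideal.Quotient.eq_zero_iff_mem.1 (by rw [h1, Pi.single_eq_of_ne hh]))) (by simp)] at h2
    have : w 1 - 1 ∈ m := Ideal.Quotient.eq.1 (by rw [h1]; simp)
    have := (hms _).1 this
    simp only [map_sub, map_one, LinearMap.sub_apply, End.one_apply, sub_eq_zero, OneMemClass.coe_one] at this h2
    exact hs (this.symm.trans h2)
  set u := ∑ h : H₁, τ h (φ b₀ s)
  have hu1 : ∀ b ∈ m, φ b u = 0 := fun b hb => by
    rw [map_sum]
    exact Finset.sum_eq_zero fun h _ => hann h _ (fun c hc => by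
      rw [← End.mul_apply, ← map_mul]; exact (hms _).1 (m.mul_mem_right _ hc)) b hb
  have hu2 : ∀ h : H₁, τ h u = u := fun g => by
    rw [map_sum]
    exact Fintype.sum_equiv (Equiv.mulLeft g) _ _ fun h => by simp
  obtain ⟨r, hr⟩ := (Ideal.Quotient.mkₐ k m).toLinearMap.exists_rightInverse_of_surjective (LinearMap.range_eq_top.2 hmk)
  let ℓ : (B ⧸ m) →ₗ[k] V := ((LinearMap.applyₗ u).comp φ.toLinearMap).comp r
  have hℓ : ∀ b, ℓ (mk b) = φ b u := fun b => by
    have : r (mk b) - b ∈ m := Ideal.Quotient.eq.1 (LinearMap.congr_fun hr (mk b))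
    simpa [sub_eq_zero, ℓ] using hu1 _ this
  have hℓ1 : ∀ b x, φ b (ℓ x) = ℓ (mk b * x) := fun b x => by
    obtain ⟨c, rfl⟩ := hmk x
    rw [← map_mul, hℓ, hℓ, map_mul, End.mul_apply]
  have hℓ2 : ∀ (h : H₁) x, τ h (ℓ x) = ℓ (σ' h x) := fun h x => by
    obtain ⟨c, rfl⟩ := hmk x
    rw [hσ', hℓ, hℓ, hc, hu2]
  have hℓu : ℓ 1 = u := by simpa using hℓ 1
  have hℓ3 : ∀ x, ℓ x = 0 → x = 0 := fun x hx => by_contra fun h0 => hb₀ (by
    obtain ⟨c, hc⟩ := hmk x⁻¹
    rw [← hℓu, ← inv_mul_cancel₀ h0, ← hc, ← hℓ1, hx, map_zero])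
  obtain ⟨n, x, β, hβ⟩ := nb σ' hinj
  let U := Submodule.span k (Set.range fun p : H × Fin n => τ p.1 (ℓ (x p.2)))
  have hU1 : ∀ g, U ≤ U.comap (τ g) := fun g => Submodule.span_le.2 (by
    rintro _ ⟨p, rfl⟩
    exact Submodule.subset_span ⟨(g * p.1, p.2), by simp⟩)
  have hU2 : ∀ y, ℓ y ∈ U := fun y => by
    rw [← β.sum_repr y, map_sum]
    exact U.sum_mem fun p _ => by
      rw [map_smul, hβ p.1 p.2, ← hℓ2]; exact U.smul_mem _ (Submodule.subset_span ⟨(p.1, p.2), rfl⟩)
  refine ⟨U, fun h => hb₀ (by rw [← hℓu, ← Submodule.mem_bot k, ← h]; exact hU2 1), hU1,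
    fun b => Submodule.span_le.2 ?_, Fin n, inferInstance, fun i => ℓ (x i), rfl, ?_⟩
  · rintro _ ⟨p, rfl⟩
    show φ b (τ p.1 _) ∈ U
    rw [← σi p.1 b, ← hc, hℓ1]
    exact hU1 _ (hU2 _)
  have hd : ∀ h, h ∉ H₁ → ∃ d, d ∉ m ∧ σ h⁻¹ d ∈ m := fun h hh => by
    by_contra hc'
    push Not at hc'
    have : (m.comap (σ h⁻¹ : B →+* B)).IsMaximal := Ideal.comap_isMaximal_of_surjective _ (σ h⁻¹).surjective
    have := this.eq_of_le hm.ne_top fun d hd => by_contra fun h' => hc' d h' hd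
    exact hh (by simpa using H₁.inv_mem (x := h⁻¹) fun b => (SetLike.ext_iff.1 this b :))
  choose! d hd1 hd2 using hd
  let D := ∏ h ∈ Finset.univ.filter (· ∉ H₁), d h
  have hD : mk D ≠ 0 := by
    rw [map_prod]
    exact Finset.prod_ne_zero_iff.2 fun h hh h0 => hd1 h (by simpa using hh) (Ideal.Quotient.eq_zero_iff_mem.1 h0)
  have one : ∀ a : H × Fin n → k, ∑ p, a p • τ p.1 (ℓ (x p.2)) = 0 → ∀ i, a (1, i) = 0 := fun a ha i => by
    have h1 := congrArg (φ D) ha
    rw [map_sum, map_zero, Fintype.sum_prod_type, ← Fintype.sum_subtype_add_sum_subtype (· ∈ H₁),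
      Finset.sum_eq_zero (s := Finset.univ) (f := fun h : {h // h ∉ H₁} => _) fun h _ => Finset.sum_eq_zero fun j _ => by
        have : mk (σ h.1⁻¹ D) = 0 := Ideal.Quotient.eq_zero_iff_mem.2 (by
          obtain ⟨c, hc⟩ : d h ∣ D := Finset.dvd_prod_of_mem _ (by simpa using h.2)
          rw [hc, map_mul]; exact m.mul_mem_right _ (hd2 _ h.2))
        rw [map_smul, ← σi h D, ← hc, hℓ1, this]; simp, add_zero] at h1
    have h2 : ℓ (mk D * ∑ p : H₁ × Fin n, a (p.1, p.2) • β p) = 0 := by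
      rw [← h1, ← hℓ1, Fintype.sum_prod_type, map_sum, map_sum]
      refine Finset.sum_congr rfl fun h _ => ?_
      rw [map_sum, map_sum]
      exact Finset.sum_congr rfl fun j _ => by rw [map_smul ℓ, hβ, ← hℓ2]
    exact Fintype.linearIndependent_iff.1 β.linearIndependent _ ((mul_eq_zero.1 (hℓ3 _ h2)).resolve_left hD) (1, i)
  have hli : LinearIndependent k fun p : H × Fin n => τ p.1 (ℓ (x p.2)) :=
    Fintype.linearIndependent_iff.2 fun a ha p => by
      have := one (fun q => a (p.1 * q.1, q.2)) (by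
        have h1 := congrArg (τ p.1⁻¹) ha
        rw [map_sum, map_zero] at h1
        rw [← h1]
        exact Fintype.sum_equiv ((Equiv.mulLeft p.1).prodCongr (.refl _)) _ _ fun q => by
          obtain ⟨q1, q2⟩ := q; simp [← End.mul_apply, ← map_mul]) p.2
      simpa using this
  rw [finrank_span_eq_card hli, ← Nat.card_prod, Nat.card_eq_fintype_card]

theorem fr_gal [Finite H] [FiniteDimensional k B] (σ : H →* (B ≃ₐ[k] B)) (e : B)
    (hG : ∀ m : Ideal B, m.IsMaximal → ∀ h, (∀ b, σ h b - b ∈ m) → e ∈ m → h = 1) (n : ℕ) :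
    ∀ {V : Type u} [AddCommGroup V] [Module k V] [FiniteDimensional k V] (φ : B →ₐ[k] End k V) (τ : Representation k H V),
      finrank k V = n → (∀ h b v, τ h (φ b v) = φ (σ h b) (τ h v)) → φ e = 0 → Fr τ ⊤ := by
  induction n using Nat.strong_induction_on with | _ n ih => ?_
  intro V _ _ _ φ τ hn hc he
  rcases subsingleton_or_nontrivial V with h | h
  · exact fr_of_subsingleton τ
  obtain ⟨U, hU, h1, h2, h3⟩ := core σ e hG φ τ hc he
  let φ' : B →ₐ[k] End k (V ⧸ U) := AlgHom.ofLinearMap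
    { toFun := fun b => U.mapQ U (φ b) (h2 b)
      map_add' := fun a b => by ext; simp
      map_smul' := fun a b => by ext; simp } (by ext; simp) fun a b => by ext; simp
  refine h3.ext h1 (ih _ ?_ φ' _ rfl (fun h b v => ?_) (by ext; simp [φ', he]))
  · have := U.finrank_quotient_add_finrank
    have := Submodule.one_le_finrank_iff.2 hU
    omega
  · obtain ⟨v, rfl⟩ := U.mkQ_surjective v
    simp [φ', Representation.quotient, hc]

theorem fr_comm [Finite H] [FiniteDimensional k V] {Z : Type*} [CommGroup Z] [Fintype Z] (hZ : (Fintype.card Z : k) ≠ 0)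
    (α : H →* MulAut Z) (hα : ∀ h ≠ 1, ∀ z, ∃ y, z * y = α h y) (ρ : Representation k Z V) (τ : Representation k H V)
    (hc : ∀ h z v, τ h (ρ z v) = ρ (α h z) (τ h v)) (he : ∑ z, ρ z = 0) : Fr τ ⊤ := by
  refine fr_gal ((MonoidAlgebra.domCongrAut (R := k) (A := k) (M := Z)).comp α) (∑ z, MonoidAlgebra.single z 1) (fun m hm h h1 h2 => ?_) _
    ρ.asAlgebraHom τ rfl (fun h b v => ?_) (by simpa using he)
  · by_contra hh
    let _ := Ideal.Quotient.field m
    have h3 : ∀ z, Ideal.Quotient.mk m (MonoidAlgebra.single z 1) = 1 := fun z => by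
      obtain ⟨y, hy⟩ := hα h hh z
      have h4 := Ideal.Quotient.eq.2 (h1 (MonoidAlgebra.single y 1))
      have h5 : Ideal.Quotient.mk m (MonoidAlgebra.single y 1) ≠ 0 :=
        (((Group.isUnit y).map (MonoidAlgebra.of k Z)).map (Ideal.Quotient.mk m)).ne_zero
      refine mul_right_cancel₀ h5 ?_
      rw [← map_mul, MonoidAlgebra.single_mul_single, hy, one_mul, one_mul, ← h4]
      simp [MonoidAlgebra.domCongrAut]
    have h6 := Ideal.Quotient.eq_zero_iff_mem.2 h2
    rw [map_sum, Finset.sum_congr rfl fun z _ => h3 z, Finset.sum_const, Finset.card_univ, nsmul_eq_mul, mul_one,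
      ← map_natCast (algebraMap k (MonoidAlgebra k Z ⧸ m)), map_eq_zero] at h6
    exact hZ h6
  · induction b using MonoidAlgebra.induction_on with
    | of z => simp [MonoidAlgebra.domCongrAut, hc]
    | add a b ha hb => simp [ha, hb]
    | smul r a ha => simp [ha]

theorem fr_ab [Finite H] [FiniteDimensional k V] {Z : Type*} [Group Z] [Finite Z] (hZ : (Nat.card Z : k) ≠ 0)
    (α : H →* MulAut Z) (hα : ∀ h ≠ 1, ∀ z, α h z = z → z = 1) (ρ : Representation k Z V) (τ : Representation k H V)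
    (hρ : commutator Z ≤ MonoidHom.ker ρ) (hc : ∀ h z v, τ h (ρ z v) = ρ (α h z) (τ h v))
    (he : ∀ v, (∀ z, ρ z v = v) → v = 0) : Fr τ ⊤ := by
  have hs : Function.Surjective (Abelianization.of (G := Z)) := QuotientGroup.mk'_surjective _
  have : Finite (Abelianization Z) := Finite.of_surjective _ hs
  have := Fintype.ofFinite (Abelianization Z)
  let α' : H →* MulAut (Abelianization Z) :=
    { toFun := fun h => (α h).abelianizationCongr
      map_one' := MulEquiv.ext fun x => by obtain ⟨x, rfl⟩ := hs x; simp [abelianizationCongr_of]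
      map_mul' := fun g h => MulEquiv.ext fun x => by obtain ⟨x, rfl⟩ := hs x; simp [abelianizationCongr_of] }
  let ρ' : Representation k (Abelianization Z) V := QuotientGroup.lift _ ρ hρ
  refine fr_comm (fun h => hZ ?_) α' (fun h hh z => ?_) ρ' τ (fun h z v => ?_) (LinearMap.ext fun v => he _ fun z => ?_)
  · obtain ⟨c, hc⟩ := Subgroup.card_dvd_of_surjective _ hs
    rw [hc, Nat.cast_mul, Nat.card_eq_fintype_card, h, zero_mul]
  · obtain ⟨z, rfl⟩ := hs z
    have hi : Function.Injective fun y => α h y * y⁻¹ := fun x y (e : α h x * x⁻¹ = α h y * y⁻¹) => by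
      have := hα h hh (y⁻¹ * x) (by
        rw [map_mul, map_inv, inv_mul_eq_iff_eq_mul, ← mul_assoc, ← e]; simp)
      exact (inv_mul_eq_one.1 this).symm
    obtain ⟨y, hy⟩ := Finite.surjective_of_injective hi z
    exact ⟨Abelianization.of y, by rw [← map_mul, ← hy]; simp [α', abelianizationCongr_of]⟩
  · obtain ⟨z, rfl⟩ := hs z
    exact hc h z v
  · rw [LinearMap.sum_apply, map_sum]
    exact Fintype.sum_equiv (Equiv.mulLeft (Abelianization.of z)) _ _ fun y => by
      simp only [Equiv.coe_mulLeft, map_mul, End.mul_apply]; rfl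

theorem fr_solv {A : Type*} [Group A] [Finite A] (F L : Subgroup A) [F.Normal] [Group.IsSolvable F] (hF : (Nat.card F : k) ≠ 0)
    (hL : ∀ h ∈ L, ∀ f ∈ F, h * f = f * h → h = 1 ∨ f = 1) (n : ℕ) :
    ∀ {V : Type u} [AddCommGroup V] [Module k V] [FiniteDimensional k V] (ρ : Representation k A V),
      finrank k V = n → (∀ v, (∀ f ∈ F, ρ f v = v) → v = 0) → Fr (ρ.comp L.subtype) ⊤ := by
  induction n using Nat.strong_induction_on with | _ n ih => ?_
  intro V _ _ _ ρ hn he
  rcases subsingleton_or_nontrivial V with h | h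
  · exact fr_of_subsingleton _
  obtain ⟨Z, ⟨hZn, hZF, hZ⟩, hmin⟩ := (wellFounded_lt (α := Subgroup A)).has_min
    {Z | Z.Normal ∧ Z ≤ F ∧ ¬ Z ≤ MonoidHom.ker ρ} ⟨F, inferInstance, le_rfl, fun h => by
      obtain ⟨v, hv⟩ := exists_ne (0 : V)
      exact hv (he v fun f hf => by rw [MonoidHom.mem_ker.1 (h hf)]; rfl)⟩
  have hZ' : ⁅Z, Z⁆ ≤ MonoidHom.ker ρ := by
    by_contra hc
    have : Group.IsSolvable Z := Group.isSolvable_of_isSolvable_injective (Subgroup.inclusion_injective hZF)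
    refine hmin _ ⟨inferInstance, (Subgroup.commutator_le_left _ _).trans hZF, hc⟩ ?_
    have := (Subgroup.nontrivial_iff_ne_bot Z).2 fun h => hZ (h ▸ bot_le)
    rw [← Subgroup.map_subtype_commutator]
    conv_rhs => rw [← Z.range_subtype, MonoidHom.range_eq_map]
    exact Subgroup.map_subtype_lt_map_subtype.2 (Group.IsSolvable.commutator_lt_top_of_nontrivial Z)
  let U : Submodule k V :=
    { carrier := {v | ∀ z ∈ Z, ρ z v = v}
      zero_mem' := by simp
      add_mem' := fun ha hb z hz => by rw [map_add, ha z hz, hb z hz]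
      smul_mem' := fun c _ ha z hz => by rw [map_smul, ha z hz] }
  have hU : ∀ g, U ≤ U.comap (ρ g) := fun g v hv z hz => by
    have := hv _ (hZn.conj_mem' z hz g)
    conv_rhs => rw [← this]
    simp [← End.mul_apply, ← map_mul, mul_assoc]
  have hcZ : (Nat.card Z : k) ≠ 0 := fun h => hF (by
    obtain ⟨c, hc⟩ := Subgroup.card_dvd_of_le hZF
    rw [hc, Nat.cast_mul, h, zero_mul])
  refine Fr.ext (U := U) (fun g => hU g) (Fr.of_sub (fun g => hU g) (ih _ ?_ (ρ.subrepresentation U hU) rfl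
    fun v hv => Subtype.ext (he _ fun f hf => congrArg Subtype.val (hv f hf)))) ?_
  · refine hn ▸ Submodule.finrank_lt fun h => hZ fun z hz => LinearMap.ext fun v => ?_
    exact (show v ∈ U from h ▸ Submodule.mem_top) z hz
  refine fr_ab hcZ (MulAut.conjNormal.comp L.subtype) (fun h hh z hz => ?_) ((ρ.quotient U hU).comp Z.subtype) _
    (fun z hz => ?_) (fun h z v => ?_) fun v hv => ?_
  · have := congrArg Subtype.val hz
    simpa [hh] using hL h h.2 z (hZF z.2) (by simpa [mul_inv_eq_iff_eq_mul] using this)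
  · have : (z : A) ∈ ⁅Z, Z⁆ := by
      rw [← Subgroup.map_subtype_commutator]; exact ⟨z, hz, rfl⟩
    have := MonoidHom.mem_ker.1 (hZ' this)
    ext v; simp [Representation.quotient, this]
  · obtain ⟨v, rfl⟩ := U.mkQ_surjective v
    simp [Representation.quotient, ← End.mul_apply, ← map_mul]
  · obtain ⟨v, rfl⟩ := U.mkQ_surjective v
    have := Fintype.ofFinite Z
    have h1 : ∑ z : Z, ρ z v ∈ U := fun y hy => by
      rw [map_sum]
      exact Fintype.sum_equiv (Equiv.mulLeft ⟨y, hy⟩) _ _ fun z => by simp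
    have h2 : ∑ z : Z, (ρ z v - v) ∈ U := U.sum_mem fun z _ => (Submodule.Quotient.eq U).1 (hv z)
    have := U.sub_mem h1 h2
    rw [Finset.sum_sub_distrib, sub_sub_cancel, Finset.sum_const, Finset.card_univ, ← Nat.card_eq_fintype_card,
      ← Nat.cast_smul_eq_nsmul k, U.smul_mem_iff hcZ] at this
    exact (Submodule.Quotient.mk_eq_zero U).2 this

end H17.Fre
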