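import Mathlib

/-! Products of two regular unipotent maps (Sourour–Lev induction): `H17.Lev.Rg`, `av4` (four proper subspaces do not cover),
`exists_x`, `exists_u`, `main`, `transv`. -/

set_option autoImplicit false
set_option linter.unusedSectionVars false
open Module Submodule

namespace H17.Lev

universe u
variable {K V : Type*} [Field K] [AddCommGroup V] [Module K V]

/-- at least four elements -/
def Big (K : Type*) : Prop := ∀ a b c : K, ∃ t, t ≠ a ∧ t ≠ b ∧ t ≠ c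

theorem av_one {S : Submodule K V} {x : V} (hx : x ∉ S) (y : V) : ∃ a : K, ∀ t ≠ a, y + t • x ∉ S := by
  by_cases h : ∃ a : K, y + a • x ∈ S
  · obtain ⟨a, ha⟩ := h
    refine ⟨a, fun t ht h' => hx ((S.smul_mem_iff (sub_ne_zero.2 ht)).1 ?_)⟩
    convert S.sub_mem h' ha using 1; module
  · exact ⟨0, fun t _ h' => h ⟨t, h'⟩⟩

theorem av_step (hK : Big K) {P S₁ S₂ S₃ S₄ : Submodule K V} (h : ∃ x ∈ P, x ∉ S₁ ∧ x ∉ S₂ ∧ x ∉ S₃) (h4 : ¬ P ≤ S₄) :
    ∃ x ∈ P, x ∉ S₁ ∧ x ∉ S₂ ∧ x ∉ S₃ ∧ x ∉ S₄ := by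
  obtain ⟨x, hx, h1, h2, h3⟩ := h
  by_cases h : x ∈ S₄
  · obtain ⟨y, hy, hy'⟩ := SetLike.not_le_iff_exists.1 h4
    obtain ⟨a, ha⟩ := av_one h1 y
    obtain ⟨b, hb⟩ := av_one h2 y
    obtain ⟨c, hc⟩ := av_one h3 y
    obtain ⟨t, t1, t2, t3⟩ := hK a b c
    exact ⟨_, P.add_mem hy (P.smul_mem t hx), ha t t1, hb t t2, hc t t3,
      fun h' => hy' ((S₄.add_mem_iff_left (S₄.smul_mem t h)).1 h')⟩
  · exact ⟨x, hx, h1, h2, h3, h⟩

theorem av4 (hK : Big K) {P S₁ S₂ S₃ S₄ : Submodule K V} (h1 : ¬ P ≤ S₁) (h2 : ¬ P ≤ S₂) (h3 : ¬ P ≤ S₃) (h4 : ¬ P ≤ S₄) :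
    ∃ x ∈ P, x ∉ S₁ ∧ x ∉ S₂ ∧ x ∉ S₃ ∧ x ∉ S₄ := by
  obtain ⟨x, hx, hx'⟩ := SetLike.not_le_iff_exists.1 h1
  obtain ⟨y, hy, a, -, -, b⟩ := av_step hK ⟨x, hx, hx', hx', hx'⟩ h2
  obtain ⟨z, hz, a, b, -, c⟩ := av_step hK ⟨y, hy, a, b, b⟩ h3
  exact av_step hK ⟨z, hz, a, b, c⟩ h4

theorem exists_f (hK : Big K) {y x u₁ u₂ u₃ : V} (h0 : x ∉ span K {y}) (h1 : u₁ ∉ span K {y}) (h2 : u₂ ∉ span K {y})
    (h3 : u₃ ∉ span K {y}) : ∃ f : Dual K V, f y = 0 ∧ f x = 1 ∧ f u₁ ≠ 0 ∧ f u₂ ≠ 0 ∧ f u₃ ≠ 0 := by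
  have key : ∀ u, u ∉ span K {y} → ¬ LinearMap.ker (Dual.eval K V y) ≤ LinearMap.ker (Dual.eval K V u) := fun u hu h => by
    obtain ⟨f, hf, hf'⟩ := exists_dual_map_eq_bot_of_notMem hu inferInstance
    exact hf (h (show f y = 0 from (mem_bot K).1 (hf' ▸ mem_map_of_mem (mem_span_singleton_self y))))
  obtain ⟨g, hg, a, b, c, d⟩ := av4 hK (key _ h0) (key _ h1) (key _ h2) (key _ h3)
  simp only [LinearMap.mem_ker, Dual.eval_apply] at hg a b c d
  exact ⟨(g x)⁻¹ • g, by simp [hg], by simp [a], by simp [a, b], by simp [a, c], by simp [a, d]⟩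

/-- rank at most one -/
def R1 (N : End K V) : Prop := ∃ w, ∀ v, ∃ c : K, N v = c • w

theorem R1.sq [FiniteDimensional K V] {A : End K V} (h : R1 (A - 1)) (hd : LinearMap.det A = 1) (v : V) :
    (A - 1) ((A - 1) v) = 0 := by
  obtain ⟨w, hw⟩ := h
  by_cases h0 : w = 0
  · obtain ⟨c, hc⟩ := hw ((A - 1) v); simp only [hc, h0, smul_zero]
  choose ψ hψ using hw
  let ψ' : Dual K V :=
    { toFun := ψ
      map_add' := fun a b => smul_left_injective K h0 (by simp only [add_smul, ← hψ, map_add])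
      map_smul' := fun a b => smul_left_injective K h0 (by simp only [smul_eq_mul, mul_smul, ← hψ, map_smul, RingHom.id_apply]) }
  have : A = LinearMap.transvection ψ' w := LinearMap.ext fun v => by
    have := hψ v
    rw [LinearMap.sub_apply, sub_eq_iff_eq_add'] at this
    exact this
  rw [this, LinearMap.transvection.det, add_eq_left] at hd
  rw [hψ v, map_smul, hψ w, show ψ w = 0 from hd, zero_smul, smul_zero]

theorem exists_x [FiniteDimensional K V] (hK : Big K) {N : End K V} (hs : ∀ c : K, N ≠ c • 1) (hR : ¬ R1 N) (e : V) {r : Dual K V}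
    (hr : r ≠ 0) : ∃ x, r x ≠ 0 ∧ N x ∉ span K {e} ∧ x ∉ span K {N x} ∧ (2 < finrank K V → ∃ v, N v ∉ span K {x, N x}) := by
  have h1 : ¬ ⊤ ≤ LinearMap.ker r := fun h => hr (LinearMap.ker_eq_top.1 (top_le_iff.1 h))
  have h2 : ¬ ⊤ ≤ (span K {e}).comap N := fun h => hR ⟨e, fun v => by
    obtain ⟨c, hc⟩ := mem_span_singleton.1 (h (mem_top (x := v))); exact ⟨c, hc.symm⟩⟩
  by_cases h : ⊤ ≤ LinearMap.range N
  · have h3 : ∀ c : K, ¬ ⊤ ≤ End.eigenspace N c := fun c h => hs c (LinearMap.ext fun v => End.mem_eigenspace_iff.1 (h mem_top))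
    have h4 : ∀ x, 2 < finrank K V → ∃ v, N v ∉ span K {x, N x} := fun x h2 => by
      classical
      by_contra hc
      push Not at hc
      have := finrank_mono (h.trans (show LinearMap.range N ≤ span K {x, N x} by rintro _ ⟨v, rfl⟩; exact hc v))
      have h5 := (finrank_span_finset_le_card (R := K) ({x, N x} : Finset V)).trans Finset.card_le_two
      rw [finrank_top] at this
      rw [Set.finrank, Finset.coe_pair] at h5
      omega
    have h5 : ∀ x, N x ∉ span K {e} → x ∈ span K {N x} → ∃ c, x ∈ End.eigenspace N c := fun x h1 h2 => by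
      obtain ⟨c, hc⟩ := mem_span_singleton.1 h2
      have : c ≠ 0 := by rintro rfl; exact h1 (by rw [← hc]; simp)
      exact ⟨c⁻¹, End.mem_eigenspace_iff.2 (by rw [eq_inv_smul_iff₀ this, hc])⟩
    obtain ⟨x, -, a, b, -⟩ := av4 hK h1 h2 h2 h2
    by_cases hx : x ∈ span K {N x}
    swap; · exact ⟨x, a, b, hx, h4 x⟩
    obtain ⟨c, hc⟩ := h5 x b hx
    obtain ⟨y, -, a', b', c', -⟩ := av4 hK h1 h2 (h3 c) h2
    by_cases hy : y ∈ span K {N y}
    swap; · exact ⟨y, a', b', hy, h4 y⟩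
    obtain ⟨d, hd⟩ := h5 y b' hy
    have hP : ∀ S : Submodule K V, ∀ z ∈ ({x, y} : Set V), z ∉ S → ¬ span K {x, y} ≤ S := fun S z hz h h' => h (h' (subset_span hz))
    have x0 : x ≠ 0 := by rintro rfl; simp at a
    obtain ⟨z, hz, a'', b'', c'', d''⟩ := av4 hK (hP _ x (by simp) a) (hP _ x (by simp) b) (hP _ y (by simp) c')
      (hP (End.eigenspace N d) x (by simp) fun h => c' (by
        rw [End.mem_eigenspace_iff] at h hc
        rwa [smul_left_injective K x0 (hc.symm.trans h)]))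
    refine ⟨z, a'', b'', fun h => ?_, h4 z⟩
    obtain ⟨μ, hμ⟩ := h5 z b'' h
    obtain ⟨s, t, rfl⟩ := mem_span_pair.1 hz
    rw [End.mem_eigenspace_iff] at hc hd hμ
    have ht : t ≠ 0 := by rintro rfl; exact c'' (by simp [hc, smul_comm s])
    have hμd : μ ≠ d := fun e => d'' (End.mem_eigenspace_iff.2 (e ▸ hμ))
    refine c' ((smul_mem_iff _ (mul_ne_zero ht (sub_ne_zero.2 hμd))).1 ?_)
    rw [map_add, map_smul, map_smul, hc, hd] at hμ
    rw [show (t * (μ - d)) • y = (s * (c - μ)) • x by linear_combination (norm := module) -hμ]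
    exact smul_mem _ _ (End.mem_eigenspace_iff.2 hc)
  · obtain ⟨x, -, a, b, c, -⟩ := av4 hK h1 h2 h h
    refine ⟨x, a, b, fun h => c (span_le.2 (by simp) h), fun _ => ?_⟩
    by_contra hc
    push Not at hc
    refine hR ⟨N x, fun v => ?_⟩
    obtain ⟨s, t, h⟩ := mem_span_pair.1 (hc v)
    have : s = 0 := by_contra fun hs => c ((smul_mem_iff _ hs).1 ⟨v - t • x, by simp [← h]⟩)
    exact ⟨t, by simp [← h, this]⟩

/-- the reduced map -/
def M (N : End K V) (x : V) (f : Dual K V) (v : V) : V := N v - f (N v) • (x + N x)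

/-- bad choices of the functional -/
def Bad (N : End K V) (x : V) (f : Dual K V) : Prop :=
  f x = 1 ∧ f (N x) = 0 ∧ ((∃ c : K, ∀ v, f v = 0 → M N x f v = c • v) ∨
    ((∃ w, ∀ v, f v = 0 → ∃ c : K, M N x f v = c • w) ∧ ∀ v, f v = 0 → M N x f (M N x f v) = 0))

theorem exists_u {N : End K V} {x v₀ : V} (hx : x ∉ span K {N x}) (hy : N x ≠ 0) (hA : ∀ v, v + N v = 0 → v = 0)
    (hv : N v₀ ∉ span K {x, N x}) : ∃ u, u ∉ span K {N x} ∧ ∀ f, Bad N x f → f u = 0 := by
  by_cases h0 : ∃ f, Bad N x f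
  swap; · exact ⟨x, hx, fun f hf => (h0 ⟨f, hf⟩).elim⟩
  obtain ⟨f₀, h0⟩ := h0
  have ind : ∀ s t : K, s • x + t • N x = 0 → s = 0 ∧ t = 0 := fun s t h => by
    have hs := congrArg f₀ h
    simp only [map_add, map_smul, h0.1, h0.2.1, smul_eq_mul, mul_one, mul_zero, add_zero, map_zero] at hs
    exact ⟨hs, by simpa [hs, hy] using h⟩
  have hW : span K {N x} ≤ span K {x, N x} := span_mono (by simp)
  have mem : ∀ (s t : K) {v}, v = s • x + t • N x → v ∈ span K {x, N x} := fun s t v h => mem_span_pair.2 ⟨s, t, h.symm⟩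
  by_cases hz : N (N x) ∈ span K {x, N x}
  swap
  · have key : ∀ f, Bad N x f → ∃ γ : K, N (N (N x)) - f (N (N x)) • (N x + N (N x)) = γ • (x + N x) := fun f hf => by
      rcases hf.2.2 with ⟨c, hc⟩ | ⟨-, h⟩
      · have := hc _ hf.2.1
        rw [M] at this
        exact (hz (mem (f (N (N x))) (f (N (N x)) + c) (by linear_combination (norm := module) this))).elim
      · have := h _ hf.2.1
        rw [M, sub_eq_zero] at this
        exact ⟨_, by rw [← this]; simp [M]⟩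
    refine ⟨N (N x) - f₀ (N (N x)) • x, fun h => hz ?_, fun f hf => ?_⟩
    · obtain ⟨c, hc⟩ := mem_span_singleton.1 h
      exact mem (f₀ (N (N x))) c (by linear_combination (norm := module) -hc)
    · obtain ⟨γ, h1⟩ := key f hf
      obtain ⟨γ₀, h2⟩ := key f₀ h0
      rw [map_sub, map_smul, hf.1, smul_eq_mul, mul_one]
      by_contra h
      exact hz ((smul_mem_iff _ h).1 (mem (γ₀ - γ) (γ₀ - γ - (f (N (N x)) - f₀ (N (N x))))
        (by linear_combination (norm := module) h2 - h1)))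
  obtain ⟨α, β, hz⟩ := mem_span_pair.1 hz
  have My : ∀ f, Bad N x f → M N x f (N x) = (β - α) • N x := fun f hf => by
    rw [M, ← hz]; simp only [map_add, map_smul, hf.1, hf.2.1]; simp only [smul_eq_mul]; module
  have fv : ∀ f, Bad N x f → ∀ v, f (v - f v • x) = 0 := fun f hf v => by simp [hf.1]
  have Mv : ∀ f, M N x f (v₀ - f v₀ • x) ∉ span K {x, N x} := fun f h => hv (by
    obtain ⟨s, t, h⟩ := mem_span_pair.1 h
    rw [M] at h
    generalize f (N _) = γ at h
    rw [map_sub, map_smul] at h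
    exact mem (s + γ) (t + γ + f v₀) (by linear_combination (norm := module) -h))
  by_cases hb : β = α
  · have snd : ∀ f, Bad N x f → (∃ w, ∀ v, f v = 0 → ∃ c : K, M N x f v = c • w) ∧
        ∀ v, f v = 0 → M N x f (M N x f v) = 0 := fun f hf => hf.2.2.resolve_left fun ⟨c, hc⟩ => by
      have h1 := hc _ hf.2.1
      rw [My f hf, hb, sub_self, zero_smul, eq_comm, smul_eq_zero_iff_left hy] at h1
      exact Mv f (by rw [hc _ (fv f hf _), h1, zero_smul]; exact zero_mem _)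
    refine ⟨_, fun h => Mv f₀ (hW h), fun f hf => ?_⟩
    have h1 := (snd f₀ h0).2 _ (fv f₀ h0 v₀)
    generalize M N x f₀ (v₀ - f₀ v₀ • x) = u at h1
    obtain ⟨w, hw⟩ := (snd f hf).1
    obtain ⟨c, hc⟩ := hw _ (fv f hf u)
    obtain ⟨c', hc'⟩ := hw _ (fv f hf v₀)
    rw [M] at hc h1
    generalize f (N _) = γ at hc
    generalize f₀ (N _) = γ₀ at h1
    rw [map_sub, map_smul] at hc
    have h2 : c • w = (γ₀ - γ) • x + (γ₀ - γ - f u) • N x := by linear_combination (norm := module) h1 - hc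
    have h3 : c = 0 := by_contra fun h => Mv f (hc' ▸ smul_mem _ _ ((smul_mem_iff _ h).1 (mem _ _ h2)))
    obtain ⟨h4, h5⟩ := ind _ _ (h2.symm.trans (by rw [h3, zero_smul]))
    simpa [h4] using h5
  · have fst : ∀ f, Bad N x f → ∀ v, f v = 0 → M N x f v = (β - α) • v := fun f hf => by
      rcases hf.2.2 with ⟨c, hc⟩ | ⟨-, h⟩
      · rwa [smul_left_injective K hy ((My f hf).symm.trans (hc _ hf.2.1))]
      · have h1 := h _ hf.2.1
        have h2 : M N x f ((β - α) • N x) = (β - α) • M N x f (N x) := by simp only [M, map_smul, smul_eq_mul]; module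
        rw [My f hf, h2, My f hf] at h1
        simp [hy, sub_eq_zero, hb] at h1
    have h1 := fst f₀ h0 _ (fv f₀ h0 v₀)
    have h2 : v₀ - f₀ v₀ • x ∉ span K {x, N x} := fun h => Mv f₀ (h1 ▸ smul_mem _ _ h)
    refine ⟨_, fun h => h2 (hW h), fun f hf => ?_⟩
    generalize v₀ - f₀ v₀ • x = u at h1 h2
    have hc := fst f hf _ (fv f hf u)
    rw [M] at hc h1
    generalize f (N _) = γ at hc
    generalize f₀ (N _) = γ₀ at h1
    rw [map_sub, map_smul] at hc
    obtain ⟨h4, h5⟩ := ind (γ₀ - γ + (β - α) * f u) (γ₀ - γ - f u) (by linear_combination (norm := module) hc - h1)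
    refine (mul_eq_zero.1 (show (β - α + 1) * f u = 0 by linear_combination h4 - h5)).resolve_left fun h => h2 ?_
    have := hA (u - γ₀ • x) (by
      rw [show β - α = -1 by linear_combination h] at h1
      rw [map_sub, map_smul]
      linear_combination (norm := module) h1)
    exact mem γ₀ 0 (by linear_combination (norm := module) this)

/-- regular unipotent -/
def Rg (a : End K V) : Prop := IsNilpotent (a - 1) ∧ ∃ w, ∀ v, a v = v → ∃ c : K, v = c • w

variable {f : Dual K V} {x : V}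

/-- projection onto the kernel -/
def pr (h : f x = 1) : V →ₗ[K] LinearMap.ker f := LinearMap.codRestrict _ (1 - f.smulRight x) fun v => by simp [h]

theorem pr_coe (h : f x = 1) (v : V) : (pr h v : V) = v - f v • x := rfl

theorem pr_ker (h : f x = 1) (v : LinearMap.ker f) : pr h v = v := Subtype.ext (by simp [pr_coe, LinearMap.mem_ker.1 v.2])

theorem pr_self (h : f x = 1) : pr h x = 0 := Subtype.ext (by simp [pr_coe, h])

/-- block extension -/
def bl (h : f x = 1) (a : End K (LinearMap.ker f)) (g : Dual K V) (y : V) : End K V :=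
  (LinearMap.ker f).subtype ∘ₗ a ∘ₗ pr h + g.smulRight y

theorem bl_apply (h : f x = 1) (a : End K (LinearMap.ker f)) (g : Dual K V) (y v : V) :
    bl h a g y v = a (pr h v) + g v • y := rfl

theorem rg_lo (h : f x = 1) {a : End K (LinearMap.ker f)} {y : V} (hy : f y = 1) (ha : Rg a)
    (h1 : pr h y ∉ LinearMap.range (a - 1)) : Rg (bl h a f y) := by
  obtain ⟨⟨k, hk⟩, w, hw⟩ := ha
  have h2 : ∀ v, (bl h a f y - 1) v = ((a - 1) (pr h v) + f v • pr h y : LinearMap.ker f) := fun v => by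
    simp only [LinearMap.sub_apply, bl_apply, End.one_apply, coe_add, AddSubgroupClass.coe_sub, coe_smul, pr_coe, hy]; module
  have h3 : ∀ (j : ℕ) (v : LinearMap.ker f), ((bl h a f y - 1) ^ j) v = ((a - 1) ^ j) v := fun j v => by
    induction j with
    | zero => rfl
    | succ j ih => rw [pow_succ', End.mul_apply, ih, h2, pr_ker, LinearMap.mem_ker.1 (Subtype.prop _), pow_succ']; simp
  refine ⟨⟨k + 1, LinearMap.ext fun v => by rw [pow_succ, End.mul_apply, h2, h3, hk]; rfl⟩, w, fun v hv => ?_⟩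
  have h4 := h2 v
  rw [LinearMap.sub_apply, hv, End.one_apply, sub_self, eq_comm, coe_eq_zero] at h4
  have h5 : f v = 0 := by_contra fun h' => h1 ((smul_mem_iff _ h').1 ⟨-pr h v, by rw [map_neg, neg_eq_iff_add_eq_zero, h4]⟩)
  obtain ⟨c, hc⟩ := hw (pr h v) (by simpa [h5, sub_eq_zero] using h4)
  exact ⟨c, by simpa [pr_coe, h5] using congrArg Subtype.val hc⟩

theorem rg_up (h : f x = 1) {b : End K (LinearMap.ker f)} {g : Dual K V} (hg : g x = 1) (hb : Rg b)
    (h1 : ∀ v, b v = v → g v = 0 → v = 0) : IsNilpotent (bl h b g x - 1) ∧ ∀ v, bl h b g x v = v → v = f v • x := by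
  obtain ⟨⟨k, hk⟩, -⟩ := hb
  have h2 : ∀ v, pr h (bl h b g x v) = b (pr h v) := fun v => by simp [bl_apply, pr_ker, pr_self]
  have h3 : ∀ (j : ℕ) v, pr h (((bl h b g x - 1) ^ j) v) = ((b - 1) ^ j) (pr h v) := fun j v => by
    induction j with
    | zero => rfl
    | succ j ih => rw [pow_succ', End.mul_apply, pow_succ', End.mul_apply, ← ih]; simp [h2]
  refine ⟨⟨k + 1, LinearMap.ext fun v => ?_⟩, fun v hv => ?_⟩
  · have := congrArg Subtype.val (h3 k v)
    rw [hk, pr_coe, LinearMap.zero_apply, coe_zero, sub_eq_zero] at this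
    rw [pow_succ', End.mul_apply, this]
    simp [bl_apply, pr_self, hg]
  · have h4 := h2 v
    rw [hv] at h4
    have h5 := congrArg f hv
    rw [bl_apply, map_add, LinearMap.mem_ker.1 (Subtype.prop _), map_smul, h] at h5
    have := congrArg Subtype.val (h1 _ h4.symm (by simp [pr_coe, hg, ← h5]))
    rwa [pr_coe, coe_zero, sub_eq_zero] at this

theorem det_bl [FiniteDimensional K V] (h : f x = 1) (a : End K (LinearMap.ker f)) {y : V} (hy : f y = 1) :
    LinearMap.det (bl h a f y) = LinearMap.det a := by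
  have h1 : ∀ v, f (bl h a f y v) = f v := fun v => by simp [bl_apply, LinearMap.mem_ker.1 (Subtype.prop _), hy]
  have h2 : LinearMap.ker f ≤ (LinearMap.ker f).comap (bl h a f y) := fun v hv => (h1 v).trans hv
  rw [LinearMap.det_eq_det_mul_det _ _ h2, show (LinearMap.ker f).mapQ _ _ h2 = LinearMap.id from
    linearMap_qext _ (LinearMap.ext fun v => (Submodule.Quotient.eq _).2 (by simp [h1])), LinearMap.det_id, mul_one]
  congr 1
  ext v
  simp [bl_apply, pr_ker, LinearMap.mem_ker.1 v.2]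

theorem main (hK : Big K) (n : ℕ) : ∀ {V : Type u} [AddCommGroup V] [Module K V] [FiniteDimensional K V] (A : End K V),
    finrank K V = n → LinearMap.det A = 1 → (1 < n → (∀ c : K, A - 1 ≠ c • 1) ∧ ¬ R1 (A - 1)) → ∀ e ≠ 0, ∀ r : Dual K V, r ≠ 0 →
    ∃ a b, a * b = A ∧ Rg a ∧ Rg b ∧ e ∉ LinearMap.range (a - 1) ∧ ∀ v, b v = v → r v = 0 → v = 0 := by
  induction n using Nat.strong_induction_on with | _ n ih => ?_
  intro V _ _ _ A hn hd hA e he r hr
  by_cases h1 : n ≤ 1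
  · obtain ⟨w, hw⟩ := finrank_le_one_iff.1 (hn ▸ h1)
    have h2 : Rg (1 : End K V) := ⟨by simp, w, fun v _ => (hw v).imp fun _ h => h.symm⟩
    refine ⟨1, 1, LinearMap.ext fun v => ?_, h2, h2, by simpa using he, fun v _ hv => ?_⟩
    · obtain ⟨c, hc⟩ := hw ((A - 1) w)
      have := R1.sq ⟨w, fun v => (hw _).imp fun _ h => h.symm⟩ hd w
      rw [← hc, map_smul, ← hc, smul_smul, smul_eq_zero, mul_self_eq_zero, ← smul_eq_zero, hc, LinearMap.sub_apply,
        sub_eq_zero] at this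
      obtain ⟨c, rfl⟩ := hw v
      simp [this]
    · obtain ⟨c, rfl⟩ := hw v
      have : r w ≠ 0 := fun h => hr (LinearMap.ext fun v => by obtain ⟨c, rfl⟩ := hw v; simp [h])
      simp_all
  obtain ⟨hs, hR⟩ := hA (by omega)
  obtain ⟨N, rfl⟩ : ∃ N, A = 1 + N := ⟨A - 1, by simp⟩
  rw [add_sub_cancel_left] at hs hR
  obtain ⟨x, x1, x2, x3, x4⟩ := exists_x hK hs hR e hr
  have x5 : N x ≠ 0 := fun h => x2 (h ▸ zero_mem _)
  obtain ⟨u, u1, u2⟩ : ∃ u, u ∉ span K {N x} ∧ (2 < n → ∀ f, Bad N x f → f u = 0) := by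
    by_cases h : 2 < n
    · obtain ⟨v, hv⟩ := x4 (hn ▸ h)
      obtain ⟨u, u1, u2⟩ := exists_u x3 x5 (fun v hv => (LinearMap.ker_eq_bot'.1 ((LinearMap.isUnit_iff_ker_eq_bot _).1
        ((LinearMap.isUnit_iff_isUnit_det _).2 (hd ▸ isUnit_one)))) v hv) hv
      exact ⟨u, u1, fun _ => u2⟩
    · exact ⟨x, x3, fun h' => (h h').elim⟩
  obtain ⟨v₂, hv₂⟩ : ∃ v, N v ∉ span K {N x} := by
    by_contra hc
    push Not at hc
    exact hR ⟨N x, fun v => (mem_span_singleton.1 (hc v)).imp fun _ h => h.symm⟩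
  obtain ⟨f, f0, f1, f2, f3, f4⟩ := exists_f hK x3 (u₁ := e) (fun h => by
    obtain ⟨c, rfl⟩ := mem_span_singleton.1 h
    exact x2 (mem_span_singleton.2 ⟨c⁻¹, inv_smul_smul₀ (left_ne_zero_of_smul he) _⟩)) hv₂ u1
  let g : Dual K V := f ∘ₗ (1 + N)
  have hg : ∀ v, g v = f v + f (N v) := fun v => by simp [g]
  have fy : f (x + N x) = 1 := by simp [f0, f1]
  have gx : g x = 1 := fy
  let A₁ : End K (LinearMap.ker f) := pr f1 ∘ₗ (1 + N - g.smulRight (x + N x)) ∘ₗ (LinearMap.ker f).subtype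
  have hA₁ : ∀ v : LinearMap.ker f, (A₁ v : V) = v + M N x f v := fun v => by
    simp only [A₁, LinearMap.comp_apply, pr_coe, M]
    simp [hg, LinearMap.mem_ker.1 v.2, f0, f1, add_sub_assoc]
  have hA₂ : ∀ v : LinearMap.ker f, ((A₁ - 1) v : V) = M N x f v := fun v => by simp [hA₁]
  have mul : ∀ a b, a * b = A₁ → bl f1 a f (x + N x) * bl f1 b g x = 1 + N := fun a b h => LinearMap.ext fun v => by
    simp only [End.mul_apply, bl_apply, map_add, map_smul, pr_ker, pr_self, LinearMap.mem_ker.1 (Subtype.prop _), f1]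
    rw [← End.mul_apply, h, hA₁, M, pr_coe, hg]
    simp only [map_sub, map_smul, f0, map_zero, coe_zero, LinearMap.add_apply, End.one_apply]
    module
  have hd₁ : LinearMap.det A₁ = 1 := by
    have := congrArg LinearMap.det (mul A₁ 1 (mul_one _))
    rw [hd, map_mul, det_bl f1 _ fy, show bl f1 1 g x = LinearMap.transvection (g - f) x from LinearMap.ext fun v => by
      simp only [bl_apply, End.one_apply, pr_coe, LinearMap.transvection.apply, LinearMap.sub_apply]; module] at this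
    simpa [gx, f1] using this
  have hn₁ : finrank K (LinearMap.ker f) + 1 = n := hn ▸ Dual.finrank_ker_add_one_of_ne_zero (by rintro rfl; simp at f1)
  obtain ⟨a, b, h1, h2, h3, h4, h5⟩ := ih _ (by omega) A₁ rfl hd₁ (fun h => ⟨fun c hc => f4 (u2 (by omega) f ⟨f1, f0, Or.inl
      ⟨c, fun v hv => by rw [← hA₂ ⟨v, hv⟩, hc]; rfl⟩⟩), fun hR => f4 (u2 (by omega) f ⟨f1, f0, Or.inr ⟨by
        obtain ⟨w, hw⟩ := hR
        exact ⟨w, fun v hv => (hw ⟨v, hv⟩).imp fun c hc => by rw [← hA₂ ⟨v, hv⟩, hc]; rfl⟩,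
        fun v hv => by rw [← hA₂ ⟨v, hv⟩, ← hA₂, hR.sq hd₁]; rfl⟩⟩)⟩) (pr f1 (x + N x))
    (fun h => x5 (by simpa [pr_coe, f0, f1] using congrArg Subtype.val h)) (g ∘ₗ (LinearMap.ker f).subtype)
    fun h => f3 (by simpa [pr_coe, hg, f0, f1] using LinearMap.congr_fun h (pr f1 v₂))
  have h6 := rg_up f1 gx h3 h5
  refine ⟨_, _, mul a b h1, rg_lo f1 fy h2 h4, ⟨h6.1, x, fun v hv => ⟨_, h6.2 v hv⟩⟩, ?_, fun v hv h => ?_⟩
  · rintro ⟨v, rfl⟩
    exact f2 (by simp [bl_apply, LinearMap.mem_ker.1 (Subtype.prop _), f0, f1])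
  · rw [h6.2 v hv, map_smul, smul_eq_mul, mul_eq_zero_iff_right x1] at h
    rw [h6.2 v hv, h, zero_smul]

theorem Rg.inv {a : End K V} (h : Rg a) : ∃ b, a * b = 1 ∧ b * a = 1 ∧ Rg b := by
  obtain ⟨u, rfl⟩ : IsUnit a := by simpa using h.1.isUnit_add_one
  refine ⟨↑u⁻¹, by simp, by simp, ?_, h.2.imp fun w hw v hv => hw v (by conv_lhs => rw [← hv, ← End.mul_apply]; simp)⟩
  rw [show ((u⁻¹ : (End K V)ˣ) : End K V) - 1 = -(u - 1) * u⁻¹ by simp [sub_mul]]
  exact Commute.isNilpotent_mul_right (((Commute.refl _).units_inv_right.sub_left (Commute.one_left _)).neg_left) h.1.neg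

theorem transv [FiniteDimensional K V] (hK : Big K) {A : End K V} (hd : LinearMap.det A = 1) (hR : R1 (A - 1)) (h1 : A ≠ 1)
    (ex : ∀ S : Submodule K V, 0 < finrank K S → ∃ a : End K S, Rg a) : ∃ a b, a * b = A ∧ Rg a ∧ Rg b := by
  obtain ⟨v₀, hv₀⟩ : ∃ v, (A - 1) v ≠ 0 := by
    by_contra hc; push Not at hc; exact h1 (sub_eq_zero.1 (LinearMap.ext hc))
  have hx := hR.sq hd v₀
  obtain ⟨w, hw⟩ := hR
  obtain ⟨f, hf⟩ := Module.Projective.exists_dual_eq_one K hv₀
  set x := (A - 1) v₀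
  have h2 : ∀ v, (A - 1) v = f ((A - 1) v) • x := fun v => by
    obtain ⟨c, hc⟩ := hw v
    obtain ⟨d, hd⟩ := hw v₀
    have d0 : d ≠ 0 := by rintro rfl; exact hv₀ (hd.trans (zero_smul _ _))
    have : (A - 1) v = (c / d) • x := by rw [hc, show x = d • w from hd, smul_smul, div_mul_cancel₀ _ d0]
    rw [this, map_smul, hf, smul_eq_mul, mul_one]
  have p0 : pr hf v₀ ≠ 0 := fun h => hv₀ (by
    have := congrArg (fun v : LinearMap.ker f => (A - 1) v) h
    simpa only [pr_coe, map_sub, map_smul, hx, smul_zero, sub_zero, coe_zero, map_zero] using this)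
  obtain ⟨a, ha⟩ := ex (LinearMap.ker f) (finrank_pos_iff_exists_ne_zero.2 ⟨_, p0⟩)
  obtain ⟨b, h3, h4, hb⟩ := ha.inv
  obtain ⟨z, hz⟩ := ha.2
  obtain ⟨ρ, hρ⟩ : ∃ ρ : Dual K (LinearMap.ker f), ∀ c : K, ρ (c • z) • z = c • z := by
    by_cases h : z = 0
    · exact ⟨0, by simp [h]⟩
    · obtain ⟨ρ, hρ⟩ := Module.Projective.exists_dual_eq_one K h
      exact ⟨ρ, by simp [hρ]⟩
  obtain ⟨t, t0, t1, -⟩ := hK 0 (f ((A - 1) z)) 0
  have h5 := rg_up hf (g := f + t • ρ ∘ₗ pr hf) (by simp [hf, pr_self]) ha fun v hv h => by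
    obtain ⟨c, rfl⟩ := hz v hv
    simp only [LinearMap.add_apply, LinearMap.mem_ker.1 (Subtype.prop _), LinearMap.smul_apply, LinearMap.comp_apply, pr_ker,
      zero_add, smul_eq_zero_iff_right t0] at h
    rw [← hρ, h, zero_smul]
  have h6 := rg_up hf (g := f + f ∘ₗ (A - 1) - t • ρ ∘ₗ b ∘ₗ pr hf) (by
      rw [LinearMap.sub_apply, LinearMap.add_apply, LinearMap.comp_apply, hx]; simp [hf, pr_self]) hb
    fun v hv h => by
      obtain ⟨c, rfl⟩ := hz v (by conv_lhs => rw [← hv, ← End.mul_apply, h3, End.one_apply])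
      rw [LinearMap.sub_apply, LinearMap.add_apply, LinearMap.mem_ker.1 (Subtype.prop _), LinearMap.smul_apply,
        LinearMap.comp_apply, LinearMap.comp_apply, LinearMap.comp_apply, pr_ker, hv, zero_add, sub_eq_zero] at h
      have := congrArg (· • z) h
      simp only [smul_assoc, hρ] at this
      simp only [coe_smul, map_smul, smul_assoc] at this
      refine (smul_eq_zero_iff_right (sub_ne_zero.2 t1)).1 ?_
      linear_combination (norm := module) -this
  refine ⟨_, _, LinearMap.ext fun v => ?_, ⟨h5.1, x, fun v hv => ⟨_, h5.2 v hv⟩⟩, ⟨h6.1, x, fun v hv => ⟨_, h6.2 v hv⟩⟩⟩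
  have := h2 v
  rw [LinearMap.sub_apply, sub_eq_iff_eq_add] at this
  simp only [End.mul_apply, bl_apply, map_add, map_smul, pr_ker, pr_self, LinearMap.add_apply, LinearMap.smul_apply,
    LinearMap.comp_apply, LinearMap.mem_ker.1 (Subtype.prop _), hf, map_zero]
  rw [← End.mul_apply, h3, this, LinearMap.sub_apply (f + _)]
  simp only [End.one_apply, pr_coe, LinearMap.add_apply, LinearMap.comp_apply, LinearMap.smul_apply, coe_zero]
  module

end H17.Lev
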