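import Cfsg.Agent.H17.Four
import Cfsg.Agent.H21.MinAct

/-! Assorted consequences of characteristic `p`: `CharP.eq_bot_of_omega` (Bender's lemma on `p'`-subgroups normalized by
an abelian `A ≥ Ω₁(C(A))`), `le_pPrimeCore_of_omega`, `eq_bot_of_sylow_norm` (a Sylow 2-subgroup of rank `≥ 3` normalizes
no odd subgroup in characteristic 2 type), `not_connected_iff` (strongly `p`-embedded subgroups and 1-connectedness). -/

set_option autoImplicit false
set_option linter.unusedSectionVars false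
set_option linter.unusedVariables false

namespace H17
open Subgroup Cfsg H18
open scoped commutatorElement

variable {G : Type*} [Group G] [Finite G] {A B D E F H K L M P Q R S T U V W X Y Z : Subgroup G}
  {a b c g j t u w x y z : G} {p q k : ℕ}

theorem CharP.eq_bot_of_omega [hp : Fact p.Prime] (h2 : p ≠ 2) (h : CharP p H) (hA : PiGrp {p} A) (hAH : A ≤ H)
    (hΩ : ∀ x ∈ H ⊓ C(A), x ^ p = 1 → x ∈ A) (hQ : PiGrp {p}ᶜ Q) (hQH : Q ≤ H) (hAQ : A ≤ N(Q)) : Q = ⊥ := by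
  rw [CharP, oP_eq_pcore] at h
  have hP : PiGrp {p} O[{p}](H) := pcore_pi
  have nP : O[{p}](H) ⊴ H := pcore_nml
  by_cases e : O[{p}](H) ≤ C(Q)
  · exact (hP.of_le ((le_inf hQH (cent_symm e)).trans h)).eq_bot hQ
  obtain ⟨U, hU, m⟩ := H21.exists_minAct (B := A ⊔ Q) hP ((sup_le hAH hQH).trans nP.norm) le_sup_right
    (sup_le hAQ le_normalizer) hQ e
  have n1 : A ≤ N(U) := le_sup_left.trans m.norm
  have n2 : Q ≤ N(U) := le_sup_right.trans m.norm
  refine absurd (cent_symm (H21.PxQ_odd h2 hA hQ m.pi hAQ n1 n2 ?_)) m.nt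
  have hW : U ⊓ C(A) ≤ A := fun x hx => hΩ x ⟨nP.le (hU hx.1), hx.2⟩ (m.pow h2 hx.1)
  refine comm_eq_bot_iff.1 (le_bot_iff.1 ?_)
  rw [← m.pi.inf_eq_bot hQ]
  exact le_inf ((H18.comm_mono inf_le_left le_rfl).trans (comm_le_left n2)) (comm_le_right (hW.trans hAQ))

theorem le_pPrimeCore_of_omega [hp : Fact p.Prime] (h2 : p ≠ 2) (h : IsPConstrained p G) (hA : IsPGroup p A)
    (hΩ : ∀ x ∈ C(A), orderOf x = p → x ∈ A) (hQ : ¬ p ∣ Nat.card Q) (hAQ : A ≤ N(Q)) : Q ≤ pPrimeCore p G := by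
  set f := QuotientGroup.mk' (pPrimeCore p G) with hf
  have hC := map_inf_centralizer f (A := A) (K := ⊤) le_normalizer_of_normal
    (.of_pgroup hA (not_dvd_ker_mk'_inf G p ⊤) le_normalizer_of_normal)
  rw [← map_mk'_eq_bot_iff]
  refine (isPConstrained_iff_charP.1 h).eq_bot_of_omega h2 (piGrp_of_isPGroup hp.out (hA.map f)) le_top ?_
    (((piNat_compl_iff hp.out).2 hQ).of_dvd (card_map_dvd _ _)) le_top (map_le_normalizer_map f hAQ)
  intro x hx e
  rw [hf, ← map_mk'_top, ← hf, ← hC] at hx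
  obtain ⟨c, hc, rfl⟩ := hx
  have h1 : c ^ p ∈ pPrimeCore p G := by rwa [← map_pow, hf, ← MonoidHom.mem_ker, QuotientGroup.ker_mk'] at e
  have h3 : (c ^ Nat.card (pPrimeCore p G)) ^ p = 1 := by
    rw [← pow_mul, mul_comm, pow_mul]; exact congrArg Subtype.val (pow_card_eq_one' (x := (⟨_, h1⟩ : pPrimeCore p G)))
  have h4 : c ^ Nat.card (pPrimeCore p G) ∈ A := by
    by_cases e1 : c ^ Nat.card (pPrimeCore p G) = 1
    · rw [e1]; exact A.one_mem
    · exact hΩ _ (pow_mem hc.2 _) (orderOf_eq_prime h3 e1)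
  refine mem_of_pow_mem_of_coprime (n := Nat.card (pPrimeCore p G)) ⟨_, h4, map_pow _ _ _⟩ ?_
  exact ((Nat.Prime.coprime_iff_not_dvd hp.out).2 (pPrimeCore_not_dvd G p)).symm.coprime_dvd_right (orderOf_dvd_of_pow_eq_one e)

theorem CharP.eq_bot_of_idx_two (h : CharP 2 H) (hS : Hall {2} S ⊤) (hTS : T ≤ S) (hT : T ≤ H) (hi : T.relIndex S ∣ 2)
    (hY : PiGrp {2}ᶜ Y) (hYH : Y ≤ H) (hn : T ≤ N(Y)) : Y = ⊥ := by
  have : Fact (Nat.Prime 2) := ⟨Nat.prime_two⟩
  rw [CharP, oP_eq_pcore] at h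
  generalize hQ : O[{2}](H) = Q at h
  have pQ : PiGrp {2} Q := hQ ▸ pcore_pi
  have nQ : Q ⊴ H := hQ ▸ pcore_nml
  have nY : Y ≤ N(Q) := hYH.trans nQ.norm
  have c1 : T ⊓ Q ≤ C(Y) := by
    refine comm_eq_bot_iff.1 (le_bot_iff.1 ?_)
    rw [← pQ.inf_eq_bot hY]
    exact le_inf ((H18.comm_mono inf_le_right le_rfl).trans (comm_le_left nY)) (comm_le_right (inf_le_left.trans hn))
  have c2 : T.relIndex Q ≤ 2 := by
    have a1 := card_sup_mul_card_inf (hT.trans nQ.norm)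
    have a2 := Nat.le_of_dvd Nat.card_pos
      (hS.card_dvd le_top ((hS.pi.of_le hTS).sup_norm pQ (hT.trans nQ.norm)))
    have a3 := H18.card_mul_relIndex hTS
    have a4 := H18.card_mul_relIndex' (A := T) (B := Q)
    have a5 := Nat.le_of_dvd two_pos hi
    have a6 : 0 < Nat.card T := Nat.card_pos
    have a7 : 0 < Nat.card (T ⊓ Q : Subgroup G) := Nat.card_pos
    by_contra hn
    have a8 : Nat.card T * (Nat.card (T ⊓ Q : Subgroup G) * 3) ≤ Nat.card T * Nat.card Q :=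
      Nat.mul_le_mul_left _ (a4 ▸ Nat.mul_le_mul_left _ (by omega))
    have a9 : Nat.card (T ⊔ Q : Subgroup G) ≤ Nat.card T * 2 := a2.trans (a3 ▸ Nat.mul_le_mul_left _ a5)
    nlinarith [Nat.mul_le_mul_right (Nat.card (T ⊓ Q : Subgroup G)) a9, Nat.mul_pos a6 a7]
  have c3 : ⁅Q, Y⁆ ≤ C(Y) := by
    by_cases e : Q ≤ T
    · exact (comm_le_left nY).trans ((le_inf e le_rfl).trans c1)
    have i2 : T.relIndex Q = 2 := le_antisymm c2 (one_lt_relIndex e)
    rw [commutator_le]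
    intro g hg y hy
    by_cases e1 : g ∈ T
    · rw [commutatorElement_eq_one_iff_mul_comm.2 (mem_C.1 (c1 ⟨e1, hg⟩) y hy).symm]; exact one_mem _
    have m : y * g⁻¹ * y⁻¹ ∈ Q := conj_mem_of_le_normalizer nY hy (Q.inv_mem hg)
    have m' : y * g⁻¹ * y⁻¹ ∉ T := fun e2 => e1 (by
      have := mem_C.1 (c1 ⟨e2, m⟩) y hy
      have e3 : y * g⁻¹ * y⁻¹ = g⁻¹ := by
        calc y * g⁻¹ * y⁻¹ = y⁻¹ * (y * (y * g⁻¹ * y⁻¹)) := by group
          _ = g⁻¹ := by rw [this]; group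
      exact T.inv_mem_iff.1 (e3 ▸ e2))
    rw [show ⁅g, y⁆ = g * (y * g⁻¹ * y⁻¹) by simp only [commutatorElement_def]; group]
    exact c1 ⟨H9.mul_mem_of_relIndex_two i2 hg m e1 m', Q.mul_mem hg m⟩
  have := (Cop.of_pgroup' (hY.not_dvd' Nat.prime_two rfl) pQ.isPGroup nY).commutator_eq_bot (comm_eq_bot_iff.2 c3)
  exact (pQ.of_le ((le_inf hYH (cent_symm (comm_eq_bot_iff.1 this))).trans h)).eq_bot hY

theorem eq_bot_of_sylow_norm (hS : Hall {2} S ⊤) (h3 : 2 < prank 2 S) (h : ∀ t : G, orderOf t = 2 → CharP 2 C1(t))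
    (hX : PiGrp {2}ᶜ X) (hn : S ≤ N(X)) : X = ⊥ := by
  obtain ⟨U, nU, hU⟩ := exists_nml_sq Nat.prime_two hS.pi h3
  refine le_bot_iff.1 (le_of_elt' Nat.prime_two hU.elem hU.card.ge
    (H1.cop_of_pi (hU.le.trans hn) (hU.elem.pi Nat.prime_two) hX (Or.inl (hU.elem.pi Nat.prime_two).solv)) fun u hu h1 => ?_)
  have l : S ⊓ C(U) ≤ C1(u) := inf_le_right.trans (C_le_C1 hu)
  refine ((h u (hU.elem.orderOf Nat.prime_two hu h1)).eq_bot_of_idx_two (T := S ⊓ C(U)) hS inf_le_left l ?_ hX.inf_left inf_le_right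
    (norm_inf (inf_le_left.trans hn) (norm_C1 l))).le
  rw [inf_comm, inf_relIndex_right]
  exact relIndex_C_dvd hS.pi Nat.prime_two nU.norm hU.card

theorem charP_two_of_sub (h : IsPConstrained 2 H ∧ oddCore H = ⊥) : CharP 2 H := by
  have : Fact (Nat.Prime 2) := ⟨Nat.prime_two⟩
  refine charP_iff_oQE.2 ?_
  rw [oQE, isPConstrained_iff_pLay.1 h.1, sup_bot_eq, oQ]
  rw [show pPrimeCore 2 H = ⊥ from h.2, Subgroup.map_bot]

theorem charP_local_of_max (h : ∀ M : Subgroup G, IsMaximalTwoLocal M → CharP 2 M) (hT : IsPGroup 2 T) (h1 : T ≠ ⊥) :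
    CharP 2 N(T) := by
  have : Fact (Nat.Prime 2) := ⟨Nat.prime_two⟩
  obtain ⟨M, le, hM, mx⟩ := exists_maximal_sub (A := N(T)) IsTwoLocal ⟨T, hT, h1, rfl⟩
  have := (h M ⟨hM, mx⟩).normalizer hT (le_normalizer.trans le)
  rwa [inf_eq_right.2 le] at this

theorem charP_local_of_inv (h : ∀ t : G, orderOf t = 2 → CharP 2 C1(t)) (hT : IsPGroup 2 T) (h1 : T ≠ ⊥) :
    CharP 2 N(T) := by
  have : Fact (Nat.Prime 2) := ⟨Nat.prime_two⟩
  obtain ⟨z, hz, z2⟩ := exists_orderOf_of_ne_bot hT h1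
  exact (charP_normalizer_iff hT).2 (CharP.centralizer_of_mem hT hz (h z z2))

theorem charP_inv_of_local (h : ∀ T : Subgroup G, IsPGroup 2 T → T ≠ ⊥ → CharP 2 N(T)) (ht : orderOf t = 2) :
    CharP 2 C1(t) := by
  have : Fact (Nat.Prime 2) := ⟨Nat.prime_two⟩
  have p2 : IsPGroup 2 (zpowers t) := (piGrp_of_prime Nat.prime_two (by rw [Nat.card_zpowers, ht])).isPGroup
  have := (charP_normalizer_iff p2).1 (h _ p2 (by rw [Ne, zpowers_eq_bot]; rintro rfl; simp at ht))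
  rwa [C_zpowers] at this

theorem CharP.isPConstrained [Fact p.Prime] (h : CharP p H) : IsPConstrained p H :=
  isPConstrained_iff_pLay.2 (le_bot_iff.1 ((pLay_le_oQE p H).trans (charP_iff_oQE.1 h).le))

/-! ### 1-connectedness -/

/-- vertices of the commuting graph -/
def Vx (p : ℕ) (A : Subgroup G) : Prop := Elem p A ∧ p ^ 1 ≤ Nat.card A

/-- edges of the commuting graph, as in `IsKConnected` -/
def Adj1 (p : ℕ) (A B : Subgroup G) : Prop := IsElementaryAbelian p A ∧ p ^ 1 ≤ Nat.card A ∧ IsElementaryAbelian p B ∧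
  p ^ 1 ≤ Nat.card B ∧ ∀ a ∈ A, ∀ b ∈ B, a * b = b * a

theorem adj1_iff : Adj1 p A B ↔ Vx p A ∧ Vx p B ∧ A ≤ C(B) := by
  simp only [Adj1, Vx, H18.elem_iff, cent_iff, and_assoc]

theorem Vx.cj (h : Vx p A) (g : G) : Vx p (H18.cj g A) := ⟨h.1.cj g, by rw [H18.card_cj]; exact h.2⟩

theorem vx_zpowers (hx : orderOf x = p) : Vx p (zpowers x) :=
  ⟨H18.elem_zpowers (hx ▸ pow_orderOf_eq_one x), by rw [Nat.card_zpowers, hx, pow_one]⟩

theorem Vx.ne_bot (hp : p.Prime) (h : Vx p A) : A ≠ ⊥ := ne_bot_of_pow_le hp (k := 0) h.2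

theorem Vx.dvd (hp : p.Prime) (h : Vx p A) : p ∣ Nat.card A := (h.1.pi hp).dvd_card (h.ne_bot hp)

abbrev Conn (p : ℕ) (A B : Subgroup G) : Prop := Relation.ReflTransGen (Adj1 p) A B

theorem Conn.symm' (h : Conn p A B) : Conn p B A := by
  induction h with
  | refl => exact .refl
  | tail _ e ih => exact .head (adj1_iff.2 ⟨(adj1_iff.1 e).2.1, (adj1_iff.1 e).1, cent_symm (adj1_iff.1 e).2.2⟩) ih

theorem Conn.cj (h : Conn p A B) (g : G) : Conn p (H18.cj g A) (H18.cj g B) := by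
  induction h with
  | refl => exact .refl
  | tail _ e ih =>
    exact ih.tail (adj1_iff.2 ⟨(adj1_iff.1 e).1.cj g, (adj1_iff.1 e).2.1.cj g, cj_cent_iff.2 (adj1_iff.1 e).2.2⟩)

theorem conn_of_pgroup (hp : p.Prime) (hP : PiGrp {p} P) (hA : Vx p A) (hB : Vx p B) (h1 : A ≤ P) (h2 : B ≤ P) :
    Conn p A B := by
  have h0 : P ≠ ⊥ := fun e => hA.ne_bot hp (le_bot_iff.1 (e ▸ h1))
  obtain ⟨z, hz, o⟩ := cauchy hp ((hP.of_le inf_le_left).dvd_card (hP.meet_cent hP le_normalizer h0))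
  have c : P ≤ C(zpowers z) := cent_symm (zpowers_le.2 hz.2)
  exact .head (adj1_iff.2 ⟨hA, vx_zpowers o, h1.trans c⟩) (.single (adj1_iff.2 ⟨vx_zpowers o, hB, cent_symm (h2.trans c)⟩))

/-- stabilizer of the connected component of `E` -/
def connStab (p : ℕ) (E : Subgroup G) : Subgroup G where
  carrier := {g | Conn p (H18.cj g E) E}
  one_mem' := by simp only [Set.mem_ofPred_eq, H18.cj_one]; exact .refl
  mul_mem' := fun {a b} ha hb => by
    simp only [Set.mem_ofPred_eq, H18.cj_mul] at *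
    exact (hb.cj a).trans ha
  inv_mem' := fun {a} ha => by
    simp only [Set.mem_ofPred_eq] at *
    have := (ha.cj a⁻¹).symm'
    rwa [H18.cj_inv_cj] at this

theorem conn_of_le_connStab (hp : p.Prime) (hE : Vx p E) (hA : Vx p A) (h : A ≤ connStab p E) : Conn p A E := by
  have m : ∀ P, PiGrp {p} P → E ≤ P → P ≤ connStab p E := fun P hP hEP g hg =>
    conn_of_pgroup hp hP (hE.cj g) hE (cj_le_of_mem hEP hg) hEP
  obtain ⟨P, hP, hEP⟩ := exists_sylow_le hp (hE.1.pi hp) (m E (hE.1.pi hp) le_rfl)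
  obtain ⟨g, hg, e⟩ := sylow_le_cj' hp hP (hA.1.pi hp) h
  exact (conn_of_pgroup hp (hP.pi.cj g) hA (hE.cj g) e (H18.cj_mono hEP)).trans hg

theorem not_connected_iff (hp : p.Prime) : (∃ H : Subgroup G, H ≠ ⊤ ∧ p ∣ Nat.card H ∧
    ∀ g : G, g ∉ H → ¬ p ∣ Nat.card (H ⊓ H18.cj g H : Subgroup G)) ↔ ¬ IsKConnected p 1 G := by
  constructor
  · rintro ⟨H, h1, h2, h3⟩ hc
    obtain ⟨x, hx, o⟩ := cauchy hp h2
    obtain ⟨g, hg⟩ : ∃ g, g ∉ H := by simpa [eq_top_iff'] using h1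
    have v := vx_zpowers o
    have key : ∀ B, Conn p (zpowers x) B → B ≤ H := fun B hB => by
      induction hB with
      | refl => exact zpowers_le.2 hx
      | tail _ e ih =>
        intro b hb
        by_contra hn
        obtain ⟨e1, e2, e3⟩ := adj1_iff.1 e
        exact h3 b hn ((e1.dvd hp).trans (card_dvd (le_inf ih
          ((cj_eq_self_of_cent (cent_symm e3 hb)).ge.trans (H18.cj_mono ih)))))
    exact h3 g hg (((v.cj g).dvd hp).trans (card_dvd (le_inf (key _ (hc _ _ (H18.elem_iff.1 v.1) v.2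
      (H18.elem_iff.1 (v.cj g).1) (v.cj g).2)) (H18.cj_mono (zpowers_le.2 hx)))))
  · intro hc
    simp only [IsKConnected, not_forall] at hc
    obtain ⟨E, E', h1, h2, h3, h4, h5⟩ := hc
    have v : Vx p E := ⟨H18.elem_iff.2 h1, h2⟩
    have v' : Vx p E' := ⟨H18.elem_iff.2 h3, h4⟩
    refine ⟨connStab p E, fun e => h5 (conn_of_le_connStab hp v v' (e ▸ le_top)).symm', ?_, fun g hg hd => hg ?_⟩
    · exact (v.dvd hp).trans (card_dvd fun g hg => by
        show Conn p _ _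
        rw [cj_eq_self_of_mem hg])
    · obtain ⟨x, hx, o⟩ := cauchy hp hd
      have w := vx_zpowers o
      have c1 := conn_of_le_connStab hp v w (zpowers_le.2 hx.1)
      have c2 := (conn_of_le_connStab hp v (w.cj g⁻¹) (le_cj_iff.1 (zpowers_le.2 hx.2))).cj g
      rw [H18.cj_cj_inv] at c2
      exact c2.symm'.trans c1

end H17
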