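import Cfsg.Agent.H17.Comp
import Cfsg.Agent.H1.Solv2
import Mathlib.Tactic.NoncommRing

/-! The P(G,V)-theorem, part 1: identities for a component `K` of `G` in a ring `R` with `ρ : G →* R`
(`Triv ρ K` = `K` acts trivially): `cz` (left fixers), `perf`, `cc`, `cc2` (central commutators), the quadratic
lemmas `q1`, `q1'`, `q2`, `q3`, and for `p = 2` the diagonal lemmas `diag_le`, `third`, `tau_*`, `triv_of_pow_six`. -/

set_option autoImplicit false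
set_option linter.unusedSectionVars false
set_option linter.unusedVariables false

namespace H17
namespace PGV
open Subgroup Cfsg H18
open scoped commutatorElement

variable {G R : Type*} [Group G] [Finite G] [Ring R] {ρ : G →* R} {K L M : Subgroup G} {a b c g x y : G} {f : R}

abbrev Triv (ρ : G →* R) (K : Subgroup G) : Prop := ∀ k ∈ K, ρ k = 1

theorem mi (g : G) : ρ g * ρ g⁻¹ = 1 := by rw [← map_mul, mul_inv_cancel, map_one]
theorem im (g : G) : ρ g⁻¹ * ρ g = 1 := by rw [← map_mul, inv_mul_cancel, map_one]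
theorem canc (g : G) (h : ρ g * f = 0) : f = 0 := by rw [← one_mul f, ← im (ρ := ρ) g, mul_assoc, h, mul_zero]
theorem canc' (g : G) (h : f * ρ g = 0) : f = 0 := by rw [← mul_one f, ← mi (ρ := ρ) g, ← mul_assoc, h, zero_mul]
theorem cm (h : x * y = y * x) : ρ x * ρ y = ρ y * ρ x := by rw [← map_mul, h, map_mul]

/-- elements fixing `f` under left multiplication -/
def cz (ρ : G →* R) (f : R) : Subgroup G where
  carrier := {g | ρ g * f = f}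
  one_mem' := by simp
  mul_mem' := fun {x y} hx hy => by
    simp only [Set.mem_ofPred_eq] at *; rw [map_mul, mul_assoc, hy, hx]
  inv_mem' := fun {x} hx => by
    simp only [Set.mem_ofPred_eq] at *; conv_lhs => rw [← hx, ← mul_assoc, im, one_mul]

theorem mem_cz : g ∈ cz ρ f ↔ ρ g * f = f := Iff.rfl
theorem mem_cz' : g ∈ cz ρ f ↔ (ρ g - 1) * f = 0 := by rw [mem_cz, sub_mul, one_mul, sub_eq_zero]

theorem cz_conj (h : ρ x * f = f * ρ x) (hg : g ∈ cz ρ f) : x * g * x⁻¹ ∈ cz ρ f := by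
  have e : ρ x⁻¹ * f = f * ρ x⁻¹ := by
    rw [← mul_one (ρ x⁻¹ * f), ← mi (ρ := ρ) x, ← mul_assoc, mul_assoc _ f, ← h, ← mul_assoc, im, one_mul]
  rw [mem_cz] at *
  rw [map_mul, map_mul, mul_assoc, e, ← mul_assoc, mul_assoc _ _ f, hg, h, mul_assoc, mi, mul_one]

theorem norm_cz (h : ∀ k ∈ K, ρ k * f = f * ρ k) : K ≤ N(cz ρ f) := norm_iff.2 fun k hk g hg => cz_conj (h k hk) hg

theorem le_of_mem (hK : IsComp K ⊤) (hn : K ≤ N(M)) (hg : g ∈ M) (hc : g ∉ C(K)) : K ≤ M :=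
  (hK.le_or_commutator le_top hn).resolve_right fun h => hc (comm_eq_bot_iff.1 h hg)

theorem mem_C_of_comm (hK : ⁅K, K⁆ = K) (hg : g ∈ N(K)) (h : ∀ x ∈ K, x⁻¹ * g⁻¹ * x * g ∈ C(K)) : g ∈ C(K) := by
  suffices e : ⁅K, K⁆ ≤ C1(g) from mem_C.2 fun k hk => mem_C1.1 (e (hK.symm ▸ hk))
  refine commutator_le.2 fun x hx y hy => mem_C1.2 ?_
  have m : ∀ x ∈ K, x⁻¹ * g⁻¹ * x * g ∈ K := fun x hx => by
    have := K.mul_mem (K.inv_mem hx) ((mem_normalizer_iff''.1 hg x).1 hx)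
    simpa only [mul_assoc] using this
  have h1 := mem_C.1 (h x hx)
  have h2 := mem_C.1 (h y hy)
  set z := x⁻¹ * g⁻¹ * x * g with hz
  set w := y⁻¹ * g⁻¹ * y * g with hw
  have e : g⁻¹ * ⁅x, y⁆ * g = (x * z) * (y * w) * (x * z)⁻¹ * (y * w)⁻¹ := by
    rw [hz, hw, commutatorElement_def]; group
  have e2 : (x * z) * (y * w) * (x * z)⁻¹ * (y * w)⁻¹ = ⁅x, y⁆ := by
    have a1 : y * w * z = z * (y * w) := h1 _ (K.mul_mem hy (m y hy))
    clear_value z w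
    have a2 := h2 _ (K.inv_mem hx)
    calc _ = x * (z * (y * w)) * z⁻¹ * x⁻¹ * w⁻¹ * y⁻¹ := by group
      _ = x * y * (w * x⁻¹) * w⁻¹ * y⁻¹ := by rw [← a1]; group
      _ = _ := by rw [← a2, commutatorElement_def]; group
  rw [e2] at e
  calc ⁅x, y⁆ * g = g * (g⁻¹ * ⁅x, y⁆ * g) := by group
    _ = _ := by rw [e]

theorem le_of_comm (hK : IsComp K ⊤) (hn : K ≤ N(M)) (hg : g ∈ N(K)) (hc : g ∉ C(K))
    (h : ∀ x ∈ K, x⁻¹ * g⁻¹ * x * g ∈ M) : K ≤ M :=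
  (hK.le_or_commutator le_top hn).resolve_right fun e =>
    hc (mem_C_of_comm hK.perfect hg fun x hx => comm_eq_bot_iff.1 e (h x hx))

theorem conj_mem_C (hK : IsComp K ⊤) (ha : a ∉ N(K)) (hx : x ∈ K) : a * x * a⁻¹ ∈ C(K) := by
  rcases (hK.cj_of_mem_normalizer (g := a) (by simp)).eq_or_commutator hK with e | e
  · exact absurd (mem_N_iff_cj.2 e) ha
  · exact comm_eq_bot_iff.1 e ⟨x, hx, rfl⟩

theorem perf' {σ : G → R} (hK : ⁅K, K⁆ = K) (h1 : σ 1 = 1) (hσ : ∀ x ∈ K, ∀ y ∈ K, σ (x * y) = σ x * σ y)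
    (h : ∀ x ∈ K, ∀ y ∈ K, (σ x - 1) * (σ y - 1) * f = 0) : ∀ x ∈ K, (σ x - 1) * f = 0 := by
  have t : ∀ x ∈ K, ∀ y ∈ K, (σ (x * y) - 1) * f = (σ x - 1) * f + (σ y - 1) * f := fun x hx y hy => by
    rw [hσ x hx y hy, ← sub_eq_zero, ← h x hx y hy]; noncomm_ring
  have i : ∀ x ∈ K, (σ x⁻¹ - 1) * f = -((σ x - 1) * f) := fun x hx => by
    have := t x hx _ (K.inv_mem hx)
    rw [mul_inv_cancel, h1, sub_self, zero_mul] at this
    exact (neg_eq_of_add_eq_zero_right this.symm).symm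
  let M : Subgroup G :=
    { carrier := {x | x ∈ K ∧ (σ x - 1) * f = 0}
      one_mem' := ⟨K.one_mem, by simp [h1]⟩
      mul_mem' := fun {x y} hx hy => ⟨K.mul_mem hx.1 hy.1, by rw [t x hx.1 y hy.1, hx.2, hy.2, add_zero]⟩
      inv_mem' := fun {x} hx => ⟨K.inv_mem hx.1, by rw [i x hx.1, hx.2, neg_zero]⟩ }
  suffices e : ⁅K, K⁆ ≤ M from fun x hx => (e (hK.symm ▸ hx)).2
  refine commutator_le.2 fun x hx y hy => ?_
  have m := K.mul_mem hx hy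
  have m2 := K.mul_mem m (K.inv_mem hx)
  refine ⟨K.mul_mem m2 (K.inv_mem hy), ?_⟩
  rw [commutatorElement_def, t _ m2 _ (K.inv_mem hy), t _ m _ (K.inv_mem hx), t _ hx _ hy, i x hx, i y hy]; abel

theorem perf (hK : IsComp K ⊤) (h : ∀ x ∈ K, ∀ y ∈ K, (ρ x - 1) * (ρ y - 1) * f = 0) : ∀ x ∈ K, (ρ x - 1) * f = 0 :=
  perf' hK.perfect (map_one ρ) (fun x _ y _ => map_mul ρ x y) h

theorem perf1 (hK : IsComp K ⊤) (h : ∀ x ∈ K, ∀ y ∈ K, (ρ x - 1) * (ρ y - 1) = 0) : Triv ρ K := fun x hx => by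
  have := perf (ρ := ρ) (f := 1) hK (fun x hx y hy => by rw [h x hx y hy, zero_mul]) x hx
  rwa [mul_one, sub_eq_zero] at this

theorem cc (hK : IsComp K ⊤) (h : ∀ x ∈ K, ∀ y ∈ K, ∀ z ∈ K,
    ρ z * (ρ x * ρ y - ρ y * ρ x) = (ρ x * ρ y - ρ y * ρ x) * ρ z) : Triv ρ K := by
  have h1 : ∀ x ∈ K, ∀ y ∈ K, K ≤ cz ρ (ρ x * ρ y - ρ y * ρ x) := fun x hx y hy => by
    by_cases hc : x ∈ C(K)
    · intro k _; rw [mem_cz, cm (mem_C.1 hc y hy), sub_self, mul_zero]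
    refine le_of_comm hK (norm_cz (h x hx y hy)) (le_N hx) hc fun z hz => ?_
    have e := h x hx _ (K.mul_mem hx hy) z hz
    have e1 : ρ x * ρ (x * y) - ρ (x * y) * ρ x = ρ x * (ρ x * ρ y - ρ y * ρ x) := by rw [map_mul]; noncomm_ring
    rw [e1, mul_assoc (ρ x), ← h x hx y hy z hz] at e
    rw [mem_cz, map_mul, map_mul, mul_assoc, mul_assoc, e, ← mul_assoc, ← mul_assoc, ← map_mul, ← map_mul]
    simp
  refine perf1 hK fun k hk g hg => ?_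
  let M : Subgroup G :=
    { carrier := {g | ∀ k ∈ K, (ρ k - 1) * (ρ g - 1) = 0}
      one_mem' := fun k _ => by simp
      mul_mem' := fun {x y} hx hy k hk => by
        have : (ρ k - 1) * (ρ (x * y) - 1) = (ρ k - 1) * (ρ x - 1) * ρ y + (ρ k - 1) * (ρ y - 1) := by
          rw [map_mul]; noncomm_ring
        rw [this, hx k hk, hy k hk, zero_mul, add_zero]
      inv_mem' := fun {x} hx k hk => canc' (ρ := ρ) x <| by
        rw [mul_assoc, sub_mul (ρ x⁻¹), im, one_mul, ← neg_sub (ρ x), mul_neg, hx k hk, neg_zero] }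
  suffices e : ⁅K, K⁆ ≤ M from e (hK.perfect.symm ▸ hg) k hk
  refine commutator_le.2 fun x hx y hy k hk => canc' (ρ := ρ) (y * x) ?_
  rw [mul_assoc, sub_mul (ρ ⁅x, y⁆), ← map_mul, one_mul, commutatorElement_def,
    show x * y * x⁻¹ * y⁻¹ * (y * x) = x * y by group, map_mul, map_mul]
  exact mem_cz'.1 (h1 x hx y hy hk)

theorem cc2 (hK : IsComp K ⊤) (γ : G → R) (e : ℕ) (he : ∀ f : R, e • f = 0 → f = 0)
    (hγ : ∀ x ∈ K, ∀ z ∈ K, ρ z * γ x = γ x * ρ z)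
    (h : ∀ x ∈ K, ∀ y ∈ K, (e • ρ x + γ x) * (e • ρ y + γ y) = 0) : Triv ρ K := by
  refine cc hK fun x hx y hy z hz => sub_eq_zero.1 (he _ (he _ ?_))
  have e1 : e • e • (ρ x * ρ y - ρ y * ρ x) = γ y * γ x - γ x * γ y := by
    have a1 := h x hx y hy
    have a2 := h y hy x hx
    simp only [add_mul, mul_add, smul_mul_assoc, mul_smul_comm, hγ y hy x hx, hγ x hx y hy, smul_add] at a1 a2
    rw [smul_sub, smul_sub, ← sub_eq_zero, ← sub_eq_zero.2 (a1.trans a2.symm)]; abel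
  have : e • e • (ρ z * (ρ x * ρ y - ρ y * ρ x) - (ρ x * ρ y - ρ y * ρ x) * ρ z) =
      ρ z * (e • e • (ρ x * ρ y - ρ y * ρ x)) - (e • e • (ρ x * ρ y - ρ y * ρ x)) * ρ z := by
    simp only [smul_sub, smul_mul_assoc, mul_smul_comm, mul_sub, sub_mul]
  rw [this, e1, mul_sub, sub_mul, ← mul_assoc, ← mul_assoc, hγ y hy z hz, hγ x hx z hz, mul_assoc, mul_assoc,
    hγ x hx z hz, hγ y hy z hz, mul_assoc, mul_assoc, sub_self]

theorem inv_of_quad (h : (ρ b - 1) * (ρ b - 1) = 0) : ρ b⁻¹ = 2 - ρ b := by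
  rw [← sub_eq_zero]
  refine canc (ρ := ρ) b ?_
  rw [mul_sub, mi, ← h]; noncomm_ring

theorem q1 (hK : IsComp K ⊤) (h2 : ∀ f : R, 2 • f = 0 → f = 0) (hb : b ∉ N(K)) (h : (ρ b - 1) * (ρ b - 1) = 0) :
    Triv ρ K := by
  have hb' : b⁻¹ ∉ N(K) := fun e => hb (by simpa using inv_mem e)
  refine cc2 hK (fun x => -(ρ (b * x * b⁻¹) + ρ (b⁻¹ * x * b⁻¹⁻¹))) 2 h2 (fun x hx z hz => ?_) fun x hx y hy => ?_
  · simp only [mul_neg, neg_mul, mul_add, add_mul, cm (ρ := ρ) (mem_C.1 (conj_mem_C hK hb hx) z hz),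
      cm (ρ := ρ) (mem_C.1 (conj_mem_C hK hb' hx) z hz)]
  · have e : ∀ x, 2 • ρ x + -(ρ (b * x * b⁻¹) + ρ (b⁻¹ * x * b⁻¹⁻¹)) = 2 * ((ρ b - 1) * ρ x * (ρ b - 1)) := fun x => by
      simp only [inv_inv, map_mul, inv_of_quad h]; noncomm_ring
    simp only [e]
    calc _ = 2 * (ρ b - 1) * ρ x * ((ρ b - 1) * (ρ b - 1)) * 2 * ρ y * (ρ b - 1) := by noncomm_ring
      _ = 0 := by rw [h]; simp

theorem q1' (hK : IsComp K ⊤) (h2 : (2 : R) = 0) (ha : a ∉ N(K)) (hb : b ∉ N(K)) (hab : a * b ∉ N(K))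
    (a2 : a * a = 1) (b2 : b * b = 1) (hc : a * b = b * a) (h : (ρ a - 1) * (ρ b - 1) = 0) : Triv ρ K := by
  have ia : a⁻¹ = a := inv_eq_of_mul_eq_one_right a2
  have ib : b⁻¹ = b := inv_eq_of_mul_eq_one_right b2
  obtain ⟨n, hn⟩ : ∃ n, ρ a = n + 1 := ⟨ρ a - 1, by simp⟩
  obtain ⟨m, hm⟩ : ∃ n, ρ b = n + 1 := ⟨ρ b - 1, by simp⟩
  have sq : ∀ {a : G} {n : R}, a * a = 1 → ρ a = n + 1 → n * n = 0 := fun {a n} a2 hn => by
    have : ρ a * ρ a = 1 := by rw [← map_mul, a2, map_one]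
    rw [hn] at this
    calc n * n = (n + 1) * (n + 1) - 1 - 2 * n := by noncomm_ring
      _ = 0 := by rw [this, h2]; simp
  have nm : n * m = 0 := by simpa [hn, hm] using h
  have mn : m * n = 0 := by
    have := cm (ρ := ρ) hc
    rw [hn, hm] at this
    calc m * n = (m + 1) * (n + 1) - (n + 1) * (m + 1) + n * m := by noncomm_ring
      _ = 0 := by rw [this, nm]; simp
  refine cc2 hK (fun x => ρ (a * x * a⁻¹) + ρ (b * x * b⁻¹) + ρ (a * b * x * (a * b)⁻¹)) 1 (by simp)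
    (fun x hx z hz => ?_) fun x hx y hy => ?_
  · simp only [mul_add, add_mul, cm (ρ := ρ) (mem_C.1 (conj_mem_C hK hb hx) z hz),
      cm (ρ := ρ) (mem_C.1 (conj_mem_C hK ha hx) z hz), cm (ρ := ρ) (mem_C.1 (conj_mem_C hK hab hx) z hz)]
  · have e : ∀ x, 1 • ρ x + (ρ (a * x * a⁻¹) + ρ (b * x * b⁻¹) + ρ (a * b * x * (a * b)⁻¹)) =
        n * ρ x * m + m * ρ x * n := fun x => by
      have : ρ (a * b) = n + m + 1 := by
        rw [map_mul, hn, hm]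
        calc _ = n * m + (n + m + 1) := by noncomm_ring
          _ = _ := by rw [nm, zero_add]
      rw [mul_inv_rev, ia, ib, ← hc]
      simp only [map_mul _ _ x, map_mul _ _ a, map_mul _ (_ * x), this, hn, hm]
      calc _ = n * ρ x * m + m * ρ x * n + 2 * (2 * ρ x + n * ρ x + ρ x * n + m * ρ x + ρ x * m + n * ρ x * n +
          m * ρ x * m) := by noncomm_ring
        _ = _ := by rw [h2]; simp
    simp only [e]
    calc _ = n * ρ x * (m * n) * ρ y * m + n * ρ x * (m * m) * ρ y * n + m * ρ x * (n * n) * ρ y * m +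
        m * ρ x * (n * m) * ρ y * n := by noncomm_ring
      _ = 0 := by rw [mn, nm, sq a2 hn, sq b2 hm]; simp

theorem quad_conj (h : (ρ b - 1) * (ρ b - 1) = 0) (x : G) : ρ (x⁻¹ * b * x) + ρ (x⁻¹ * b * x)⁻¹ = 2 := by
  rw [show (x⁻¹ * b * x)⁻¹ = x⁻¹ * b⁻¹ * x by group]
  simp only [map_mul, inv_of_quad h]
  calc _ = 2 * (ρ x⁻¹ * ρ x) := by noncomm_ring
    _ = _ := by rw [im, mul_one]

theorem q2 (hK : IsComp K ⊤) (hL : IsComp L ⊤) (hKL : K ≤ C(L)) (h2 : ∀ f : R, 2 • f = 0 → f = 0)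
    (bK : b ∈ N(K)) (bL : b ∈ N(L)) (cK : b ∉ C(K)) (cL : b ∉ C(L)) (h : (ρ b - 1) * (ρ b - 1) = 0) :
    ∀ x ∈ K, ∀ y ∈ L, (ρ x - 1) * (ρ y - 1) = 0 := by
  have m : ∀ {K : Subgroup G} {b x : G}, b ∈ N(K) → x ∈ K → x⁻¹ * b⁻¹ * x * b ∈ K := fun {K b x} hb hx => by
    have := K.mul_mem (K.inv_mem hx) ((mem_normalizer_iff''.1 hb x).1 hx)
    simpa only [mul_assoc] using this
  have key : ∀ x ∈ K, ∀ y ∈ L, (ρ (x⁻¹ * b⁻¹ * x * b) - 1) * (ρ (y⁻¹ * b⁻¹⁻¹ * y * b⁻¹) - 1) = 0 := fun x hx y hy => by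
    obtain ⟨u, hu⟩ : ∃ u, u = b⁻¹ * x⁻¹ * b * x := ⟨_, rfl⟩
    obtain ⟨w, hw⟩ : ∃ w, w = b⁻¹ * y⁻¹ * b * y := ⟨_, rfl⟩
    have uK : u ∈ K := by have := K.inv_mem (m bK hx); rwa [show (x⁻¹ * b⁻¹ * x * b)⁻¹ = u by rw [hu]; group] at this
    have wL : w ∈ L := by have := L.inv_mem (m bL hy); rwa [show (y⁻¹ * b⁻¹ * y * b)⁻¹ = w by rw [hw]; group] at this
    have h1 := quad_conj h 1
    have h2' := quad_conj h x
    have h3 := quad_conj h y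
    have h4 := quad_conj h (x * y)
    have e4 : (x * y)⁻¹ * b * (x * y) = b * u * w := by
      calc _ = y⁻¹ * b * (u * y) := by rw [hu]; group
        _ = b * (w * u) := by rw [comm_of_cent hKL uK hy, hw]; group
        _ = _ := by rw [← comm_of_cent hKL uK wL, mul_assoc]
    rw [show x⁻¹ * b * x = b * u by rw [hu]; group] at h2'
    rw [show y⁻¹ * b * y = b * w by rw [hw]; group] at h3
    rw [e4] at h4
    simp only [inv_one, one_mul, mul_one, mul_inv_rev, map_mul] at h1 h2' h3 h4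
    have c1 := cm (ρ := ρ) (comm_of_cent hKL (K.inv_mem uK) (L.inv_mem wL))
    have a1 : ρ u⁻¹ - 1 = -(ρ b * (ρ u - 1) * ρ b) := by
      calc _ = (ρ u⁻¹ - 1) * (ρ b⁻¹ * ρ b) := by rw [im, mul_one]
        _ = ((ρ b * ρ u + ρ u⁻¹ * ρ b⁻¹) - (ρ b + ρ b⁻¹)) * ρ b - ρ b * (ρ u - 1) * ρ b := by noncomm_ring
        _ = _ := by rw [h1, h2']; simp
    have a2 : (ρ w⁻¹ - 1) * ρ b⁻¹ = -(ρ b * (ρ w - 1)) := by
      calc _ = ((ρ b * ρ w + ρ w⁻¹ * ρ b⁻¹) - (ρ b + ρ b⁻¹)) - ρ b * (ρ w - 1) := by noncomm_ring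
        _ = _ := by rw [h1, h3]; simp
    have a3 : ρ b * ((ρ u - 1) * (ρ w - 1)) + (ρ u⁻¹ - 1) * ((ρ w⁻¹ - 1) * ρ b⁻¹) = 0 := by
      calc _ = (ρ b * ρ u * ρ w + ρ u⁻¹ * ρ w⁻¹ * ρ b⁻¹) - (ρ b * ρ u + ρ u⁻¹ * ρ b⁻¹) -
          (ρ b * ρ w + ρ w⁻¹ * ρ b⁻¹) + (ρ b + ρ b⁻¹) := by noncomm_ring
        _ = _ := by rw [c1, mul_assoc (ρ w⁻¹), h4, h2', h3, h1]; simp
    have a4 : ρ b * ρ b = 2 * ρ b - 1 := by rw [← sub_eq_zero, ← h]; noncomm_ring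
    have a5 : (ρ u - 1) * ρ b * (ρ w - 1) = 0 := h2 _ (canc (ρ := ρ) b (by
      rw [a1, a2] at a3
      calc _ = ρ b * ((ρ u - 1) * (ρ w - 1)) + ρ b * (ρ u - 1) * (2 * ρ b - 1) * (ρ w - 1) := by noncomm_ring
        _ = _ := by rw [← a4, ← a3]; noncomm_ring))
    have a6 : u ∈ cz ρ (ρ (y⁻¹ * b⁻¹⁻¹ * y * b⁻¹) - 1) := mem_cz'.2 <| canc' (ρ := ρ) b <| by
      rw [show y⁻¹ * b⁻¹⁻¹ * y * b⁻¹ = b * w * b⁻¹ by rw [hw]; group, mul_assoc, sub_mul (ρ (b * w * b⁻¹)), ← map_mul,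
        inv_mul_cancel_right, map_mul, ← a5]; noncomm_ring
    have := inv_mem a6
    rw [show u⁻¹ = x⁻¹ * b⁻¹ * x * b by rw [hu]; group] at this
    exact mem_cz'.1 this
  have cmm : ∀ x ∈ K, ∀ y ∈ L, ρ x * (ρ y - 1) = (ρ y - 1) * ρ x := fun x hx y hy => by
    rw [mul_sub, sub_mul, cm (comm_of_cent hKL hx hy), mul_one, one_mul]
  have cmm' : ∀ x ∈ K, ∀ y ∈ L, (ρ x - 1) * (ρ y - 1) = (ρ y - 1) * (ρ x - 1) := fun x hx y hy => by
    rw [sub_mul, cmm x hx y hy]; noncomm_ring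
  intro x hx y hy
  rw [cmm' x hx y hy]
  refine mem_cz'.1 (le_of_comm hL (norm_cz fun k hk => ?_) (inv_mem bL) (fun e => cL (by simpa using inv_mem e))
    (fun y hy => mem_cz'.2 ?_) hy)
  · rw [mul_sub, sub_mul, cm (comm_of_cent hKL hx hk), mul_one, one_mul]
  · have yL := m (inv_mem bL) hy
    rw [← cmm' x hx _ yL]
    exact mem_cz'.1 (le_of_comm hK (norm_cz fun k hk => cmm k hk _ yL) bK cK (fun x hx => mem_cz'.2 (key x hx y hy)) hx)

theorem q3 (hK : IsComp K ⊤) (bK : b ∈ N(K)) (cK : b ∉ C(K)) (h : (ρ b - 1) * (ρ a - 1) = 0)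
    (hk : ∀ x ∈ K, ∀ y ∈ K, (ρ x - 1) * (ρ (a * y * a⁻¹) - 1) = 0) (hab : a * b = b * a) : Triv ρ K := by
  have cj1 : ∀ {g x : G}, (ρ x - 1) * ρ g = ρ g * (ρ (g⁻¹ * x * g) - 1) := fun {g x} => by
    rw [mul_sub, ← map_mul, mul_one, sub_mul, one_mul, ← map_mul]; congr 2; group
  let M : Subgroup G :=
    { carrier := {g | g ∈ N(K) ∧ ∀ x ∈ K, ∀ y ∈ K, (ρ x - 1) * (ρ g - 1) * (ρ y - 1) = 0}
      one_mem' := ⟨one_mem _, fun x _ y _ => by simp⟩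
      mul_mem' := fun {g h} hg hh => ⟨mul_mem hg.1 hh.1, fun x hx y hy => by
        have : (ρ x - 1) * (ρ (g * h) - 1) * (ρ y - 1) =
            (ρ x - 1) * ρ g * (ρ h - 1) * (ρ y - 1) + (ρ x - 1) * (ρ g - 1) * (ρ y - 1) := by
          rw [map_mul]; noncomm_ring
        rw [this, hg.2 x hx y hy, cj1, mul_assoc (ρ g), mul_assoc (ρ g),
          hh.2 _ ((mem_normalizer_iff''.1 hg.1 x).1 hx) y hy, mul_zero, add_zero]⟩
      inv_mem' := fun {g} hg => ⟨inv_mem hg.1, fun x hx y hy => by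
        have : (ρ x - 1) * (ρ g⁻¹ - 1) * (ρ y - 1) = -((ρ x - 1) * ρ g⁻¹ * (ρ g - 1) * (ρ y - 1)) := by
          rw [mul_assoc (ρ x - 1) (ρ g⁻¹), mul_sub (ρ g⁻¹), im]; noncomm_ring
        rw [this, cj1, mul_assoc (ρ g⁻¹), mul_assoc (ρ g⁻¹),
          hg.2 _ ((mem_normalizer_iff''.1 (inv_mem hg.1) x).1 hx) y hy, mul_zero, neg_zero]⟩ }
  have hn : K ≤ N(M) := norm_iff.2 fun k hk g hg => ⟨mul_mem (mul_mem (le_N hk) hg.1) (inv_mem (le_N hk)),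
    fun x hx y hy => by
      have e : ∀ z, ρ (k * z * k⁻¹) - 1 = ρ k * (ρ z - 1) * ρ k⁻¹ := fun z => by
        rw [map_mul, map_mul, mul_sub, sub_mul, mul_one, mi]
      rw [show x = k * (k⁻¹ * x * k) * k⁻¹ by group, show y = k * (k⁻¹ * y * k) * k⁻¹ by group, e, e, e]
      calc _ = ρ k * ((ρ (k⁻¹ * x * k) - 1) * (ρ k⁻¹ * ρ k) * (ρ g - 1) * (ρ k⁻¹ * ρ k) * (ρ (k⁻¹ * y * k) - 1)) *
          ρ k⁻¹ := by simp only [mul_assoc]
        _ = 0 := by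
          rw [im, mul_one, mul_one, hg.2 _ (mul_mem (mul_mem (inv_mem hk) hx) hk) _
            (mul_mem (mul_mem (inv_mem hk) hy) hk), mul_zero, zero_mul]⟩
  have hb : b ∈ M := ⟨bK, fun x hx y hy => by
    have e1 : (ρ b - 1) * (ρ y - 1) = (ρ b - 1) * ((ρ (a * y * a⁻¹) - 1) * ρ a) := by
      rw [sub_mul (ρ (a * y * a⁻¹)), ← map_mul, inv_mul_cancel_right, map_mul, ← sub_eq_zero,
        ← neg_zero, ← zero_mul (ρ y - 1), ← h]; noncomm_ring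
    have e2 : (ρ x - 1) * ρ b * (ρ (a * y * a⁻¹) - 1) = 0 := by
      rw [cj1, mul_assoc, hk _ ((mem_normalizer_iff''.1 bK x).1 hx) y hy, mul_zero]
    rw [mul_assoc, e1, sub_mul (ρ b), mul_sub, one_mul, ← mul_assoc, ← mul_assoc, e2, ← mul_assoc, hk x hx y hy]; simp⟩
  exact perf1 hK fun x hx y hy => perf hK (fun x hx z hz => (le_of_mem hK hn hb cK hz).2 x hx y hy) x hx

/-! ### `p = 2`: an involution `c` interchanging `K` with another component -/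

/-- the diagonal map -/
def dg (c x : G) : G := x * (c * x * c⁻¹)

theorem dg_mul (hK : IsComp K ⊤) (hc : c ∉ N(K)) (hx : x ∈ K) (hy : y ∈ K) : dg c (x * y) = dg c x * dg c y := by
  have := mem_C.1 (conj_mem_C hK hc hx) y hy
  calc _ = x * (y * (c * x * c⁻¹)) * (c * y * c⁻¹) := by unfold dg; group
    _ = _ := by rw [this]; unfold dg; group

theorem dg_one : dg c (1 : G) = 1 := by simp [dg]

theorem dg_inv (hK : IsComp K ⊤) (hc : c ∉ N(K)) (hx : x ∈ K) : dg c x⁻¹ = (dg c x)⁻¹ :=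
  eq_inv_of_mul_eq_one_right (by rw [← dg_mul hK hc hx (inv_mem hx), mul_inv_cancel, dg_one])

theorem dg_comm (hK : IsComp K ⊤) (hc : c ∉ N(K)) (c2 : c * c = 1) (hx : x ∈ K) : dg c x * c = c * dg c x := by
  have := mem_C.1 (conj_mem_C hK hc hx) x hx
  calc _ = (c * x * c⁻¹ * x) * c := by unfold dg; rw [this]
    _ = c * (x * (c * x * c⁻¹)) * 1 := by rw [inv_eq_of_mul_eq_one_right c2]; group
    _ = _ := by unfold dg; group

theorem dg_not_mem_C (hK : IsComp K ⊤) (hc : c ∉ N(K)) (hx : x ∈ K) (h : x ∉ C(K)) : dg c x ∉ C(K) := fun e =>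
  h (by have := mul_mem e (inv_mem (conj_mem_C hK hc hx)); rwa [dg, mul_inv_cancel_right] at this)

theorem diag_le (hK : IsComp K ⊤) (hc : c ∉ N(K)) (c2 : c * c = 1) (hn : C1(c) ≤ N(M)) (hb : b ∈ M) (bK : b ∈ N(K))
    (cK : b ∉ C(K)) (hbc : b * c = c * b) : ∀ x ∈ K, dg c x ∈ M := by
  let M' : Subgroup G :=
    { carrier := {x | x ∈ K ∧ dg c x ∈ M}
      one_mem' := ⟨one_mem _, by rw [dg_one]; exact one_mem _⟩
      mul_mem' := fun {x y} hx hy => ⟨mul_mem hx.1 hy.1, by rw [dg_mul hK hc hx.1 hy.1]; exact mul_mem hx.2 hy.2⟩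
      inv_mem' := fun {x} hx => ⟨inv_mem hx.1, by rw [dg_inv hK hc hx.1]; exact inv_mem hx.2⟩ }
  have d : ∀ x ∈ K, dg c x ∈ N(M) := fun x hx => hn (mem_C1.2 (dg_comm hK hc c2 hx))
  refine fun x hx => (le_of_comm (M := M') hK (norm_iff.2 fun k hk g hg => ⟨mul_mem (mul_mem hk hg.1) (inv_mem hk), ?_⟩)
    bK cK (fun x hx => ?_) hx).2
  · rw [dg_mul hK hc (mul_mem hk hg.1) (inv_mem hk), dg_mul hK hc hk hg.1, dg_inv hK hc hk]
    exact (mem_normalizer_iff.1 (d k hk) _).1 hg.2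
  · have m := (mem_normalizer_iff''.1 bK x).1 hx
    have e : x⁻¹ * b⁻¹ * x * b = x⁻¹ * (b⁻¹ * x * b) := by group
    rw [e]
    refine ⟨mul_mem (inv_mem hx) m, ?_⟩
    have e2 : dg c (b⁻¹ * x * b) = b⁻¹ * dg c x * b := by
      have hb' : c = b * c * b⁻¹ := by rw [hbc]; group
      unfold dg; conv_rhs => rw [hb']
      group
    rw [dg_mul hK hc (inv_mem hx) m, dg_inv hK hc hx, e2]
    have := mul_mem ((mem_normalizer_iff''.1 (d x hx) _).1 (inv_mem hb)) hb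
    simpa only [mul_assoc] using this

theorem third (hK : IsComp K ⊤) (hc : c ∉ N(K)) (c2 : c * c = 1) (ha : a ∉ N(K)) (hac : c * a ∉ N(K))
    (e : a * c = c * a) (h : ∀ x ∈ K, dg c x ∈ cz ρ (ρ c - 1)) :
    ∀ x ∈ K, ∀ y ∈ K, (ρ x - 1) * (ρ (a * y * a⁻¹) - 1) = 0 := by
  have hL := hK.cj_of_mem_normalizer (g := a) (by simp)
  have ci := inv_eq_of_mul_eq_one_right c2
  have c1 : ∀ x ∈ K, ∀ z ∈ H17.cj a K, z * x = x * z := by
    rintro x hx _ ⟨y, hy, rfl⟩; exact (mem_C.1 (conj_mem_C hK ha hy) x hx).symm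
  have c2' : ∀ x ∈ K, ∀ z ∈ H17.cj a K, z * dg c x = dg c x * z := by
    intro x hx z hz
    have e1 := c1 x hx z hz
    obtain ⟨y, hy, rfl⟩ := hz
    have e2 := mem_C.1 (conj_mem_C hK (a := c⁻¹ * a) (by rwa [ci]) hy) x hx
    have e3 : a * y * a⁻¹ * (c * x * c⁻¹) = c * x * c⁻¹ * (a * y * a⁻¹) := by
      calc _ = c * (c⁻¹ * a * y * (c⁻¹ * a)⁻¹ * x) * c⁻¹ := by group
        _ = _ := by rw [← e2]; group
    change a * y * a⁻¹ * _ = _ * (a * y * a⁻¹) at e1 ⊢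
    unfold dg; rw [← mul_assoc, e1, mul_assoc, e3, mul_assoc x]
  have cL : c ∉ C(H17.cj a K) := fun h => hc <| mem_N_of_finite fun y hy => by
    have := mem_C.1 h _ ⟨y, hy, rfl⟩
    change a * y * a⁻¹ * c = c * (a * y * a⁻¹) at this
    have e2 : c * y * c⁻¹ = y := by
      calc _ = a⁻¹ * (a * c) * y * a⁻¹ * a * c⁻¹ := by group
        _ = a⁻¹ * (c * (a * y * a⁻¹)) * a * c⁻¹ := by rw [e]; group
        _ = y * a⁻¹ * (c * a) * c⁻¹ := by rw [← this]; group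
        _ = y := by rw [← e]; group
    rwa [e2]
  obtain ⟨x, hx, hx'⟩ := SetLike.not_le_iff_exists.1 (qs_not_le_centralizer hK.qs)
  intro z hz y hy
  have m : a * y * a⁻¹ ∈ H17.cj a K := ⟨y, hy, rfl⟩
  have sw : ∀ {u v : G}, u * v = v * u → u ∈ cz ρ (ρ v - 1) → v ∈ cz ρ (ρ u - 1) := fun {u v} e h => by
    rw [mem_cz'] at *; rw [← h]
    calc _ = ρ v * ρ u - ρ v - ρ u + 1 := by noncomm_ring
      _ = _ := by rw [← cm e]; noncomm_ring
  have nc : ∀ {K : Subgroup G} {v : G}, (∀ k ∈ K, k * v = v * k) → K ≤ N(cz ρ (ρ v - 1)) := fun h =>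
    norm_cz fun k hk => by rw [mul_sub, sub_mul, cm (h k hk), mul_one, one_mul]
  have s1 := le_of_mem hL (nc (c2' x hx)) (sw (dg_comm hK hc c2 hx) (h x hx)) cL m
  exact mem_cz'.1 (le_of_mem hK (nc fun k hk => (c1 k hk _ m).symm) (sw (c2' x hx _ m) s1) (dg_not_mem_C hK hc hx hx') hz)

theorem triv_of_pow_six (hK : IsComp K ⊤) (h : ∀ x ∈ K, ρ x ^ 6 = 1) : Triv ρ K := by
  rcases hK.map (QuotientGroup.mk' ρ.ker) with e | e
  · exact fun k hk => (QuotientGroup.eq_one_iff k).1 ((Subgroup.map_eq_bot_iff _).1 e hk)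
  refine absurd (H1.solv_of_two_primes Nat.prime_two Nat.prime_three (piGrp_of_prime_elt ?_)) (qs_not_solvable e.qs)
  rintro _ ⟨x, hx, rfl⟩ hp
  have : orderOf (QuotientGroup.mk' ρ.ker x) ∣ 2 * 3 := orderOf_dvd_of_pow_eq_one (by
    rw [← map_pow]; exact (QuotientGroup.eq_one_iff _).2 (by rw [MonoidHom.mem_ker, map_pow, h x hx]))
  rcases (hp.dvd_mul).1 this with e | e
  · exact Or.inl ((Nat.prime_dvd_prime_iff_eq hp Nat.prime_two).1 e)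
  · exact Or.inr ((Nat.prime_dvd_prime_iff_eq hp Nat.prime_three).1 e)

/-- the "trace" -/
def tau (ρ : G →* R) (x : G) : R := ρ x + ρ x⁻¹

/-- the diagonal centralizes `[V, c]`, and `K [V, c]` spans `V` -/
structure DH (ρ : G →* R) (K : Subgroup G) (c : G) : Prop where
  two : (2 : R) = 0
  comp : IsComp K ⊤
  nn : c ∉ N(K)
  sq : c * c = 1
  dg : ∀ x ∈ K, dg c x ∈ cz ρ (ρ c - 1)
  span : ∀ f : R, (∀ k ∈ K, f * ρ k * (ρ c - 1) = 0) → f = 0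

theorem til (h : ∀ x ∈ K, dg c x ∈ cz ρ (ρ c - 1)) (hx : x ∈ K) : ρ (c * x * c⁻¹) * (ρ c - 1) = ρ x⁻¹ * (ρ c - 1) := by
  conv_rhs => rw [← mem_cz.1 (h x hx), ← mul_assoc, ← map_mul, PGV.dg, inv_mul_cancel_left]

theorem ce (h2 : (2 : R) = 0) (c2 : c * c = 1) : ρ c * (ρ c - 1) = ρ c - 1 := by
  rw [mul_sub, ← map_mul, c2, map_one, ← sub_eq_zero]
  calc _ = 2 * (1 - ρ c) := by noncomm_ring
    _ = _ := by rw [h2, zero_mul]

theorem cke (h2 : (2 : R) = 0) (c2 : c * c = 1) (h : ∀ x ∈ K, dg c x ∈ cz ρ (ρ c - 1)) (hx : x ∈ K) :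
    ρ c * (ρ x * (ρ c - 1)) = ρ x⁻¹ * (ρ c - 1) := by
  rw [← til h hx, map_mul, map_mul, inv_eq_of_mul_eq_one_right c2, mul_assoc, ce h2 c2, mul_assoc]

theorem DH.tauE (h : DH ρ K c) (hx : x ∈ K) : tau ρ x * (ρ c - 1) = (ρ c - 1) * (ρ x * (ρ c - 1)) := by
  rw [sub_mul (ρ c), cke h.two h.sq h.dg hx, ← sub_eq_zero, tau]
  calc _ = 2 * (ρ x * (ρ c - 1)) := by noncomm_ring
    _ = _ := by rw [h.two, zero_mul]

theorem DH.tau_til (h : DH ρ K c) (hx : x ∈ K) (hy : y ∈ K) : tau ρ x * ρ (c * y * c⁻¹) = ρ (c * y * c⁻¹) * tau ρ x := by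
  have := mem_C.1 (conj_mem_C h.comp h.nn hy)
  rw [tau, add_mul, mul_add, cm (this x hx), cm (this _ (inv_mem hx))]

theorem DH.tau_K (h : DH ρ K c) (hx : x ∈ K) (hy : y ∈ K) : ρ y * tau ρ x = tau ρ x * ρ y := by
  have e : ρ y * tau ρ x * (ρ c - 1) = tau ρ x * ρ y * (ρ c - 1) := by
    have a := til h.dg (inv_mem hy)
    rw [inv_inv] at a
    rw [mul_assoc (tau ρ x), ← a, ← mul_assoc, h.tau_til hx (inv_mem hy), mul_assoc, mul_assoc, h.tauE hx, ← mul_assoc,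
      ← mul_assoc, ← a, mul_assoc, mul_assoc]
  refine sub_eq_zero.1 (h.span _ fun k hk => ?_)
  have a := til h.dg (inv_mem hk)
  rw [inv_inv] at a
  have b := cm (ρ := ρ) (mem_C.1 (conj_mem_C h.comp h.nn (inv_mem hk)) y hy)
  have d := h.tau_til hx (inv_mem hk)
  rw [mul_assoc, ← a, ← mul_assoc, sub_mul, mul_assoc (ρ y), d, ← mul_assoc, b, mul_assoc (tau ρ x), b, ← mul_assoc, d,
    mul_assoc, mul_assoc _ (tau ρ x), ← mul_sub, mul_assoc, sub_mul, e, sub_self, mul_zero]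

theorem DH.tau_c (h : DH ρ K c) (hx : x ∈ K) : ρ c * tau ρ x = tau ρ x * ρ c := by
  refine sub_eq_zero.1 (h.span _ fun k hk => ?_)
  have e : ρ c * (ρ k * ((ρ c - 1) * (ρ x * (ρ c - 1)))) = ρ k⁻¹ * ((ρ c - 1) * (ρ x * (ρ c - 1))) := by
    rw [← mul_assoc (ρ k), ← mul_assoc (ρ c), cke h.two h.sq h.dg hk, mul_assoc]
  rw [sub_mul, sub_mul, mul_assoc (ρ c), ← h.tau_K hx hk, mul_assoc (ρ c), mul_assoc (ρ k), h.tauE hx, e, ← h.tauE hx,
    mul_assoc, mul_assoc, cke h.two h.sq h.dg hk, ← mul_assoc, h.tau_K hx (inv_mem hk), mul_assoc, sub_self]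

theorem six_of_tau (h2 : (2 : R) = 0) (h : tau ρ x = 0 ∨ tau ρ x = 1) : ρ x ^ 6 = 1 := by
  have e : ρ x * ρ x = tau ρ x * ρ x + 1 := by
    rw [tau, add_mul, im, add_assoc, one_add_one_eq_two, h2, add_zero]
  rcases h with h | h
  · rw [h, zero_mul, zero_add] at e
    rw [show (6 : ℕ) = 2 * 3 from rfl, pow_mul, sq, e, one_pow]
  · rw [h, one_mul] at e
    have : ρ x ^ 3 = 1 := by
      calc _ = ρ x * (ρ x * ρ x) := by noncomm_ring
        _ = ρ x * (ρ x + 1) := by rw [e]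
        _ = ρ x * ρ x + ρ x := by noncomm_ring
        _ = 2 * ρ x + 1 := by rw [e]; noncomm_ring
        _ = 1 := by rw [h2]; simp
    rw [show (6 : ℕ) = 3 * 2 from rfl, pow_mul, this, one_pow]

end PGV
end H17
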