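import Cfsg.Agent.H17.PGV1
import Mathlib.RepresentationTheory.Basic
import Mathlib.LinearAlgebra.Dual.Lemmas
import Mathlib.FieldTheory.Finiteness

/-! The P(G,V)-theorem, part 2: best offenders on an `𝔽_p G`-module (`fx`, `cn`, `BO`), restriction to submodules,
Timmesfeld's replacement theorem (`timm`), and the theorem `pgv`: a best offender normalizes every component acting
nontrivially. -/

set_option autoImplicit false
set_option linter.unusedSectionVars false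
set_option linter.unusedVariables false

namespace H17
namespace PGV
open Subgroup Cfsg H18
open scoped commutatorElement

variable {G V : Type*} [Group G] [Finite G] [AddCommGroup V] [Finite V] {p : ℕ} [hp : Fact p.Prime] [Module (ZMod p) V]
  {ρ : G →* Module.End (ZMod p) V} {A B K : Subgroup G} {a b c g x y : G} {X Y : Submodule (ZMod p) V} {v : V}

/-- fixed points -/
def fx (ρ : G →* Module.End (ZMod p) V) (B : Subgroup G) : Submodule (ZMod p) V where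
  carrier := {v | ∀ b ∈ B, ρ b v = v}
  zero_mem' := fun _ _ => map_zero _
  add_mem' := fun hv hw b hb => by rw [map_add, hv b hb, hw b hb]
  smul_mem' := fun c v hv b hb => by rw [map_smul, hv b hb]

theorem app_mul (g h : G) (v : V) : ρ (g * h) v = ρ g (ρ h v) := by rw [map_mul]; rfl
theorem app_inv (g : G) (v : V) : ρ g⁻¹ (ρ g v) = v := by rw [← app_mul, inv_mul_cancel, map_one]; rfl
theorem app_inv' (g : G) (v : V) : ρ g (ρ g⁻¹ v) = v := by rw [← app_mul, mul_inv_cancel, map_one]; rfl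

/-- pointwise stabilizer -/
def cn (ρ : G →* Module.End (ZMod p) V) (X : Submodule (ZMod p) V) : Subgroup G where
  carrier := {g | ∀ v ∈ X, ρ g v = v}
  one_mem' := fun v _ => by simp
  mul_mem' := fun hg hh v hv => by rw [app_mul, hh v hv, hg v hv]
  inv_mem' := fun {g} hg v hv => by conv_lhs => rw [← hg v hv, app_inv]

theorem le_fx_iff : X ≤ fx ρ B ↔ B ≤ cn ρ X := ⟨fun h _ hb _ hv => h hv _ hb, fun h _ hv _ hb => h hb _ hv⟩
theorem fx_anti (h : A ≤ B) : fx ρ B ≤ fx ρ A := fun _ hv a ha => hv a (h ha)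
theorem fx_sup : fx ρ (A ⊔ B) = fx ρ A ⊓ fx ρ B :=
  le_antisymm (le_inf (fx_anti le_sup_left) (fx_anti le_sup_right))
    (le_fx_iff.2 (sup_le (le_fx_iff.1 inf_le_left) (le_fx_iff.1 inf_le_right)))

abbrev Inv (ρ : G →* Module.End (ZMod p) V) (A : Subgroup G) (X : Submodule (ZMod p) V) : Prop :=
  ∀ a ∈ A, ∀ v ∈ X, ρ a v ∈ X

/-- best offender -/
def BO (ρ : G →* Module.End (ZMod p) V) (A : Subgroup G) : Prop :=
  ∀ B ≤ A, Nat.card B * Nat.card (fx ρ B) ≤ Nat.card A * Nat.card (fx ρ A)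

theorem card_pow (W : Type*) [AddCommGroup W] [Finite W] [Module (ZMod p) W] :
    Nat.card W = p ^ Module.finrank (ZMod p) W := by
  rw [Module.natCard_eq_pow_finrank (K := ZMod p), Nat.card_zmod]

instance : Finite (Module.Dual (ZMod p) V) := Finite.of_injective _ DFunLike.coe_injective

theorem card_inf_sup (X Y : Submodule (ZMod p) V) :
    Nat.card X * Nat.card Y = Nat.card (X ⊓ Y : Submodule (ZMod p) V) * Nat.card (X ⊔ Y : Submodule (ZMod p) V) := by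
  simp only [card_pow (p := p), ← pow_add]
  rw [← Submodule.finrank_sup_add_finrank_inf_eq, add_comm]

theorem card_mono (h : X ≤ Y) : Nat.card X ≤ Nat.card Y :=
  Nat.card_le_card_of_injective _ (Submodule.inclusion_injective h)

theorem card_ann (X : Submodule (ZMod p) V) : Nat.card X * Nat.card X.dualAnnihilator = Nat.card V := by
  simp only [card_pow (p := p), ← pow_add]
  rw [Subspace.finrank_add_finrank_dualAnnihilator_eq]

theorem card_ker_range (f : Module.End (ZMod p) V) :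
    Nat.card (LinearMap.ker f) * Nat.card (LinearMap.range f) = Nat.card V := by
  simp only [card_pow (p := p), ← pow_add]
  rw [add_comm, LinearMap.finrank_range_add_finrank_ker]

theorem nilp (h : a ^ p = 1) : (ρ a - 1) ^ p = 0 := by
  rcases subsingleton_or_nontrivial V with _ | _
  · exact Subsingleton.elim _ _
  have : CharP (Module.End (ZMod p) V) p := charP_of_injective_algebraMap (algebraMap (ZMod p) _).injective p
  rw [sub_pow_char_of_commute _ (Commute.one_right _), ← map_pow, h, map_one, one_pow, sub_self]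

theorem nil' (hA : Elem p A) (hX : Inv ρ A X) (hY : Inv ρ A Y) (h : X < Y) :
    ∃ Z, Inv ρ A Z ∧ X ≤ Z ∧ Z < Y ∧ ∀ a ∈ A, ∀ v ∈ Y, ρ a v - v ∈ Z := by
  obtain ⟨Z, ⟨h1, h2, h3⟩, hm⟩ := (wellFounded_gt (α := Submodule (ZMod p) V)).has_min
    {Z | Inv ρ A Z ∧ X ≤ Z ∧ Z < Y} ⟨X, hX, le_rfl, h⟩
  refine ⟨Z, h1, h2, h3, fun a ha v hv => ?_⟩
  have i : Inv ρ A (Z ⊔ Y.map (ρ a - 1)) := fun b hb w hw => by
    obtain ⟨z, hz, _, ⟨y, hy, rfl⟩, rfl⟩ := Submodule.mem_sup.1 hw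
    rw [map_add]
    refine Submodule.add_mem_sup (h1 b hb z hz) ⟨ρ b y, hY b hb y hy, ?_⟩
    simp only [LinearMap.sub_apply, Module.End.one_apply, map_sub, ← app_mul, comm_of_cent hA.abel ha hb]
  have l : Z ⊔ Y.map (ρ a - 1) ≤ Y := sup_le h3.le (by rintro _ ⟨y, hy, rfl⟩; exact Y.sub_mem (hY a ha y hy) hy)
  rcases l.lt_or_eq with e | e
  · have := (eq_or_lt_of_le (le_sup_left : Z ≤ Z ⊔ Y.map (ρ a - 1))).resolve_right (hm _ ⟨i, h2.trans le_sup_left, e⟩)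
    rw [this]; exact Submodule.mem_sup_right ⟨v, hv, rfl⟩
  have : ∀ n, Y ≤ Z ⊔ Y.map ((ρ a - 1) ^ n) := fun n => by
    induction n with
    | zero => simp [Module.End.one_eq_id]
    | succ n ih =>
      intro w hw
      obtain ⟨z, hz, _, ⟨y, hy, rfl⟩, rfl⟩ := Submodule.mem_sup.1 (e.ge hw)
      obtain ⟨z', hz', _, ⟨y', hy', rfl⟩, rfl⟩ := Submodule.mem_sup.1 (ih hy)
      rw [map_add, ← add_assoc]
      exact Submodule.add_mem_sup (Z.add_mem hz (Z.sub_mem (h1 a ha z' hz') hz')) ⟨y', hy', by rw [pow_succ']; rfl⟩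
  have := this p
  rw [nilp (hA.pow a ha), Submodule.map_zero, sup_bot_eq] at this
  exact absurd this h3.not_ge

theorem exists_fixed (hA : Elem p A) (hY : Inv ρ A Y) (h : Y ≠ ⊥) : ∃ v ∈ Y, v ≠ 0 ∧ v ∈ fx ρ A := by
  obtain ⟨Z, ⟨h1, h2, h3⟩, hm⟩ := (wellFounded_lt (α := Submodule (ZMod p) V)).has_min
    {Z | Inv ρ A Z ∧ Z ≤ Y ∧ Z ≠ ⊥} ⟨Y, hY, le_rfl, h⟩
  obtain ⟨W, a1, -, a2, a3⟩ := nil' hA (X := ⊥) (fun a _ v hv => by rw [(Submodule.mem_bot _).1 hv]; simp) h1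
    (bot_lt_iff_ne_bot.2 h3)
  obtain rfl : W = ⊥ := by_contra fun e => hm W ⟨a1, a2.le.trans h2, e⟩ a2
  obtain ⟨v, hv, v0⟩ := Submodule.exists_mem_ne_zero_of_ne_bot h3
  exact ⟨v, h2 hv, v0, fun a ha => sub_eq_zero.1 ((Submodule.mem_bot _).1 (a3 a ha v hv))⟩

theorem card_le_of_fib {α β γ : Type*} [Finite β] [Finite γ] (Ψ : α → β) (r : ∀ x y, Ψ x = Ψ y → γ)
    (h : ∀ x y z h1 h2, r x y h1 = r x z h2 → y = z) : Nat.card α ≤ Nat.card γ * Nat.card β := by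
  rcases isEmpty_or_nonempty α with _ | _
  · simp
  rw [← Nat.card_prod]
  refine Nat.card_le_card_of_injective (fun y => (r (Function.invFun Ψ (Ψ y)) y (Function.invFun_eq ⟨y, rfl⟩), Ψ y))
    fun y z e => ?_
  obtain ⟨e1, e2⟩ := Prod.ext_iff.1 e
  have : ∀ w (hw : Ψ w = Ψ z), w = Function.invFun Ψ (Ψ z) → r w z hw = r (Function.invFun Ψ (Ψ z)) z
      (Function.invFun_eq ⟨z, rfl⟩) := by rintro _ _ rfl; rfl
  exact h _ y z _ _ (e1.trans (this _ ((Function.invFun_eq ⟨y, rfl⟩).trans e2) (congrArg _ e2)).symm)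

theorem good_sup (h : BO ρ A) (hX : Nat.card A * Nat.card (fx ρ A) ≤ Nat.card (A ⊓ cn ρ X : Subgroup G) * Nat.card X)
    (hY : Nat.card A * Nat.card (fx ρ A) ≤ Nat.card (A ⊓ cn ρ Y : Subgroup G) * Nat.card Y) :
    Nat.card A * Nat.card (fx ρ A) ≤ Nat.card (A ⊓ cn ρ (X ⊔ Y) : Subgroup G) * Nat.card (X ⊔ Y : Submodule (ZMod p) V) := by
  have a1 := card_mul_le (le_sup_left : A ⊓ cn ρ X ≤ _ ⊔ A ⊓ cn ρ Y) le_sup_right
  have a2 := h (A ⊓ cn ρ X ⊔ A ⊓ cn ρ Y) (sup_le inf_le_left inf_le_left)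
  have a3 : Nat.card (X ⊓ Y : Submodule (ZMod p) V) ≤ Nat.card (fx ρ (A ⊓ cn ρ X ⊔ A ⊓ cn ρ Y)) := card_mono <| by
    rw [fx_sup]; exact inf_le_inf (le_fx_iff.2 inf_le_right) (le_fx_iff.2 inf_le_right)
  have a4 : Nat.card (A ⊓ cn ρ X ⊓ (A ⊓ cn ρ Y) : Subgroup G) ≤ Nat.card (A ⊓ cn ρ (X ⊔ Y) : Subgroup G) :=
    card_le (le_inf (inf_le_left.trans inf_le_left) (le_fx_iff.1 (sup_le (le_fx_iff.2 (inf_le_left.trans inf_le_right))
      (le_fx_iff.2 (inf_le_right.trans inf_le_right)))))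
  have a5 := card_inf_sup X Y
  have pos : 0 < Nat.card A * Nat.card (fx ρ A) := Nat.mul_pos Nat.card_pos Nat.card_pos
  refine Nat.le_of_mul_le_mul_left ?_ pos
  calc _ ≤ _ := Nat.mul_le_mul hX hY
    _ = (Nat.card (A ⊓ cn ρ X : Subgroup G) * Nat.card (A ⊓ cn ρ Y : Subgroup G)) * (Nat.card X * Nat.card Y) := by ring
    _ ≤ _ := by
      rw [a5]
      refine (Nat.mul_le_mul (a1.trans (Nat.mul_le_mul_right _ a4)) (Nat.mul_le_mul_right _ a3)).trans ?_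
      refine le_trans (le_of_eq (by ring)) (Nat.mul_le_mul_right _ a2)

theorem good_one (hA : Abel A) (u : V) : Nat.card A * Nat.card (fx ρ A) ≤
    Nat.card (A ⊓ cn ρ (Submodule.span (ZMod p) {w | ∃ a ∈ A, ρ a u - u = w} ⊔ fx ρ A) : Subgroup G) *
      Nat.card (Submodule.span (ZMod p) {w | ∃ a ∈ A, ρ a u - u = w} ⊔ fx ρ A : Submodule (ZMod p) V) := by
  rw [← Nat.card_prod]
  refine card_le_of_fib (fun z => ⟨ρ z.1 u - u + z.2, Submodule.add_mem_sup (Submodule.subset_span ⟨_, z.1.2, rfl⟩) z.2.2⟩)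
    (fun z w e => ⟨z.1⁻¹ * w.1, mem_inf.2 ⟨A.mul_mem (A.inv_mem z.1.2) w.1.2,
      le_fx_iff.1 (sup_le (Submodule.span_le.2 ?_) ?_) (mem_zpowers _)⟩⟩) fun z w w' e1 e2 e => ?_
  · rintro _ ⟨a, ha, rfl⟩
    refine (le_fx_iff (X := Submodule.span (ZMod p) {ρ a u - u})).2 (zpowers_le.2 fun v hv => ?_)
      (Submodule.mem_span_singleton_self _)
    obtain ⟨t, rfl⟩ := Submodule.mem_span_singleton.1 hv
    have e1 : ρ w.1 u = ρ z.1 u + (z.2 - w.2) := by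
      have : ρ z.1 u - u + z.2 = ρ w.1 u - u + w.2 := congrArg Subtype.val e
      rw [← sub_eq_zero, ← neg_eq_zero, ← sub_eq_zero.2 this]; abel
    have e2 : ρ w.1 (ρ a u - u) = ρ z.1 (ρ a u - u) := by
      rw [map_sub, map_sub, ← app_mul, ← app_mul, comm_of_cent hA w.1.2 ha, comm_of_cent hA z.1.2 ha, app_mul, app_mul,
        e1, map_add, (fx ρ A).sub_mem z.2.2 w.2.2 a ha]; abel
    rw [map_smul, app_mul, e2, coe_inv, app_inv]
  · exact fx_anti (zpowers_le.2 (A.mul_mem (A.inv_mem z.1.2) w.1.2))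
  · have a1 : w.1 = w'.1 := Subtype.ext (mul_left_cancel (congrArg Subtype.val e))
    have a2 := congrArg Subtype.val (e1.symm.trans e2)
    simp only [a1, add_right_inj] at a2
    exact Prod.ext a1 (Subtype.ext a2)

theorem timm (hA : Elem p A) (h : BO ρ A) : ∃ B ≤ A, (∀ b ∈ B, ∀ a ∈ A, (ρ b - 1) * (ρ a - 1) = 0) ∧
    Nat.card A * Nat.card (fx ρ A) ≤ Nat.card B * Nat.card (fx ρ B) ∧ (¬ Triv ρ A → ¬ Triv ρ B) := by
  obtain ⟨X, ⟨h1, h2, h3⟩, hm⟩ := (wellFounded_gt (α := Submodule (ZMod p) V)).has_min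
    {X | fx ρ A ≤ X ∧ Nat.card A * Nat.card (fx ρ A) ≤ Nat.card (A ⊓ cn ρ X : Subgroup G) * Nat.card X ∧
      ∀ Z, fx ρ A ≤ Z → (∀ a ∈ A, ∀ v, ρ a v - v ∈ Z) → X ≤ Z}
    ⟨fx ρ A, le_rfl, by rw [inf_eq_left.2 (le_fx_iff.1 le_rfl)], fun _ h _ => h⟩
  have key : ∀ a ∈ A, ∀ v, ρ a v - v ∈ X := fun a ha u => by
    have := (eq_or_lt_of_le le_sup_left).resolve_right (hm _ ⟨h1.trans le_sup_left, good_sup h h2 (good_one hA.abel u),
      fun Z a1 a2 => sup_le (h3 Z a1 a2) (sup_le (Submodule.span_le.2 (by rintro _ ⟨a, ha, rfl⟩; exact a2 a ha u)) a1)⟩)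
    rw [this]
    exact Submodule.mem_sup_right (Submodule.mem_sup_left (Submodule.subset_span ⟨a, ha, rfl⟩))
  refine ⟨A ⊓ cn ρ X, inf_le_left, fun b hb a ha => LinearMap.ext fun v => sub_eq_zero.2 (hb.2 _ (key a ha v)),
    h2.trans (Nat.mul_le_mul_left _ (card_mono (le_fx_iff.2 inf_le_right))), fun hn ht => ?_⟩
  have t : fx ρ A < ⊤ := lt_top_iff_ne_top.2 fun e => hn fun a ha => LinearMap.ext fun v => e.ge trivial a ha
  obtain ⟨Z, -, a1, a2, a3⟩ := nil' hA (fun a ha v hv => by rwa [hv a ha]) (fun _ _ _ _ => Submodule.mem_top) t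
  have a4 := (h _ (inf_le_left : A ⊓ cn ρ X ≤ A)).trans h2
  have a5 : fx ρ (A ⊓ cn ρ X) = ⊤ := top_le_iff.1 fun v _ b hb => by rw [ht b hb]; rfl
  rw [a5] at a4
  have a6 := Submodule.eq_of_le_of_finrank_le (le_top : X ≤ ⊤) (by
    have := Nat.le_of_mul_le_mul_left a4 Nat.card_pos
    simp only [card_pow (p := p)] at this
    exact (Nat.pow_le_pow_iff_right hp.out.one_lt).1 this)
  exact a2.not_ge (a6.ge.trans (h3 Z a1 fun a ha v => a3 a ha v trivial))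

theorem two_lt_iff {W : Type*} [AddCommGroup W] [Finite W] :
    2 < Nat.card W ↔ ∃ u w : W, u ≠ 0 ∧ w ≠ 0 ∧ u ≠ w := by
  have := Fintype.ofFinite W
  rw [Nat.card_eq_fintype_card, Fintype.two_lt_card_iff]
  exact ⟨fun ⟨a, b, c, h1, h2, h3⟩ => ⟨b - a, c - a, sub_ne_zero.2 h1.symm, sub_ne_zero.2 h2.symm,
    fun e => h3 (sub_left_injective e)⟩, fun ⟨u, w, h1, h2, h3⟩ => ⟨0, u, w, h1.symm, h2.symm, h3⟩⟩

theorem inv_span {S : Set V} (h : ∀ w ∈ S, ρ a w ∈ S) :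
    ∀ w ∈ Submodule.span (ZMod p) S, ρ a w ∈ Submodule.span (ZMod p) S := fun _ hv =>
  (Submodule.span_le (p := (Submodule.span (ZMod p) S).comap (ρ a))).2 (fun w hw => Submodule.subset_span (h w hw)) hv

/-- `V` is minimal among the `⟨K, A⟩`-modules on which the component `K` acts nontrivially -/
structure Mn (ρ : G →* Module.End (ZMod p) V) (K A : Subgroup G) : Prop where
  comp : IsComp K ⊤
  el : Elem p A
  nt : ¬ Triv ρ K
  min : ∀ X, Inv ρ K X → Inv ρ A X → X = ⊤ ∨ X ≤ fx ρ K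

theorem Mn.zero_or_inj (h : Mn ρ K A) {f : Module.End (ZMod p) V} (h1 : ∀ k ∈ K, ρ k * f = f * ρ k)
    (h2 : ∀ a ∈ A, ρ a * f = f * ρ a) : f = 0 ∨ Function.Injective f := by
  have r : ∀ {g}, ρ g * f = f * ρ g → ∀ v ∈ LinearMap.range f, ρ g v ∈ LinearMap.range f := by
    rintro g e _ ⟨v, rfl⟩; exact ⟨ρ g v, (LinearMap.congr_fun e v).symm⟩
  have k : ∀ {g}, ρ g * f = f * ρ g → ∀ v ∈ LinearMap.ker f, ρ g v ∈ LinearMap.ker f := fun {g} e v hv =>
    (LinearMap.congr_fun e v).symm.trans (by change ρ g (f v) = 0; rw [LinearMap.mem_ker.1 hv, map_zero])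
  rcases h.min _ (fun g hg => r (h1 g hg)) (fun g hg => r (h2 g hg)) with e | e
  · exact Or.inr (Finite.injective_iff_surjective.2 (LinearMap.range_eq_top.1 e))
  rcases h.min _ (fun g hg => k (h1 g hg)) (fun g hg => k (h2 g hg)) with e' | e'
  · exact Or.inl (LinearMap.ker_eq_top.1 e')
  refine absurd (perf1 h.comp fun x hx y hy => LinearMap.ext fun v => sub_eq_zero.2 (e' ?_ x hx)) h.nt
  change f (ρ y v - v) = 0
  rw [map_sub, sub_eq_zero]
  exact (LinearMap.congr_fun (h1 y hy) v).symm.trans (e ⟨v, rfl⟩ y hy)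

theorem Mn.not_cent (h : Mn ρ K A) (hb : b ∈ A) (h1 : ρ b ≠ 1) : b ∉ C(K) := fun hc => by
  have e : ∀ {g}, g * b = b * g → ρ g * (ρ b - 1) = (ρ b - 1) * ρ g := fun e => by
    rw [mul_sub, sub_mul, cm e, mul_one, one_mul]
  rcases h.zero_or_inj (fun k hk => e (mem_C.1 hc k hk)) (fun a ha => e (comm_of_cent h.el.abel ha hb)) with e | e
  · exact h1 (sub_eq_zero.1 e)
  refine h1 (LinearMap.ext fun v => ?_)
  have := (Module.End.iterate_injective e p)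
  rw [nilp (h.el.pow b hb)] at this
  exact this rfl

theorem Mn.ne_one (h : Mn ρ K A) (ha : a ∉ N(K)) : ρ a ≠ 1 := fun e =>
  h.nt (le_of_mem (M := ρ.ker) h.comp norm_of_normal e fun c => ha (C_le_N c))

theorem Mn.odd (h : Mn ρ K A) (hp2 : p ≠ 2) (hB : BO ρ A) : A ≤ N(K) := fun a ha => by_contra fun hn => by
  have h2 : ∀ f : Module.End (ZMod p) V, 2 • f = 0 → f = 0 := fun f e => by
    rw [← Nat.cast_smul_eq_nsmul (ZMod p), smul_eq_zero] at e
    exact e.resolve_left fun e => hp2 ((Nat.prime_dvd_prime_iff_eq hp.out Nat.prime_two).1 ((ZMod.natCast_eq_zero_iff _ _).1 e))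
  obtain ⟨B, hA, q, -, t⟩ := timm h.el hB
  obtain ⟨b, hb, b1⟩ : ∃ b ∈ B, ρ b ≠ 1 := by simpa using t fun e => h.ne_one hn (e a ha)
  by_cases bK : b ∈ N(K)
  swap; · exact h.nt (q1 h.comp h2 bK (q b hb b (hA hb)))
  have cK := h.not_cent (hA hb) b1
  have e := comm_of_cent h.el.abel ha (hA hb)
  refine h.nt (q3 h.comp bK cK (q b hb a ha) (fun x hx y hy => q2 h.comp (h.comp.cj_of_mem_normalizer (g := a) (by simp))
    ?_ h2 bK ?_ cK (fun c => cK ?_) (q b hb b (hA hb)) x hx _ ⟨y, hy, rfl⟩) e)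
  · refine cent_symm ?_
    rintro _ ⟨y, hy, rfl⟩; exact conj_mem_C h.comp hn hy
  · refine mem_N_of_finite ?_
    rintro _ ⟨y, hy, rfl⟩
    refine ⟨b * y * b⁻¹, (mem_normalizer_iff.1 bK y).1 hy, ?_⟩
    change a * (b * y * b⁻¹) * a⁻¹ = b * (a * y * a⁻¹) * b⁻¹
    calc _ = a * b * y * (a * b)⁻¹ := by group
      _ = _ := by rw [e]; group
  · refine mem_C.2 fun y hy => ?_
    have : a * y * a⁻¹ * b = b * (a * y * a⁻¹) := mem_C.1 c _ ⟨y, hy, rfl⟩
    calc _ = a⁻¹ * (a * y * a⁻¹ * (a * b)) := by group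
      _ = a⁻¹ * (a * y * a⁻¹ * b) * a := by rw [e]; group
      _ = (a⁻¹ * (b * a)) * y := by rw [this]; group
      _ = _ := by rw [← e]; group

theorem two_eq (h2 : p = 2) : (2 : Module.End (ZMod p) V) = 0 := by
  have : ((2 : ℕ) : ZMod p) = 0 := h2 ▸ ZMod.natCast_self p
  rw [← Nat.cast_ofNat, ← map_natCast (algebraMap (ZMod p) _), this, map_zero]

theorem Mn.sq (h : Mn ρ K A) (h2 : p = 2) (hc : c ∈ A) : c * c = 1 := by
  have := h.el.pow c hc; rwa [h2, pow_two] at this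

theorem Mn.inv_A (h : Mn ρ K A) (h2 : p = 2) (hc : c ∈ A) (n2 : ∀ a ∈ A, a ∈ N(K) ∨ c * a ∈ N(K))
    (h1 : Inv ρ (A ⊓ N(K)) X) (h3 : ∀ v ∈ X, ρ c v ∈ X) : Inv ρ A X := fun a ha v hv => by
  rcases n2 a ha with e | e
  · exact h1 a ⟨ha, e⟩ v hv
  · rw [← one_mul a, ← h.sq h2 hc, mul_assoc, app_mul]
    exact h3 _ (h1 _ ⟨A.mul_mem hc ha, e⟩ v hv)

theorem Mn.dh (h : Mn ρ K A) (h2 : p = 2) (hc : c ∈ A) (cK : c ∉ N(K)) (n2 : ∀ a ∈ A, a ∈ N(K) ∨ c * a ∈ N(K))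
    (hd : ∀ x ∈ K, dg c x ∈ cz ρ (ρ c - 1)) : DH ρ K c := by
  refine ⟨two_eq h2, h.comp, cK, h.sq h2 hc, hd, fun f hf => ?_⟩
  have i : ∀ {g}, (∀ k ∈ K, ∀ v, ∃ k' ∈ K, ∃ v', ρ g (ρ k ((ρ c - 1) v)) = ρ k' ((ρ c - 1) v')) →
      ∀ w ∈ Submodule.span (ZMod p) {w | ∃ k ∈ K, ∃ v, w = ρ k ((ρ c - 1) v)},
        ρ g w ∈ Submodule.span (ZMod p) {w | ∃ k ∈ K, ∃ v, w = ρ k ((ρ c - 1) v)} := fun {g} e =>
    inv_span (by rintro _ ⟨k, hk, v, rfl⟩; exact e k hk v)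
  rcases h.min _ (fun g hg => i fun k hk v => ⟨_, K.mul_mem hg hk, v, (app_mul _ _ _).symm⟩)
    (h.inv_A h2 hc n2 (fun a ha => i fun k hk v => ⟨_, (mem_normalizer_iff.1 ha.2 k).1 hk, ρ a v, by
        simp only [LinearMap.sub_apply, Module.End.one_apply, map_sub, ← app_mul]
        rw [comm_of_cent h.el.abel hc ha.1]; congr 3 <;> group⟩)
      (i fun k hk v => ⟨_, K.inv_mem hk, v, LinearMap.congr_fun (cke (two_eq h2) (h.sq h2 hc) hd hk) v⟩)) with e | e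
  · refine LinearMap.ker_eq_top.1 (top_le_iff.1 (e.ge.trans (Submodule.span_le.2 ?_)))
    rintro _ ⟨k, hk, v, rfl⟩; exact LinearMap.congr_fun (hf k hk) v
  let M : Subgroup G :=
    { carrier := {g | ∀ v, ρ g v - v ∈ fx ρ K}
      one_mem' := fun v => by simp
      mul_mem' := fun {x y} hx hy v => by
        have := (fx ρ K).add_mem (hx (ρ y v)) (hy v)
        rwa [sub_add_sub_cancel, ← app_mul] at this
      inv_mem' := fun {x} hx v => by
        have := (fx ρ K).neg_mem (hx (ρ x⁻¹ v))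
        rwa [app_inv', neg_sub] at this }
  have hn : K ≤ N(M) := norm_iff.2 fun k hk g hg v => by
    have := hg (ρ k⁻¹ v)
    rwa [← this k hk, map_sub, app_inv', ← app_mul, ← app_mul] at this
  have hc' : c ∈ M := fun v => e (Submodule.subset_span ⟨1, K.one_mem, v, by simp⟩)
  exact absurd (perf1 h.comp fun x hx y hy => LinearMap.ext fun v =>
    sub_eq_zero.2 (le_of_mem h.comp hn hc' (fun e => cK (C_le_N e)) hy v x hx)) h.nt

theorem DH.big (h : DH ρ K c) (nt : ¬ Triv ρ K) : 2 < Nat.card (LinearMap.range (ρ c - 1)) := by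
  by_contra hs
  rw [two_lt_iff] at hs
  push Not at hs
  refine nt (triv_of_pow_six h.comp fun x hx => six_of_tau h.two ?_)
  have k : ∀ e, (∀ k ∈ K, ρ k * e = e * ρ k) → tau ρ x * (ρ c - 1) = e * (ρ c - 1) → tau ρ x = e := fun e h1 h2 =>
    sub_eq_zero.1 (h.span _ fun k hk => by
      rw [sub_mul, ← h1 k hk, ← h.tau_K hx hk, ← mul_sub, mul_assoc, sub_mul, h2, sub_self, mul_zero])
  by_cases e : tau ρ x * (ρ c - 1) = 0
  · exact Or.inl (k 0 (by simp) (by simpa using e))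
  refine Or.inr (k 1 (by simp) (LinearMap.ext fun v => ?_))
  obtain ⟨u, hu⟩ : ∃ u, tau ρ x ((ρ c - 1) u) ≠ 0 := by
    by_contra hh; push Not at hh; exact e (LinearMap.ext hh)
  change tau ρ x ((ρ c - 1) v) = (ρ c - 1) v
  by_cases v0 : (ρ c - 1) v = 0
  · rw [v0, map_zero]
  have a1 := congrArg Subtype.val (hs ⟨_, v, rfl⟩ ⟨_, u, rfl⟩ (fun e => v0 (congrArg Subtype.val e))
    fun e => hu (by rw [show (ρ c - 1) u = 0 from congrArg Subtype.val e, map_zero]))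
  have a2 := congrArg Subtype.val (hs ⟨_, _, (LinearMap.congr_fun (h.tauE hx) u).symm⟩ ⟨_, v, rfl⟩
    (fun e => hu (congrArg Subtype.val e)) (fun e => v0 (congrArg Subtype.val e)))
  exact (congrArg (fun w => tau ρ x w) a1).trans a2

theorem Mn.simple (h : Mn ρ K A) (h2 : p = 2) (hc : c ∈ A) (n2 : ∀ a ∈ A, a ∈ N(K) ∨ c * a ∈ N(K)) (hd : DH ρ K c)
    (ht : ∀ x ∈ K, ∀ a ∈ A, ρ a * tau ρ x = tau ρ x * ρ a) (hX : X ≤ LinearMap.range (ρ c - 1)) (h0 : X ≠ ⊥)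
    (hi : ∀ f : Module.End (ZMod p) V, (∀ g, g ∈ K ∨ g ∈ A → ρ g * f = f * ρ g) → ∀ v ∈ X, f v ∈ X) :
    LinearMap.range (ρ c - 1) ≤ X := by
  obtain ⟨_, ⟨w, rfl⟩, u0, uA⟩ := exists_fixed (ρ := ρ) h.el (Y := LinearMap.range (ρ c - 1)) (by
    rintro a ha _ ⟨v, rfl⟩
    refine ⟨ρ a v, ?_⟩
    simp only [LinearMap.sub_apply, Module.End.one_apply, map_sub, ← app_mul, comm_of_cent h.el.abel hc ha])
    fun e => h0 (le_bot_iff.1 (e ▸ hX))
  have i : ∀ {g}, (∀ k ∈ K, ∃ k' ∈ K, ρ g (ρ k ((ρ c - 1) w)) = ρ k' ((ρ c - 1) w)) →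
      ∀ v ∈ Submodule.span (ZMod p) {v | ∃ k ∈ K, v = ρ k ((ρ c - 1) w)},
        ρ g v ∈ Submodule.span (ZMod p) {v | ∃ k ∈ K, v = ρ k ((ρ c - 1) w)} := fun {g} e =>
    inv_span (by rintro _ ⟨k, hk, rfl⟩; exact e k hk)
  rcases h.min _ (fun g hg => i fun k hk => ⟨_, K.mul_mem hg hk, (app_mul _ _ _).symm⟩)
    (h.inv_A h2 hc n2 (fun a ha => i fun k hk => ⟨_, (mem_normalizer_iff.1 ha.2 k).1 hk, by
        rw [app_mul, app_mul, uA _ (A.inv_mem ha.1)]⟩)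
      (i fun k hk => ⟨_, K.inv_mem hk, LinearMap.congr_fun (cke hd.two hd.sq hd.dg hk) w⟩)) with e | e
  swap
  · have e := e (Submodule.subset_span ⟨1, K.one_mem, rfl⟩)
    rw [map_one, Module.End.one_apply] at e
    refine absurd (triv_of_pow_six h.comp fun x hx => six_of_tau hd.two (Or.inl ?_)) h.nt
    refine (h.zero_or_inj (fun k hk => hd.tau_K hx hk) (ht x hx)).resolve_right fun inj => u0 (inj ?_)
    rw [map_zero, tau, LinearMap.add_apply, e x hx, e _ (K.inv_mem hx), ← two_smul (Module.End (ZMod p) V), hd.two,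
      zero_smul]
  have z : ∀ v, ∃ f : Module.End (ZMod p) V, (∀ g, g ∈ K ∨ g ∈ A → ρ g * f = f * ρ g) ∧
      (ρ c - 1) v = f ((ρ c - 1) w) := fun v => by
    induction e.ge (Submodule.mem_top (x := v)) using Submodule.span_induction with
    | mem _ hv =>
      obtain ⟨k, hk, rfl⟩ := hv
      exact ⟨tau ρ k, fun g hg => hg.elim (hd.tau_K hk) (ht k hk g), (LinearMap.congr_fun (hd.tauE hk) w).symm⟩
    | zero => exact ⟨0, by simp, by simp⟩
    | add _ _ _ _ a b =>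
      obtain ⟨f, f1, f2⟩ := a
      obtain ⟨f', f1', f2'⟩ := b
      exact ⟨f + f', fun g hg => by rw [mul_add, add_mul, f1 g hg, f1' g hg], by rw [map_add, f2, f2']; rfl⟩
    | smul t _ _ a =>
      obtain ⟨f, f1, f2⟩ := a
      exact ⟨t • f, fun g hg => by rw [mul_smul_comm, smul_mul_assoc, f1 g hg], by rw [map_smul, f2]; rfl⟩
  obtain ⟨u, hu, u0'⟩ := Submodule.exists_mem_ne_zero_of_ne_bot h0
  obtain ⟨v, rfl⟩ := hX hu
  obtain ⟨f, f1, f2⟩ := z v
  have inj := (h.zero_or_inj (fun g hg => f1 g (Or.inl hg)) (fun g hg => f1 g (Or.inr hg))).resolve_left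
    (by rintro rfl; exact u0' f2)
  obtain ⟨y, hy⟩ := Finite.surjective_of_injective (f := fun y : X => (⟨f y, hi f f1 _ y.2⟩ : X))
    (fun y y' e => Subtype.ext (inj (congrArg Subtype.val e))) ⟨_, hu⟩
  have : (ρ c - 1) w ∈ X := inj ((congrArg Subtype.val hy).trans f2) ▸ y.2
  rintro _ ⟨v', rfl⟩
  obtain ⟨f', f1', f2'⟩ := z v'
  exact f2' ▸ hi f' f1' _ this

theorem Mn.sup_ker (h : Mn ρ K A) (h2 : p = 2) (hc : c ∈ A) (n2 : ∀ a ∈ A, a ∈ N(K) ∨ c * a ∈ N(K)) (hd : DH ρ K c)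
    (ht : ∀ x ∈ K, ∀ a ∈ A, ρ a * tau ρ x = tau ρ x * ρ a) (hb : b ∈ A) (hd' : DH ρ K b) (ne : ρ c ≠ ρ b) :
    LinearMap.ker (ρ c - 1) ⊔ LinearMap.ker (ρ b - 1) = ⊤ := by
  have cm1 : ∀ {f : Module.End (ZMod p) V} {g}, ρ g * f = f * ρ g → (ρ g - 1) * f = f * (ρ g - 1) := fun e => by
    rw [sub_mul, mul_sub, e, one_mul, mul_one]
  have := h.simple (X := (LinearMap.ker (ρ b - 1)).map (ρ c - 1)) h2 hc n2 hd ht LinearMap.map_le_range (fun e => ?_) (by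
    rintro f hf _ ⟨v, hv, rfl⟩
    refine ⟨f v, (LinearMap.congr_fun (cm1 (hf b (Or.inr hb))) v).trans ?_, LinearMap.congr_fun (cm1 (hf c (Or.inr hc))) v⟩
    change f ((ρ b - 1) v) = 0
    rw [LinearMap.mem_ker.1 hv, map_zero])
  · refine top_le_iff.1 fun v _ => ?_
    obtain ⟨w, hw, e⟩ := this ⟨v, rfl⟩
    rw [← sub_add_cancel v w]
    exact Submodule.add_mem_sup (by rw [LinearMap.mem_ker, map_sub, e, sub_self]) hw
  have m : c * b ∈ cn ρ (LinearMap.ker (ρ b - 1)) := fun v hv => by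
    rw [app_mul, sub_eq_zero.1 hv]
    exact sub_eq_zero.1 ((Submodule.mem_bot _).1 (e.le ⟨v, hv, rfl⟩))
  have d := diag_le (M := cn ρ (LinearMap.ker (ρ b - 1))) h.comp hd'.nn hd'.sq (norm_iff.2 fun g hg y hy v hv => by
      rw [app_mul, app_mul, hy, app_inv']
      refine (LinearMap.congr_fun (cm1 (cm (mem_C1.1 (inv_mem hg)).symm)) v).trans ?_
      change ρ g⁻¹ ((ρ b - 1) v) = 0
      rw [LinearMap.mem_ker.1 hv, map_zero]) m ((n2 b hb).resolve_left hd'.nn)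
    (h.not_cent (A.mul_mem hc hb) fun e => ne (by rw [← mul_one (ρ c), ← map_one ρ, ← hd'.sq, ← map_mul, ← mul_assoc,
      map_mul, e, one_mul])) (comm_of_cent h.el.abel (A.mul_mem hc hb) hb)
  have t := perf' (σ := fun x => ρ (dg b x)) (f := 1) h.comp.perfect (by rw [dg_one, map_one])
    (fun x hx y hy => by rw [dg_mul h.comp hd'.nn hx hy, map_mul]) fun x hx y hy => by
      rw [mul_one]
      refine LinearMap.ext fun v => sub_eq_zero.2 (d x hx _ (LinearMap.congr_fun (?_ : (ρ b - 1) * (ρ (dg b y) - 1) = 0) v))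
      rw [← cm1 (cm1 (cm (dg_comm h.comp hd'.nn hd'.sq hy).symm)).symm]
      exact mem_cz'.1 (hd'.dg y hy)
  obtain ⟨x, hx, hx'⟩ := SetLike.not_le_iff_exists.1 (qs_not_le_centralizer h.comp.qs)
  exact h.nt (le_of_mem (M := ρ.ker) h.comp norm_of_normal (sub_eq_zero.1 ((mul_one _).symm.trans (t x hx)))
    (dg_not_mem_C h.comp hd'.nn hx hx'))

theorem Mn.count (h : Mn ρ K A) (h2 : p = 2) (hB : BO ρ A) (hc : c ∈ A) (cK : c ∉ N(K))
    (n2 : ∀ c ∈ A, c ∉ N(K) → ∀ a ∈ A, a ∈ N(K) ∨ c * a ∈ N(K)) (hd : ∀ c ∈ A, c ∉ N(K) → DH ρ K c) : False := by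
  classical
  have ht : ∀ x ∈ K, ∀ a ∈ A, ρ a * tau ρ x = tau ρ x * ρ a := fun x hx a ha => by
    by_cases e : a ∈ N(K)
    swap; · exact (hd a ha e).tau_c hx
    have e1 := (hd c hc cK).tau_c hx
    have e2 := (hd _ (A.mul_mem hc ha) fun e' => cK (by simpa using mul_mem e' (inv_mem e))).tau_c hx
    rw [← one_mul a, ← h.sq h2 hc, mul_assoc c, map_mul, mul_assoc, e2, ← mul_assoc, e1, mul_assoc]
  have ex : ∀ s : Module.End (ZMod p) V, ∃ φ : Bool → Module.Dual (ZMod p) V, 2 < Nat.card (LinearMap.range (s - 1)) →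
      φ.Injective ∧ ∀ i, φ i ≠ 0 ∧ φ i ∈ (LinearMap.ker (s - 1)).dualAnnihilator := fun s => by
    by_cases e : 2 < Nat.card (LinearMap.range (s - 1))
    swap; · exact ⟨0, fun e' => absurd e' e⟩
    rw [← Nat.eq_of_mul_eq_mul_left Nat.card_pos ((card_ann _).trans (card_ker_range _).symm), two_lt_iff] at e
    obtain ⟨u, w, h1, h2, h3⟩ := e
    refine ⟨fun i => if i then u else w, fun _ => ⟨?_, ?_⟩⟩
    · rintro (_ | _) (_ | _) e <;> first | rfl | exact absurd (Subtype.ext e) (by simpa [eq_comm] using h3)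
    · rintro (_ | _)
      exacts [⟨fun e => h2 (Subtype.ext e), w.2⟩, ⟨fun e => h1 (Subtype.ext e), u.2⟩]
  choose φ hφ using ex
  have hφ' := fun z : {a : A // (a : G) ∉ N(K)} => hφ (ρ z.1) ((hd _ z.1.2 z.2).big h.nt)
  have key : ∀ (z w : {a : A // (a : G) ∉ N(K)}) i j, φ (ρ z.1) i = φ (ρ w.1) j → ρ z.1 = ρ w.1 := fun z w i j e => by
    by_contra ne
    refine ((hφ' z).2 i).1 ((Submodule.mem_bot (ZMod p)).1 ?_)
    rw [← Submodule.dualAnnihilator_top, ← h.sup_ker h2 z.1.2 (n2 _ z.1.2 z.2) (hd _ z.1.2 z.2) ht w.1.2 (hd _ w.1.2 w.2) ne,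
      Submodule.dualAnnihilator_sup_eq]
    exact ⟨((hφ' z).2 i).2, e ▸ ((hφ' w).2 j).2⟩
  have a1 := card_le_of_fib (α := {a : A // (a : G) ∉ N(K)} × Bool) (β := {ψ : (fx ρ A).dualAnnihilator // ψ ≠ 0})
    (γ := (A ⊓ ρ.ker : Subgroup G))
    (fun z => ⟨⟨φ (ρ z.1.1) z.2, Submodule.dualAnnihilator_anti (U := fx ρ A) (fun v hv => sub_eq_zero.2 (hv _ z.1.1.2))
      ((hφ' z.1).2 z.2).2⟩, fun e => ((hφ' z.1).2 z.2).1 (congrArg Subtype.val e)⟩)
    (fun z w e => ⟨(z.1.1 : G)⁻¹ * w.1.1, mem_inf.2 ⟨A.mul_mem (A.inv_mem z.1.1.2) w.1.1.2, by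
      rw [MonoidHom.mem_ker, map_mul, ← key z.1 w.1 z.2 w.2 (congrArg (fun t => t.1.1) e), im]⟩⟩)
    fun z w w' e1 e2 e => by
      have a : w.1 = w'.1 := Subtype.ext (Subtype.ext (mul_left_cancel (congrArg Subtype.val e)))
      have b : φ (ρ w.1.1) w.2 = φ (ρ w'.1.1) w'.2 := congrArg (fun t => t.1.1) (e1.symm.trans e2)
      rw [← a] at b
      exact Prod.ext a ((hφ' w.1).1 b)
  have a2 : Nat.card A ≤ Nat.card ({a : A // (a : G) ∉ N(K)} × Bool) := Nat.card_le_card_of_injective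
    (fun a => if e : (a : G) ∈ N(K) then (⟨⟨c, hc⟩ * a, fun e' => cK (by simpa using mul_mem e' (inv_mem e))⟩, true)
      else (⟨a, e⟩, false)) fun a b e => by
        by_cases ha : (a : G) ∈ N(K) <;> by_cases hb : (b : G) ∈ N(K) <;> simpa [ha, hb] using e
  have a3 : Nat.card {ψ : (fx ρ A).dualAnnihilator // ψ ≠ 0} < Nat.card (fx ρ A).dualAnnihilator :=
    Finite.card_subtype_lt (x := 0) (by simp)
  have a4 := hB (A ⊓ ρ.ker) inf_le_left
  rw [show fx ρ (A ⊓ ρ.ker) = ⊤ from top_le_iff.1 fun v _ b hb => by rw [MonoidHom.mem_ker.1 hb.2]; rfl,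
    Nat.card_congr Submodule.topEquiv.toEquiv, ← card_ann (fx ρ A), mul_comm (Nat.card (fx ρ A)), ← mul_assoc] at a4
  exact absurd ((Nat.le_of_mul_le_mul_right a4 Nat.card_pos).trans (a2.trans a1))
    (not_le.2 (Nat.mul_lt_mul_of_pos_left a3 Nat.card_pos))

theorem Mn.two (h : Mn ρ K A) (h2 : p = 2) (hB : BO ρ A) : A ≤ N(K) := fun a ha => by_contra fun hn => by
  classical
  obtain ⟨B, hA, q, m, t⟩ := timm h.el hB
  have cm1 : ∀ {c g}, g * c = c * g → ρ g * (ρ c - 1) = (ρ c - 1) * ρ g := fun e => by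
    rw [sub_mul, mul_sub, cm e, one_mul, mul_one]
  by_cases e : ∃ b ∈ B, b ∈ N(K) ∧ ρ b ≠ 1
  · obtain ⟨b, hb, bK, b1⟩ := e
    have cK := h.not_cent (hA hb) b1
    have hd : ∀ c ∈ A, c ∉ N(K) → ∀ x ∈ K, dg c x ∈ cz ρ (ρ c - 1) := fun c hc cN =>
      diag_le h.comp cN (h.sq h2 hc) (norm_cz fun k hk => cm1 (mem_C1.1 hk)) (mem_cz'.2 (q b hb c hc)) bK cK
        (comm_of_cent h.el.abel (hA hb) hc)
    by_cases n2 : ∀ c ∈ A, c ∉ N(K) → ∀ a ∈ A, a ∈ N(K) ∨ c * a ∈ N(K)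
    · exact h.count h2 hB ha hn n2 fun c hc cN => h.dh h2 hc cN (n2 c hc cN) (hd c hc cN)
    push Not at n2
    obtain ⟨c, hc, cN, d, hd', dN, cd⟩ := n2
    exact h.nt (q3 h.comp bK cK (q b hb d hd') (third h.comp cN (h.sq h2 hc) dN cd (comm_of_cent h.el.abel hd' hc)
      (hd c hc cN)) (comm_of_cent h.el.abel hd' (hA hb)))
  push Not at e
  obtain ⟨b, hb, b1⟩ : ∃ b ∈ B, ρ b ≠ 1 := by simpa using t fun e => h.ne_one hn (e a ha)
  have bN : b ∉ N(K) := fun e' => b1 (e b hb e')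
  by_cases n2 : ∀ a ∈ A, a ∈ N(K) ∨ b * a ∈ N(K)
  swap
  · push Not at n2
    obtain ⟨d, hd, dN, bd⟩ := n2
    exact h.nt (q1' h.comp (two_eq h2) bN dN bd (h.sq h2 (hA hb)) (h.sq h2 hd) (comm_of_cent h.el.abel (hA hb) hd)
      (q b hb d hd))
  have a1 : Nat.card B ≤ Nat.card ((B ⊓ N(K) : Subgroup G) × Bool) := Nat.card_le_card_of_injective
    (fun a => if e : (a : G) ∈ N(K) then (⟨a, mem_inf.2 ⟨a.2, e⟩⟩, true)
      else (⟨b * a, mem_inf.2 ⟨B.mul_mem hb a.2, (n2 _ (hA a.2)).resolve_left e⟩⟩, false)) fun a b e => by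
        by_cases ha : (a : G) ∈ N(K) <;> by_cases hb : (b : G) ∈ N(K) <;> simpa [ha, hb] using e
  have a2 := (hB (B ⊓ N(K)) (inf_le_left.trans hA)).trans m
  rw [show fx ρ (B ⊓ N(K)) = ⊤ from top_le_iff.1 fun v _ b hb => by rw [e b hb.1 hb.2]; rfl,
    Nat.card_congr Submodule.topEquiv.toEquiv, ← card_ker_range (V := V) (ρ b - 1)] at a2
  have a3 : Nat.card (fx ρ B) ≤ Nat.card (LinearMap.ker (ρ b - 1)) := card_mono fun v hv => sub_eq_zero.2 (hv b hb)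
  have a4 : ¬ 2 < Nat.card (LinearMap.range (ρ b - 1)) := not_lt.2 <| by
    have := a2.trans (Nat.mul_le_mul a1 a3)
    rw [Nat.card_prod, mul_assoc _ (Nat.card Bool), mul_comm (Nat.card Bool)] at this
    simpa using Nat.le_of_mul_le_mul_left (Nat.le_of_mul_le_mul_left this Nat.card_pos) Nat.card_pos
  refine a4 ((h.dh h2 (hA hb) bN n2 fun x hx => LinearMap.ext fun v => ?_).big h.nt)
  rw [two_lt_iff] at a4
  push Not at a4
  change ρ _ ((ρ b - 1) v) = (ρ b - 1) v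
  by_cases v0 : (ρ b - 1) v = 0
  · rw [v0, map_zero]
  exact congrArg Subtype.val (a4 ⟨_, _, (LinearMap.congr_fun (cm1 (dg_comm h.comp bN (h.sq h2 (hA hb)) hx)) v).symm⟩
    ⟨_, v, rfl⟩ (fun e => v0 (by
      have : ρ (dg b x) ((ρ b - 1) v) = 0 := congrArg Subtype.val e
      rw [← app_inv (ρ := ρ) (dg b x) ((ρ b - 1) v), this, map_zero])) fun e => v0 (congrArg Subtype.val e))

theorem BO.inf (h : BO ρ A) (hB : B ≤ A) (X : Submodule (ZMod p) V) :
    Nat.card B * Nat.card (X ⊓ fx ρ B : Submodule (ZMod p) V) ≤ Nat.card A * Nat.card (X ⊓ fx ρ A : Submodule (ZMod p) V) := by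
  have a1 := card_inf_sup (X ⊓ fx ρ B) (fx ρ A)
  rw [inf_assoc, inf_eq_right.2 (fx_anti hB)] at a1
  have a2 := card_mono (sup_le inf_le_right (fx_anti hB) : X ⊓ fx ρ B ⊔ fx ρ A ≤ fx ρ B)
  refine Nat.le_of_mul_le_mul_right ?_ (Nat.card_pos (α := fx ρ A))
  rw [mul_assoc, a1, mul_left_comm, mul_right_comm, mul_comm _ (Nat.card (X ⊓ fx ρ A : Submodule (ZMod p) V))]
  exact Nat.mul_le_mul_left _ ((Nat.mul_le_mul_left _ a2).trans (h B hB))

/-- The P(G,V)-theorem -/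
theorem pgv (hK : IsComp K ⊤) (hA : Elem p A) (hB : BO ρ A) (nt : ¬ Triv ρ K) : A ≤ N(K) := by
  obtain ⟨W, ⟨h1, h2⟩, hm⟩ := (wellFounded_lt (α := Submodule (ZMod p) V)).has_min
    {W | Inv ρ (K ⊔ A) W ∧ ¬ W ≤ fx ρ K} ⟨⊤, fun _ _ _ _ => Submodule.mem_top,
      fun e => nt fun k hk => LinearMap.ext fun v => e Submodule.mem_top k hk⟩
  let σ : ↥(K ⊔ A) →* Module.End (ZMod p) W :=
    { toFun := fun g => (ρ g).restrict (h1 g g.2)
      map_one' := by ext; simp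
      map_mul' := fun _ _ => by ext; simp }
  have c : ∀ B : Subgroup ↥(K ⊔ A), Nat.card (fx σ B) = Nat.card (W ⊓ fx ρ (B.map (K ⊔ A).subtype) : Submodule (ZMod p) V) :=
    fun B => Nat.card_congr
      { toFun := fun v => ⟨v.1.1, v.1.2, by rintro _ ⟨b, hb, rfl⟩; exact congrArg Subtype.val (v.2 b hb)⟩
        invFun := fun v => ⟨⟨v.1, v.2.1⟩, fun b hb => Subtype.ext (v.2.2 _ ⟨b, hb, rfl⟩)⟩
        left_inv := fun _ => rfl
        right_inv := fun _ => rfl }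
  have hB' : BO σ (A.subgroupOf (K ⊔ A)) := fun B hB' => by
    rw [c, c, ← card_map_subtype (Y := B), ← card_map_subtype (Y := A.subgroupOf _), map_subgroupOf_eq_of_le le_sup_right]
    exact hB.inf ((map_mono hB').trans (map_subgroupOf_eq_of_le le_sup_right).le) W
  have h : Mn σ (K.subgroupOf (K ⊔ A)) (A.subgroupOf (K ⊔ A)) := by
    refine ⟨isComp_top_iff.2 (isComp_iff.1 (hK.mono le_sup_left le_top)).2,
      ⟨fun a ha => mem_C.2 fun b hb => Subtype.ext (comm_of_cent hA.abel hb ha), fun a ha => Subtype.ext (hA.pow _ ha)⟩,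
      fun e => h2 fun v hv k hk => congrArg Subtype.val (LinearMap.congr_fun (e ⟨k, mem_sup_left hk⟩ hk) ⟨v, hv⟩),
      fun X i1 i2 => or_iff_not_imp_right.2 fun e => ?_⟩
    let M : Subgroup G :=
      { carrier := {g | ∀ v, v ∈ X.map W.subtype ↔ ρ g v ∈ X.map W.subtype}
        one_mem' := fun v => by simp
        mul_mem' := fun {x y} hx hy v => by rw [app_mul, ← hx, ← hy]
        inv_mem' := fun {x} hx v => by rw [hx (ρ x⁻¹ v), app_inv'] }
    have i : ∀ L ≤ K ⊔ A, Inv σ (L.subgroupOf (K ⊔ A)) X → L ≤ M := fun L hL i g hg v => by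
      have j : ∀ g ∈ L, ∀ v ∈ X.map W.subtype, ρ g v ∈ X.map W.subtype := by
        rintro g hg _ ⟨w, hw, rfl⟩; exact ⟨_, i ⟨g, hL hg⟩ hg w hw, rfl⟩
      exact ⟨j g hg v, fun e => by simpa only [app_inv] using j _ (L.inv_mem hg) _ e⟩
    have := (eq_or_lt_of_le (Submodule.map_subtype_le W X)).resolve_right (hm _
      ⟨fun g hg v => (sup_le (i K le_sup_left i1) (i A le_sup_right i2) hg v).1,
        fun e' => e fun v hv k hk => Subtype.ext (e' ⟨v, hv, rfl⟩ _ hk)⟩)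
    refine top_le_iff.1 fun v _ => ?_
    obtain ⟨w, hw, e⟩ := this.ge v.2
    exact (Subtype.ext e : w = v) ▸ hw
  have := (eq_or_ne p 2).elim (fun e => h.two e hB') fun e => h.odd e hB'
  exact fun a ha => mem_N_of_finite fun k hk =>
    (mem_normalizer_iff.1 (this (x := ⟨a, mem_sup_right ha⟩) ha) ⟨k, mem_sup_left hk⟩).1 hk

end PGV
end H17
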