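import Cfsg.Agent.H17.TW
import Cfsg.Agent.H4.PSol
import Cfsg.Agent.H18.Cyc

/-! `p`-solvable groups whose maximal subgroups are `p`-nilpotent or of prime index satisfy `G = O_{p',p,p',p}(G)`
(`pnm`); `relIndex_oUp`. -/

set_option autoImplicit false
set_option linter.unusedSectionVars false

namespace H17

open Subgroup Cfsg

universe u
variable {p : ℕ} [hp : Fact p.Prime]

theorem relIndex_oUp {G : Type*} [Group G] [Finite G] (H : Subgroup G) : ∃ k, (oUp p H).relIndex H = p ^ k := by
  obtain ⟨S, hS⟩ := exists_isSyl p H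
  obtain ⟨k, hk⟩ := hS.pgroup.exists_card_eq
  have h := relIndex_sup_dvd_card' (hS.le.trans (le_normalizer_oUp p H))
  rw [hS.sup_oUp, hk] at h
  exact ((Nat.dvd_prime_pow hp.out).1 h).imp fun _ h => h.2

theorem normal_of_top {G : Type*} [Group G] {K : Subgroup G} (h : ⊤ ≤ normalizer (K : Set G)) : K.Normal :=
  normalizer_eq_top_iff.1 (top_le_iff.1 h)

/-- the hypothesis on maximal subgroups -/
def MXp (p : ℕ) (G : Type*) [Group G] : Prop := ∀ M : Subgroup G, IsCoatom M →
  (∃ K : Subgroup M, K.Normal ∧ ¬ p ∣ Nat.card K ∧ ∃ k : ℕ, K.index = p ^ k) ∨ M.index.Prime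

theorem MXp.quo {G G' : Type*} [Group G] [Finite G] [Group G'] (h : MXp p G) {f : G →* G'}
    (hf : Function.Surjective f) : MXp p G' := fun M hM => by
  rcases h _ (isCoatom_comap_of_surjective hf hM) with ⟨K, h1, h2, k, h3⟩ | h1
  · have hs := f.subgroupComap_surjective_of_surjective M hf
    refine .inl ⟨K.map (f.subgroupComap M), h1.map _ hs, not_dvd_card_map _ h2, ?_⟩
    have := index_map_dvd K hs
    rw [h3] at this
    exact ((Nat.dvd_prime_pow hp.out).1 this).imp fun _ h => h.2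
  · exact .inr (index_comap_of_surjective M hf ▸ h1)

theorem pnm (n : ℕ) : ∀ (G : Type u) [Group G] [Finite G], Nat.card G = n → H4.PSol p (⊤ : Subgroup G) → MXp p G →
    ¬ p ∣ Nat.card (oUp p (oUq p (oUp p (⊤ : Subgroup G)))) := by
  induction n using Nat.strong_induction_on with
  | _ n ih =>
  intro G _ _ hn hs hx
  set T := oUp p (oUq p (oUp p (⊤ : Subgroup G))) with hT
  have nR : (⊤ : Subgroup G) ≤ normalizer ((oUq p (oUp p (⊤ : Subgroup G)) : Subgroup G) : Set G) :=
    (le_normalizer_oUp p ⊤).trans (normalizer_le_oUq p _)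
  have nT : T.Normal := normal_of_top (nR.trans (normalizer_le_oUp p _))
  have key : ∀ (N : Subgroup G) [N.Normal], N ≠ ⊥ → ¬ p ∣ N.relIndex T := fun N _ h0 => by
    have h1 := ih _ (hn ▸ H1.card_quotient_lt h0) (G ⧸ N) rfl (hs.quotient N) (hx.quo (QuotientGroup.mk'_surjective N))
    have h2 : T.map (QuotientGroup.mk' N) ≤ _ := (map_oUp_le _ _).trans (oUp_mono p ((map_oUq_le _ _).trans
      (oUq_mono p ((map_oUp_le _ _).trans (oUp_mono p le_top)))))
    have h3 := not_dvd_card_of_le h2 h1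
    rwa [← relIndex_ker, QuotientGroup.ker_mk'] at h3
  by_cases h0 : oQ p (⊤ : Subgroup G) = ⊥
  swap
  · have := normal_of_top (le_normalizer_oQ p (⊤ : Subgroup G))
    rw [← card_inf_mul_relIndex (oQ p ⊤) T]
    exact fun h => (hp.out.dvd_mul.1 h).elim (not_dvd_card_of_le inf_le_left (oQ_not_dvd p ⊤)) (key _ h0)
  by_cases h1 : oP p (⊤ : Subgroup G) = ⊥
  · have h2 : CharP p (⊤ : Subgroup G) := hs.charPOf h0
    rw [charP_iff_gfit, h1, gfit_eq_bot_iff] at h2
    exact not_dvd_card_of_le (le_top.trans h2.le) not_dvd_card_bot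
  obtain ⟨N, hN, mN⟩ := H18.exists_minNorm h1 (le_normalizer_oP p ⊤)
  have := normal_of_top mN.norm
  have pN : IsPGroup p N := (oP_pgroup p ⊤).to_le hN
  have aN : H18.Abel N := mN.abel (solvable_of_pgroup pN)
  obtain ⟨e, he⟩ := pN.exists_card_eq
  have i1 : ¬ p ∣ N.relIndex (N ⊔ T) := by rw [relIndex_sup_left]; exact key N mN.ne_bot
  obtain ⟨L, l1, -, l3, l4⟩ := H1.exists_complement_le (N := N) (L := N ⊔ T) le_normalizer_of_normal (by
    rw [inf_eq_left.2 le_sup_left, he]; exact ((hp.out.coprime_iff_not_dvd).2 i1).pow_left _)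
  rw [inf_eq_left.2 le_sup_left] at l3
  rw [← l4] at i1
  have fr : N ⊔ normalizer (L : Set G) = ⊤ := eq_top_iff.2 fun g _ => by
    have h2 : cj g L ≤ N ⊔ L := by
      rw [l3]; simpa [cj_eq_of_normal] using cj_mono g l1
    obtain ⟨m, hm, e2⟩ := H1.exists_conj_le_of_le_sup N (cj g L) L le_normalizer_of_normal (by
      rw [card_cj, he]; exact ((hp.out.coprime_iff_not_dvd).2 i1).pow_left _) (.inl (solvable_of_pgroup pN)) h2
    change cj m (cj g L) ≤ L at e2
    rw [← cj_mul] at e2
    simpa using mul_mem (mem_sup_left (inv_mem hm) : m⁻¹ ∈ N ⊔ normalizer (L : Set G))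
      (mem_sup_right (mem_normalizer_iff_cj.2 (eq_of_le_of_card_ge e2 (card_cj _ _).ge)))
  have fin : N ≤ normalizer (L : Set G) → ¬ p ∣ Nat.card T := fun h => by
    have h2 : T ≤ oUp p T := oUp_le_iff.2 fun g hg hg' => subset_closure ⟨subset_closure ⟨hg, hg'⟩, hg'⟩
    exact not_dvd_card_of_le (h2.trans (oUp_le_of_le_sup pN (le_sup_right.trans (l3.ge.trans (sup_comm _ _).le)) h)) i1
  rcases eq_top_or_exists_le_coatom (normalizer (L : Set G)) with h2 | ⟨M, hM, h2⟩
  · exact fin (h2 ▸ le_top)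
  have h3 : N ⊔ M = ⊤ := top_le_iff.1 (fr ▸ sup_le_sup_left h2 N)
  have h4 : N ⊓ M = ⊥ := by
    refine (mN.eq_bot_or inf_le_left (h3 ▸ sup_le (aN.norm inf_le_left)
      (le_normalizer_inf le_normalizer_of_normal le_normalizer))).resolve_right fun h => hM.1 ?_
    rw [← h3, sup_eq_right.2 (inf_eq_left.1 h)]
  rcases hx M hM with ⟨K, k1, k2, k, k3⟩ | h5
  · obtain ⟨S, hS⟩ := exists_isSyl p M
    set K' := K.map M.subtype
    have k4 : M ≤ normalizer (K' : Set G) := by
      have := le_normalizer_map (H := K) M.subtype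
      rwa [normalizer_eq_top, ← MonoidHom.range_eq_map, range_subtype] at this
    have k5 : ¬ p ∣ Nat.card K' := not_dvd_card_map _ k2
    have k6 : oUp p M ≤ K' := oUp_le_iff.2 fun g hg hg' => (Subn.of_normal (map_subtype_le K) k4).mem_of_coprime hg (by
      rw [relIndex, subgroupOf, comap_map_eq_self_of_injective M.subtype_injective, k3]
      exact ((hp.out.coprime_iff_not_dvd).2 hg').pow_left _)
    have k7 : oUp p (⊤ : Subgroup G) ≤ N ⊔ K' := oUp_le_of_le_sup hS.pgroup
      (by rw [← h3, ← hS.sup_oUp, sup_assoc]; exact sup_le_sup_left (sup_le_sup_right k6 _) _)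
      (le_normalizer_sup le_normalizer_of_normal (hS.le.trans k4))
    have k8 : oUq p (N ⊔ K') ≤ N := (Subn.of_normal le_sup_left le_normalizer_of_normal).oUq_le
      fun h => k5 (h.trans (relIndex_sup_dvd_card' le_normalizer_of_normal))
    have k9 : T ≤ ⊥ := (oUp_mono p ((oUq_mono p k7).trans k8)).trans
      (oUp_le_of_le_sup pN le_sup_right le_normalizer_of_normal)
    exact not_dvd_card_of_le k9 not_dvd_card_bot
  · have c1 := card_sup_mul_card_inf (H := M) (N := N) le_normalizer_of_normal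
    rw [sup_comm, inf_comm, h3, h4, card_bot, card_top, mul_one, ← M.card_mul_index] at c1
    have c2 := Nat.eq_of_mul_eq_mul_left Nat.card_pos c1
    have c3 : Nat.card N = p := by
      rw [c2, he] at h5; rw [he, h5.eq_one_of_pow, pow_one]
    have c4 : oUq p (oUp p (⊤ : Subgroup G)) ≤ centralizer (N : Set G) := oUq_le_iff.2 fun g _ k hk =>
      zpowers_le.1 ((H18.piGrp_of_isPGroup hp.out (isPGroup_zpowers_of_pow hk)).cent_prime hp.out c3
        le_normalizer_of_normal)
    exact fin (le_normalizer_of_le_centralizer (le_centralizer_iff.1 (l1.trans (sup_le aN ((oUp_le p _).trans c4)))))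

end H17
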