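import Mathlib

/-! Limits of subspaces of an algebra under a quadratic one-parameter group (`H17.QO.lead`, `finrank_lead`,
`lead_mul`), and the three-subspace product lemma `one_add_mem`. -/

set_option autoImplicit false

namespace H17.QO
open Polynomial Module

variable {K R : Type*} [Field K] [Ring R] [Algebra K R] {ξ : R} {L N : Submodule K R}

/-- conjugation by `1 + X ξ` -/
noncomputable def cc (K : Type*) [Field K] [Algebra K R] (ξ : R) : R[X] →ₗ[K] R[X] :=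
  LinearMap.mulLeft K (1 - X * C ξ) ∘ₗ LinearMap.mulRight K (1 + X * C ξ)

theorem cc_apply (f : R[X]) : cc K ξ f = (1 - X * C ξ) * (f * (1 + X * C ξ)) := rfl

theorem XC_sq (h : ξ * ξ = 0) : (X * C ξ : R[X]) * (X * C ξ) = 0 := by
  rw [mul_assoc, ← mul_assoc (C ξ), ← X_mul, mul_assoc, ← C_mul, h, C_0, mul_zero, mul_zero]

theorem cc_mul (h : ξ * ξ = 0) (f g : R[X]) : cc K ξ f * cc K ξ g = cc K ξ (f * g) := by
  have : (1 + X * C ξ : R[X]) * (1 - X * C ξ) = 1 := by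
    rw [add_mul, mul_sub, mul_sub, XC_sq h]; simp
  simp only [cc_apply, mul_assoc]
  rw [← mul_assoc (1 + X * C ξ), this, one_mul]

theorem cc_inj (h : ξ * ξ = 0) : Function.Injective (cc K ξ) := by
  have a : (1 + X * C ξ : R[X]) * (1 - X * C ξ) = 1 := by
    rw [add_mul, mul_sub, mul_sub, XC_sq h]; simp
  refine (injective_iff_map_eq_zero _).2 fun f e => ?_
  have : (1 + X * C ξ) * cc K ξ f * (1 - X * C ξ) = f := by
    rw [cc_apply, ← mul_assoc, a, one_mul, mul_assoc, a, mul_one]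
  rw [← this, e, mul_zero, zero_mul]

theorem cc_eq (f : R[X]) : cc K ξ f = f + X * (f * C ξ - C ξ * f) - X * (X * (C ξ * f * C ξ)) := by
  have e : ∀ g : R[X], g * X = X * g := fun g => (X_mul (p := g)).symm
  have e1 : f * (X * C ξ) = X * (f * C ξ) := by rw [← mul_assoc, e, mul_assoc]
  have e2 : C ξ * (X * (f * C ξ)) = X * (C ξ * f * C ξ) := by rw [← mul_assoc, e, mul_assoc, mul_assoc]
  rw [cc_apply, mul_add, mul_one, e1, sub_mul, one_mul, mul_assoc, mul_add, e2, mul_add, mul_sub]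
  abel

theorem cc_X (f : R[X]) : cc K ξ (X * f) = X * cc K ξ f := by
  rw [cc_apply, cc_apply, mul_assoc, ← mul_assoc (1 - X * C ξ), ← X_mul, mul_assoc]

theorem cc_X_pow (n : ℕ) (f : R[X]) : cc K ξ (X ^ n * f) = X ^ n * cc K ξ f := by
  induction n with
  | zero => simp
  | succ n ih => rw [pow_succ', mul_assoc, cc_X, ih, mul_assoc]

/-- polynomials with coefficients in `L` -/
def PL (L : Submodule K R) : Submodule K R[X] where
  carrier := {f | ∀ n, f.coeff n ∈ L}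
  add_mem' a b n := by rw [coeff_add]; exact add_mem (a n) (b n)
  zero_mem' n := by simp
  smul_mem' c f a n := by rw [coeff_smul]; exact L.smul_mem c (a n)

theorem PL_X {f : R[X]} (h : f ∈ PL L) : X * f ∈ PL L := fun n => by
  cases n with
  | zero => simp
  | succ n => rw [coeff_X_mul]; exact h n

theorem PL_X_pow {f : R[X]} (h : f ∈ PL L) (n : ℕ) : X ^ n * f ∈ PL L := by
  induction n with
  | zero => simpa
  | succ n ih => rw [pow_succ', mul_assoc]; exact PL_X ih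

theorem PL_C {a : R} (h : a ∈ L) : C a ∈ PL L := fun n => by
  rw [coeff_C]; split_ifs; exacts [h, zero_mem _]

/-- leading coefficients of the conjugates -/
def lead (ξ : R) (L : Submodule K R) : Submodule K R where
  carrier := {a | ∃ d, ∃ f ∈ PL L, (cc K ξ f).natDegree ≤ d ∧ (cc K ξ f).coeff d = a}
  add_mem' := by
    rintro _ _ ⟨d, f, hf, h1, rfl⟩ ⟨e, g, hg, h2, rfl⟩
    refine ⟨d + e, X ^ e * f + X ^ d * g, add_mem (PL_X_pow hf e) (PL_X_pow hg d), ?_, ?_⟩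
    · rw [map_add, cc_X_pow, cc_X_pow]
      refine natDegree_add_le_of_degree_le (natDegree_mul_le.trans ?_) (natDegree_mul_le.trans ?_)
      · have := natDegree_X_pow_le (R := R) e; omega
      · have := natDegree_X_pow_le (R := R) d; omega
    · rw [map_add, cc_X_pow, cc_X_pow, coeff_add, coeff_X_pow_mul, add_comm d e, coeff_X_pow_mul]
  zero_mem' := ⟨0, 0, zero_mem _, by simp, by simp⟩
  smul_mem' := by
    rintro c _ ⟨d, f, hf, h1, rfl⟩
    exact ⟨d, c • f, Submodule.smul_mem _ c hf, by rw [map_smul]; exact (natDegree_smul_le _ _).trans h1,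
      by rw [map_smul, coeff_smul]⟩

theorem lead_mono (h : L ≤ N) : lead ξ L ≤ lead ξ N := by
  rintro _ ⟨d, f, hf, h1, rfl⟩
  exact ⟨d, f, fun n => h (hf n), h1, rfl⟩

theorem lead_le (h : ∀ a ∈ L, a ∈ N ∧ a * ξ - ξ * a ∈ N ∧ ξ * a * ξ ∈ N) : lead ξ L ≤ N := by
  rintro _ ⟨d, f, hf, -, rfl⟩
  have : cc K ξ f ∈ PL N := by
    rw [cc_eq]
    refine sub_mem (add_mem (fun n => (h _ (hf n)).1) (PL_X fun n => ?_)) (PL_X (PL_X fun n => ?_))
    · rw [coeff_sub, coeff_mul_C, coeff_C_mul]; exact (h _ (hf n)).2.1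
    · rw [coeff_mul_C, coeff_C_mul]; exact (h _ (hf n)).2.2
  exact this d

theorem lead_mul (h : ξ * ξ = 0) (z : ∀ a ∈ L, ∀ b ∈ N, a * b = 0) : ∀ a ∈ lead ξ L, ∀ b ∈ lead ξ N, a * b = 0 := by
  rintro _ ⟨d, f, hf, h1, rfl⟩ _ ⟨e, g, hg, h2, rfl⟩
  have : f * g = 0 := by
    ext n; rw [coeff_mul]; exact Finset.sum_eq_zero fun x _ => z _ (hf _) _ (hg _)
  rw [← coeff_mul_add_eq_of_natDegree_le h1 h2, cc_mul h, this, map_zero, coeff_zero]

theorem finrank_lead [FiniteDimensional K R] (h : ξ * ξ = 0) : finrank K L ≤ finrank K (lead ξ L) := by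
  let M : ℕ → Submodule K R[X] := fun d => (PL L).map (cc K ξ) ⊓ (degreeLT R d).restrictScalars K
  have fin : ∀ d, FiniteDimensional K (M d) := fun d => by
    have : FiniteDimensional K (degreeLT R d) :=
      Module.Finite.equiv ((degreeLTEquiv R d).restrictScalars K).symm
    exact @Submodule.finiteDimensional_of_le _ _ _ _ _ _ ((degreeLT R d).restrictScalars K) this inf_le_right
  have up : ∀ d, finrank K (M d) ≤ d * finrank K (lead ξ L) := fun d => by
    induction d with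
    | zero =>
      have : M 0 = ⊥ := eq_bot_iff.2 fun f hf => by simpa using mem_degreeLT.1 hf.2
      simp [this]
    | succ d ih =>
      have := fin (d + 1)
      have := fin d
      let φ : M (d + 1) →ₗ[K] lead ξ L := LinearMap.codRestrict _
        (((lcoeff R d).restrictScalars K) ∘ₗ (M (d + 1)).subtype) fun ⟨_, ⟨f, hf, e⟩, h2⟩ =>
          ⟨d, f, hf, by
            rw [e]; exact natDegree_le_iff_coeff_eq_zero.2 ((degree_lt_iff_coeff_zero _ _).1 (mem_degreeLT.1 h2)),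
            congrArg (coeff · d) e⟩
      have k : (LinearMap.ker φ).map (M (d + 1)).subtype ≤ M d := by
        rintro _ ⟨⟨f, h1, h2⟩, e, rfl⟩
        refine ⟨h1, mem_degreeLT.2 ((degree_lt_iff_coeff_zero _ _).2 fun m hm => ?_)⟩
        rcases hm.eq_or_lt with rfl | hm
        · exact congrArg Subtype.val e
        · exact (degree_lt_iff_coeff_zero _ _).1 (mem_degreeLT.1 h2) m hm
      have k1 := Submodule.finrank_mono k
      rw [Submodule.finrank_map_subtype_eq] at k1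
      have k2 := φ.finrank_range_add_finrank_ker
      have k3 := Submodule.finrank_le (LinearMap.range φ)
      rw [add_mul]; omega
  have lo : ∀ n, n * finrank K L ≤ finrank K (M (n + 2)) := fun n => by
    have := fin (n + 2)
    let ψ : (Fin n → L) →ₗ[K] R[X] := ∑ i : Fin n, ((monomial (i : ℕ)).restrictScalars K) ∘ₗ L.subtype ∘ₗ LinearMap.proj i
    have c : ∀ g m, (ψ g).coeff m = if h : m < n then (g ⟨m, h⟩ : R) else 0 := fun g m => by
      simp only [ψ, LinearMap.sum_apply, finsetSum_coeff, LinearMap.comp_apply, LinearMap.restrictScalars_apply,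
        coeff_monomial, LinearMap.proj_apply, Submodule.subtype_apply]
      split_ifs with h
      · rw [Finset.sum_eq_single ⟨m, h⟩ (fun b _ e => if_neg fun a => e (Fin.ext a)) (by simp), if_pos rfl]
      · exact Finset.sum_eq_zero fun i _ => if_neg fun a : (i : ℕ) = m => h (a ▸ i.2)
    have m : ∀ g, (cc K ξ ∘ₗ ψ) g ∈ M (n + 2) := fun g => by
      refine ⟨⟨ψ g, fun m => ?_, rfl⟩, mem_degreeLT.2 ((degree_lt_iff_coeff_zero _ _).2 fun m hm => ?_)⟩
      · rw [c]; split_ifs; exacts [Subtype.prop _, zero_mem _]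
      · obtain ⟨m, rfl⟩ : ∃ k, m = k + 1 + 1 := ⟨m - 2, by omega⟩
        rw [LinearMap.comp_apply, cc_eq, coeff_sub, coeff_add, coeff_X_mul, coeff_X_mul, coeff_X_mul, coeff_sub,
          coeff_mul_C, coeff_C_mul, coeff_mul_C, coeff_C_mul, c, c, c, dif_neg (by omega), dif_neg (by omega),
          dif_neg (by omega)]
        simp
    have inj : Function.Injective (LinearMap.codRestrict _ _ m) := (injective_iff_map_eq_zero _).2 fun g e => by
      have : ψ g = 0 := cc_inj (K := K) h (by rw [map_zero]; exact congrArg Subtype.val e)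
      ext i
      have k := c g i
      rw [this, dif_pos i.2] at k
      exact k.symm
    have := LinearMap.finrank_le_finrank_of_injective inj
    rwa [finrank_pi_fintype, Finset.sum_const, Finset.card_univ, Fintype.card_fin, smul_eq_mul] at this
  by_contra k
  have := (lo (2 * finrank K (lead ξ L) + 1)).trans (up _)
  nlinarith

theorem cc_C (a : R) : cc K ξ (C a) = C a + X * C (a * ξ - ξ * a) - X * (X * C (ξ * a * ξ)) := by
  rw [cc_eq]; simp

/-- the stabilisation step -/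
theorem step (h : ξ * ξ = 0) {a : R} (ha : a ∈ L) (P : R → Prop) (h1 : P (ξ * a * ξ)) (h2 : P (a * ξ - ξ * a))
    (hP : ∀ b ∈ lead ξ L, P b → b ∈ L) : a ∈ lead ξ L ∧ ξ * a * ξ ∈ L ∧ a * ξ - ξ * a ∈ L := by
  have z1 : ∀ b, ξ * (ξ * b) = 0 := fun b => by rw [← mul_assoc, h, zero_mul]
  have e1 : cc K ξ (C (ξ * a * ξ)) = C (ξ * a * ξ) := by
    rw [cc_C]; simp [mul_assoc, h, z1]
  have e2 : cc K ξ (C (a * ξ - ξ * a)) = C (a * ξ - ξ * a) - X * C (ξ * a * ξ + ξ * a * ξ) := by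
    rw [cc_C]; simp only [mul_assoc, h, z1, mul_sub, sub_mul, mul_zero, C_0, sub_zero, zero_sub, C_sub, C_neg, C_add,
      mul_add, mul_neg]
    abel
  have k1 : ξ * a * ξ ∈ L := hP _ (by
    rw [← neg_mem_iff]
    refine ⟨2, C a, PL_C ha, ?_, ?_⟩
    · rw [cc_C]; compute_degree
    · rw [cc_C]; simp only [coeff_sub, coeff_add, coeff_X_mul, coeff_C]; simp) h1
  have e3 : cc K ξ (C a + X * (X * C (ξ * a * ξ))) = C a + X * C (a * ξ - ξ * a) := by
    rw [map_add, cc_X, cc_X, e1, cc_C]; abel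
  have k2 : a * ξ - ξ * a ∈ L := hP _ ⟨1, _, add_mem (PL_C ha) (PL_X (PL_X (PL_C k1))), by rw [e3]; compute_degree,
    by rw [e3, coeff_add, coeff_X_mul, coeff_C_zero, coeff_C]; simp⟩ h2
  refine ⟨⟨0, C a + X * (X * C (ξ * a * ξ)) - X * C (a * ξ - ξ * a) - X * (X * C (ξ * a * ξ + ξ * a * ξ)),
    sub_mem (sub_mem (add_mem (PL_C ha) (PL_X (PL_X (PL_C k1)))) (PL_X (PL_C k2))) (PL_X (PL_X (PL_C (add_mem k1 k1)))),
    ?_⟩, k1, k2⟩
  have : cc K ξ (C a + X * (X * C (ξ * a * ξ)) - X * C (a * ξ - ξ * a) - X * (X * C (ξ * a * ξ + ξ * a * ξ))) = C a := by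
    rw [map_sub, map_sub, e3, cc_X, cc_X, cc_X, e2, C_add, map_add, e1, mul_sub]; abel
  rw [this]; simp

theorem one_add_mem (h2 : (2 : K) ≠ 0) {H : Submonoid R} {L : Fin 3 → Submodule K R}
    (z : ∀ i, ∀ a ∈ L i, ∀ b ∈ L i, a * b = 0) (cm : ∀ i j, ∀ a ∈ L i, ∀ b ∈ L j, a * b - b * a ∈ L i)
    (hH : ∀ i, ∀ a ∈ L i, 1 + a ∈ H) {l : R} (hl : l ∈ L 0 ⊔ L 1 ⊔ L 2) (l2 : l * l = 0) : 1 + l ∈ H := by
  obtain ⟨_, h, c, hc, rfl⟩ := Submodule.mem_sup.1 hl
  obtain ⟨a, ha, b, hb, rfl⟩ := Submodule.mem_sup.1 h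
  have z3 : ∀ i j, ∀ x ∈ L i, ∀ y ∈ L j, ∀ w ∈ L i, x * (y * w) = 0 := fun i j x hx y hy w hw => by
    have := z i x hx _ (cm i j w hw y hy)
    rwa [mul_sub, ← mul_assoc, z i x hx w hw, zero_mul, zero_sub, neg_eq_zero] at this
  have z2 : ∀ i, ∀ x ∈ L i, ∀ y ∈ L i, ∀ w, x * (y * w) = 0 := fun i x hx y hy w => by
    rw [← mul_assoc, z i x hx y hy, zero_mul]
  have cm' : ∀ i j, ∀ a ∈ L i, ∀ b ∈ L j, (2 : K)⁻¹ • (a * b - b * a) ∈ L i ⊓ L j := fun i j a ha b hb =>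
    Submodule.smul_mem _ _ ⟨cm i j a ha b hb, by simpa using neg_mem (cm j i b hb a ha)⟩
  obtain ⟨m1, e1⟩ : ∃ m, m = (2 : K)⁻¹ • (a * b - b * a) := ⟨_, rfl⟩
  obtain ⟨m2, e2⟩ : ∃ m, m = (2 : K)⁻¹ • (a * c - c * a) := ⟨_, rfl⟩
  obtain ⟨m3, e3⟩ : ∃ m, m = (2 : K)⁻¹ • (b * c - c * b) := ⟨_, rfl⟩
  obtain ⟨p1, q1⟩ := e1 ▸ cm' 0 1 a ha b hb
  obtain ⟨p2, q2⟩ := e2 ▸ cm' 0 2 a ha c hc
  obtain ⟨p3, q3⟩ := e3 ▸ cm' 1 2 b hb c hc
  have s : a * b + b * a + a * c + c * a + b * c + c * b = 0 := by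
    rw [← l2]; simp only [add_mul, mul_add, z 0 a ha a ha, z 1 b hb b hb, z 2 c hc c hc]; abel
  have em : m1 + m2 + m3 = a * b + a * c + b * c := by
    rw [e1, e2, e3, ← smul_add, ← smul_add, inv_smul_eq_iff₀ h2, two_smul, ← sub_eq_zero, ← neg_eq_zero, ← s]; abel
  have s1 := congrArg (· * c) s
  have s2 := congrArg (b * ·) s
  have s3 := congrArg (· * a) s
  have s4 := congrArg (c * ·) s
  simp only [add_mul, mul_add, mul_assoc, z 0 a ha a ha, z 2 c hc c hc, z2 1 b hb b hb,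
    z2 2 c hc c hc, z3 0 1 a ha b hb a ha, z3 0 2 a ha c hc a ha, z3 1 0 b hb a ha b hb, z3 1 2 b hb c hc b hb,
    z3 2 0 c hc a ha c hc, z3 2 1 c hc b hb c hc, mul_zero, zero_mul, add_zero, zero_add] at s1 s2 s3 s4
  have t1 : (1 + -m1) * (1 + -m2) * (1 + -m3) = 1 - (m1 + m2 + m3) := by
    simp only [add_mul, mul_add, mul_one, one_mul, neg_mul, mul_neg, z 0 m1 p1 m2 p2, z 1 m1 q1 m3 p3,
      z 2 m2 q2 m3 q3, zero_mul, neg_zero]
    abel
  have t2 : (a + b + c) * (m1 + m2 + m3) = a * (b * c) := by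
    rw [em]
    simp only [add_mul, mul_add, z2 0 a ha a ha, z2 1 b hb b hb, z3 1 0 b hb a ha b hb, z3 2 0 c hc a ha c hc,
      z3 2 1 c hc b hb c hc, add_zero, zero_add]
    rw [eq_neg_of_add_eq_zero_left s4, eq_neg_of_add_eq_zero_right s3, eq_neg_of_add_eq_zero_right s2]; abel
  have t3 : (m1 + m2 + m3) * (m1 + m2 + m3) = 0 := by
    simp only [add_mul, mul_add, z 0 m1 p1 m1 p1, z 0 m1 p1 m2 p2, z 1 m1 q1 m3 p3, z 0 m2 p2 m1 p1, z 0 m2 p2 m2 p2,
      z 2 m2 q2 m3 q3, z 1 m3 p3 m1 q1, z 2 m3 q3 m2 q2, z 1 m3 p3 m3 p3, add_zero]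
  have t4 : a * (b * c) * (m1 + m2 + m3) = 0 := by
    simp only [mul_add, mul_assoc, z3 1 2 b hb c hc m1 q1, z 2 c hc m2 q2, z 2 c hc m3 q3, mul_zero, add_zero]
  have t5 : (1 + a) * (1 + b) * (1 + c) = 1 + (a + b + c) + (m1 + m2 + m3) + a * (b * c) := by
    rw [em]; noncomm_ring
  have : 1 + (a + b + c) = (1 + a) * (1 + b) * (1 + c) * ((1 + -m1) * (1 + -m2) * (1 + -m3)) := by
    rw [t1, t5, mul_sub, mul_one, add_mul, add_mul, add_mul, t2, t3, t4, one_mul]; abel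
  rw [this]
  exact H.mul_mem (H.mul_mem (H.mul_mem (hH 0 a ha) (hH 1 b hb)) (hH 2 c hc))
    (H.mul_mem (H.mul_mem (hH 0 _ (neg_mem p1)) (hH 0 _ (neg_mem p2))) (hH 1 _ (neg_mem p3)))

end H17.QO
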