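import Cfsg.Agent.H17.QO1

/-! Quadratic subgroups of a unipotent linear group can be replaced by `2`-subnormal ones (`H17.QO.exists_two`). -/

set_option autoImplicit false

namespace H17.QO
open Module Subgroup

variable {K V G : Type*} [Field K] [AddCommGroup V] [Module K V] [Group G]

/-- common kernel -/
def fix (L : Submodule K (End K V)) : Submodule K V where
  carrier := {v | ∀ a ∈ L, a v = 0}
  add_mem' h k a ha := by rw [map_add, h a ha, k a ha, add_zero]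
  zero_mem' a _ := map_zero a
  smul_mem' c v h a ha := by rw [map_smul, h a ha, smul_zero]

/-- maps into `W` -/
def into (W : Submodule K V) : Submodule K (End K V) where
  carrier := {a | ∀ v, a v ∈ W}
  add_mem' h k v := add_mem (h v) (k v)
  zero_mem' _ := zero_mem _
  smul_mem' c _ h v := W.smul_mem c (h v)

theorem finrank_into [FiniteDimensional K V] (W : Submodule K V) : finrank K (into W) = finrank K V * finrank K W := by
  rw [← finrank_linearMap K K V W]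
  exact LinearEquiv.finrank_eq
    { toFun a := a.1.codRestrict W a.2, invFun b := ⟨W.subtype ∘ₗ b, fun v => (b v).2⟩,
      map_add' _ _ := rfl, map_smul' _ _ := rfl, left_inv _ := rfl, right_inv _ := rfl }

theorem finrank_fix [FiniteDimensional K V] {ξ : End K V} (h : ξ * ξ = 0) (L : Submodule K (End K V)) :
    finrank K (fix L) ≤ finrank K (fix (lead ξ L)) := by
  have k : lead ξ (into (fix L)) ≤ into (fix (lead ξ L)) := fun b hb v a ha =>
    LinearMap.congr_fun (lead_mul (N := into (fix L)) h (fun a ha b hb => LinearMap.ext fun v => hb v a ha) a ha b hb) v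
  have := (finrank_lead h).trans (Submodule.finrank_mono k)
  rw [finrank_into, finrank_into] at this
  rcases Nat.eq_zero_or_pos (finrank K V) with e | e
  · have := Submodule.finrank_le (fix L); omega
  · exact Nat.le_of_mul_le_mul_left this e

/-- maps shifting a flag -/
def sh (F : ℕ → Submodule K V) (i : ℕ) : Submodule K (End K V) where
  carrier := {a | ∀ k, ∀ v ∈ F k, a v ∈ F (k + i)}
  add_mem' h h' k v hv := add_mem (h k v hv) (h' k v hv)
  zero_mem' _ _ _ := zero_mem _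
  smul_mem' c _ h k v hv := Submodule.smul_mem _ c (h k v hv)

theorem sh_mul {F : ℕ → Submodule K V} {i j : ℕ} {a b : End K V} (ha : a ∈ sh F i) (hb : b ∈ sh F j) :
    a * b ∈ sh F (i + j) := fun k v hv => by
  rw [add_comm i, ← add_assoc]; exact ha _ _ (hb k v hv)

theorem sh_anti {F : ℕ → Submodule K V} (hF : Antitone F) (i : ℕ) : sh F (i + 1) ≤ sh F i := fun _ h k v hv =>
  hF (by omega) (h k v hv)

/-- quadratic subspaces of `ρ(G) - 1` -/
structure Qd (ρ : G →* End K V) (L : Submodule K (End K V)) : Prop where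
  z : ∀ a ∈ L, ∀ b ∈ L, a * b = 0
  ex : ∀ a ∈ L, ∃ g, ρ g = 1 + a

variable {ρ : G →* End K V} {L : Submodule K (End K V)}

theorem rho_inv {g : G} (h : (ρ g - 1) * (ρ g - 1) = 0) : ρ g⁻¹ = 1 - (ρ g - 1) := by
  have : ρ g * (1 - (ρ g - 1)) = 1 := by
    rw [← sub_eq_zero, ← neg_eq_zero, ← h]; noncomm_ring
  calc ρ g⁻¹ = ρ g⁻¹ * (ρ g * (1 - (ρ g - 1))) := by rw [this, mul_one]
    _ = _ := by rw [← mul_assoc, ← map_mul, inv_mul_cancel, map_one, one_mul]

/-- the corresponding subgroup -/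
def Qd.grp (h : Qd ρ L) : Subgroup G where
  carrier := {g | ρ g - 1 ∈ L}
  one_mem' := by simp
  mul_mem' {a b} ha hb := by
    have : ρ (a * b) - 1 = (ρ a - 1) * (ρ b - 1) + (ρ a - 1) + (ρ b - 1) := by rw [map_mul]; noncomm_ring
    change ρ (a * b) - 1 ∈ L
    rw [this, h.z _ ha _ hb, zero_add]; exact add_mem ha hb
  inv_mem' {a} ha := by
    change ρ a⁻¹ - 1 ∈ L
    rw [rho_inv (h.z _ ha _ ha), sub_sub_cancel_left]; exact neg_mem ha

theorem Qd.mem (h : Qd ρ L) {g : G} : g ∈ h.grp ↔ ρ g - 1 ∈ L := Iff.rfl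

theorem rho_cancel (u : G) (a : End K V) : ρ u⁻¹ * (ρ u * a * ρ u⁻¹) * ρ u = a := by
  simp only [mul_assoc]
  rw [← map_mul, inv_mul_cancel, map_one, mul_one, ← mul_assoc, ← map_mul, inv_mul_cancel, map_one, one_mul]

theorem rho_mul (u : G) (a b : End K V) : ρ u * a * ρ u⁻¹ * (ρ u * b * ρ u⁻¹) = ρ u * (a * b) * ρ u⁻¹ := by
  simp only [mul_assoc]
  rw [← mul_assoc (ρ u⁻¹), ← map_mul, inv_mul_cancel, map_one, one_mul]

theorem rho_cj (u g : G) : ρ (u * g * u⁻¹) - 1 = ρ u * (ρ g - 1) * ρ u⁻¹ := by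
  rw [mul_sub, sub_mul, mul_one, ← map_mul, ← map_mul, ← map_mul, mul_inv_cancel, map_one]

theorem Qd.comm (h2 : (2 : K) ≠ 0) (h : Qd ρ L) {y : G} (hy : y ∈ normalizer (h.grp : Set G))
    (q : (ρ y - 1) * (ρ y - 1) = 0) {a : End K V} (ha : a ∈ L) : a * (ρ y - 1) - (ρ y - 1) * a ∈ L := by
  obtain ⟨g, e⟩ := h.ex a ha
  have hg : g ∈ h.grp := by rw [h.mem, e]; simpa
  have k1 := h.mem.1 ((mem_normalizer_iff.1 hy g).1 hg)
  have k2 := h.mem.1 ((mem_normalizer_iff.1 (inv_mem hy) g).1 hg)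
  rw [rho_cj, e, add_sub_cancel_left] at k1 k2
  rw [inv_inv] at k2
  rw [rho_inv q] at k1 k2
  have := L.smul_mem (2 : K)⁻¹ (sub_mem k2 k1)
  convert this using 1
  rw [eq_inv_smul_iff₀ h2, two_smul]; noncomm_ring

/-- the replacement lies in the group -/
theorem Qd.lead (h2 : (2 : K) ≠ 0) (h : Qd ρ L) {x : G} (q : (ρ x - 1) * (ρ x - 1) = 0)
    (hn : ∀ u ∈ zpowers x, ∀ a ∈ h.grp, u * a * u⁻¹ ∈ normalizer (h.grp : Set G)) : Qd ρ (lead (ρ x - 1) L) := by
  refine ⟨lead_mul q h.z, fun l hl => ?_⟩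
  let u : Fin 3 → G := ![1, x, x⁻¹]
  have hu : ∀ i, u i ∈ zpowers x := fun i => by
    fin_cases i; exacts [one_mem _, mem_zpowers x, inv_mem (mem_zpowers x)]
  let M : Fin 3 → Submodule K (End K V) := fun i =>
    L.comap (LinearMap.mulRight K (ρ (u i)⁻¹) ∘ₗ LinearMap.mulLeft K (ρ (u i)))
  have m : ∀ i a, a ∈ M i ↔ ρ (u i) * a * ρ (u i)⁻¹ ∈ L := fun _ _ => Iff.rfl
  have ex : ∀ i, ∀ a ∈ M i, ∃ g ∈ h.grp, ρ ((u i)⁻¹ * g * u i) - 1 = a := fun i a ha => by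
    obtain ⟨g, e⟩ := h.ex _ ((m i a).1 ha)
    refine ⟨g, by rw [h.mem, e]; simpa using (m i a).1 ha, ?_⟩
    have := rho_cj (ρ := ρ) (u i)⁻¹ g
    rw [inv_inv] at this
    rw [this, e, add_sub_cancel_left, rho_cancel]
  refine one_add_mem (H := MonoidHom.mrange ρ) (L := M) h2 (fun i a ha b hb => ?_) (fun i j a ha b hb => ?_)
    (fun i a ha => ?_) (lead_le (fun a ha => ?_) hl) (lead_mul q h.z l hl l hl)
  · rw [← rho_cancel (ρ := ρ) (u i) (a * b), ← rho_mul, h.z _ ((m i a).1 ha) _ ((m i b).1 hb), mul_zero, zero_mul]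
  · obtain ⟨g, hg, rfl⟩ := ex j b hb
    have e : ρ (u i * (u j)⁻¹ * g * (u i * (u j)⁻¹)⁻¹) - 1 = ρ (u i) * (ρ ((u j)⁻¹ * g * u j) - 1) * ρ (u i)⁻¹ := by
      rw [← rho_cj]; congr 2; group
    have := h.comm h2 (hn _ (mul_mem (hu i) (inv_mem (hu j))) g hg)
      (by rw [rho_cj, rho_mul, h.z _ hg _ hg, mul_zero, zero_mul]) ((m i a).1 ha)
    rwa [e, rho_mul, rho_mul, ← sub_mul, ← mul_sub] at this
  · obtain ⟨g, -, e⟩ := ex i a ha
    exact ⟨_, by rw [← e]; abel⟩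
  · have a0 : a ∈ M 0 ⊔ M 1 ⊔ M 2 := Submodule.mem_sup_left (Submodule.mem_sup_left (by simpa [m, u] using ha))
    have a1 : ρ x⁻¹ * a * ρ x ∈ M 0 ⊔ M 1 ⊔ M 2 := Submodule.mem_sup_left (Submodule.mem_sup_right (by
      have := rho_cancel (ρ := ρ) x⁻¹ a
      rw [inv_inv] at this
      rw [m]; exact this.symm ▸ ha))
    have a2 : ρ x * a * ρ x⁻¹ ∈ M 0 ⊔ M 1 ⊔ M 2 := Submodule.mem_sup_right (by
      have := rho_cancel (ρ := ρ) x a
      rw [m]; change ρ x⁻¹ * _ * ρ x⁻¹⁻¹ ∈ L; rw [inv_inv, this]; exact ha)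
    rw [rho_inv q] at a1 a2
    refine ⟨a0, ?_, ?_⟩
    · convert Submodule.smul_mem _ (2 : K)⁻¹ (sub_mem a1 a2) using 1
      rw [eq_inv_smul_iff₀ h2, two_smul]; noncomm_ring
    · convert Submodule.smul_mem _ (2 : K)⁻¹ (sub_mem (add_mem a0 a0) (add_mem a1 a2)) using 1
      rw [eq_inv_smul_iff₀ h2, two_smul]; noncomm_ring

theorem exists_min [Finite G] [Group.IsNilpotent G] {A : Subgroup G} {g a : G} (ha : a ∈ A)
    (hg : g * a * g⁻¹ ∉ normalizer (A : Set G)) : ∃ g, ∃ a ∈ A, g * a * g⁻¹ ∉ normalizer (A : Set G) ∧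
      ∀ u ∈ zpowers (g * a * g⁻¹), ∀ b ∈ A, u * b * u⁻¹ ∈ normalizer (A : Set G) := by
  obtain ⟨x, ⟨g, a, ha, rfl, hg⟩, mn⟩ := (measure fun x : G => Nat.card (A ⊔ zpowers x : Subgroup G)).wf.has_min
    {x | ∃ g, ∃ a ∈ A, x = g * a * g⁻¹ ∧ x ∉ normalizer (A : Set G)} ⟨_, g, a, ha, rfl, hg⟩
  refine ⟨g, a, ha, hg, fun u hu b hb => by_contra fun k => mn _ ⟨u, b, hb, rfl, k⟩ ?_⟩
  set H := A ⊔ zpowers (g * a * g⁻¹)
  have ne : A.subgroupOf H ≠ ⊤ := fun e => hg (le_normalizer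
    (subgroupOf_eq_top.1 e (mem_sup_right (mem_zpowers _))))
  obtain ⟨N, hN, l⟩ := (eq_top_or_exists_le_coatom _).resolve_left ne
  have := NormalizerCondition.normal_of_coatom N Group.normalizerCondition_of_isNilpotent hN
  have l1 : A ⊔ zpowers (u * b * u⁻¹) ≤ N.map H.subtype := sup_le
    (fun c hc => ⟨⟨c, mem_sup_left hc⟩, l hc, rfl⟩) (zpowers_le.2 ⟨_, this.conj_mem ⟨b, mem_sup_left hb⟩ (l hb)
      ⟨u, mem_sup_right hu⟩, rfl⟩)
  refine (card_le_of_le l1).trans_lt ?_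
  rw [card_subtype]
  exact lt_of_le_of_ne (card_le_card_group N) fun e => hN.1 (eq_top_of_card_eq N e)

theorem exists_two [Finite G] [Finite V] [Group.IsNilpotent G] (h2 : (2 : K) ≠ 0) {F : ℕ → Submodule K V}
    (hF : Antitone F) (F0 : F 0 = ⊤) {n : ℕ} (Fn : F n = ⊥) (hρ : ∀ g, ρ g - 1 ∈ sh F 1)
    {L₀ : Submodule K (End K V)} (h0 : Qd ρ L₀) : ∃ (L : Submodule K (End K V)) (h : Qd ρ L),
      finrank K L₀ ≤ finrank K L ∧ finrank K (fix L₀) ≤ finrank K (fix L) ∧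
      ∀ g, ∀ a ∈ h.grp, g * a * g⁻¹ ∈ normalizer (h.grp : Set G) := by
  have : FiniteDimensional K V := Module.Finite.of_finite
  have : Finite (End K V) := Finite.of_injective _ DFunLike.coe_injective
  have : Finite (Submodule K (End K V)) := Finite.of_injective _ SetLike.coe_injective
  obtain ⟨L, ⟨h, h1, h3⟩, mx⟩ := Set.exists_max_image
    {L | Qd ρ L ∧ finrank K L₀ ≤ finrank K L ∧ finrank K (fix L₀) ≤ finrank K (fix L)}
    (fun L => ∑ i ∈ Finset.range (n + 1), finrank K (L ⊓ sh F i : Submodule K _)) (Set.toFinite _) ⟨L₀, h0, le_rfl, le_rfl⟩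
  refine ⟨L, h, h1, h3, fun g a ha => by_contra fun k => ?_⟩
  obtain ⟨g, a, ha, k, hn⟩ := exists_min ha k
  set x := g * a * g⁻¹
  have q : (ρ x - 1) * (ρ x - 1) = 0 := by rw [rho_cj, rho_mul, h.z _ ha _ ha, mul_zero, zero_mul]
  have hx := hρ x
  have d : ∀ i, ∀ b ∈ sh F i, b * (ρ x - 1) - (ρ x - 1) * b ∈ sh F (i + 1) ∧
      (ρ x - 1) * b * (ρ x - 1) ∈ sh F (i + 1) := fun i b hb =>
    ⟨sub_mem (sh_mul hb hx) (add_comm 1 i ▸ sh_mul hx hb), sh_anti hF _ (add_comm 1 i ▸ sh_mul (sh_mul hx hb) hx)⟩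
  have le : ∀ i, finrank K (L ⊓ sh F i : Submodule K _) ≤ finrank K (lead (ρ x - 1) L ⊓ sh F i : Submodule K _) :=
    fun i => (finrank_lead q).trans (Submodule.finrank_mono (le_inf (lead_mono inf_le_left) (lead_le fun b hb =>
      ⟨hb.2, sh_anti hF _ (d i b hb.2).1, sh_anti hF _ (d i b hb.2).2⟩)))
  have eq := (Finset.sum_eq_sum_iff_of_le fun i _ => le i).1 (le_antisymm (Finset.sum_le_sum fun i _ => le i)
    (mx _ ⟨h.lead h2 q hn, h1.trans (finrank_lead q), h3.trans (finrank_fix q L)⟩))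
  have key : ∀ j i, i + j = n → lead (ρ x - 1) L ⊓ sh F i ≤ L := fun j => by
    induction j with
    | zero =>
      rintro i rfl b hb
      have : b = 0 := LinearMap.ext fun v => by
        have := hb.2 0 v (F0 ▸ trivial)
        rwa [zero_add, show F i = ⊥ from Fn] at this
      exact this ▸ zero_mem _
    | succ j ih =>
      intro i e
      refine (Submodule.eq_of_le_of_finrank_eq (S₁ := L ⊓ sh F i) (S₂ := lead (ρ x - 1) L ⊓ sh F i) (fun b hb => ⟨(step q hb.1 (· ∈ sh F (i + 1)) (d i b hb.2).2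
        (d i b hb.2).1 fun c h1 h2 => ih _ (by omega) ⟨h1, h2⟩).1, hb.2⟩) (eq i (by simp; omega))).ge.trans inf_le_left
  refine k (inv_mem_iff.1 (mem_normalizer_fintype fun b hb => ?_))
  have hb0 := sh_anti hF 0 (hρ b)
  obtain ⟨-, s1, s2⟩ := step q (h.mem.1 hb) (· ∈ sh F 0) (sh_anti hF _ (d 0 _ hb0).2)
    (sh_anti hF _ (d 0 _ hb0).1) fun c h1 h2 => key n 0 (by omega) ⟨h1, h2⟩
  change ρ _ - 1 ∈ L
  rw [rho_cj, inv_inv, rho_inv q]
  convert sub_mem (add_mem (h.mem.1 hb) s2) s1 using 1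
  noncomm_ring

end H17.QO
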