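import Cfsg.Agent.S0732
import Cfsg.Agent.S0811
import Cfsg.Agent.S0812
import Cfsg.Agent.H29.SylN
import Cfsg.Agent.H10.PSL2Sub
import Cfsg.Agent.H17.Coprime

/-! Sylow numbers: monotonicity (`syl_le`), kernels normalizing Sylow subgroups (`ker_le`, `ker_bot`), groups with
`18` Sylow `17`-subgroups (`top17`), Sylow numbers of `PSL₂(17)` (`psl17`). -/

set_option autoImplicit false

namespace H17.SN

open Subgroup MulAction H29
open scoped MatrixGroups commutatorElement

variable {G H : Type*} [Group G] [Group H] [Finite G] [Finite H] {p r : ℕ}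

omit [Finite G] in
theorem syl_le (r : ℕ) [Fact r.Prime] (f : G →* H) (hf : Function.Injective f) :
    Nat.card (Sylow r G) ≤ Nat.card (Sylow r H) := by
  choose g hg using fun P : Sylow r G => P.exists_comap_eq_of_injective hf
  exact Nat.card_le_card_of_injective g fun P Q e => Sylow.ext (by rw [← hg P, e, hg])

theorem ker_le [Fact r.Prime] {f : G →* H} (hf : Function.Surjective f) (h : Nat.card (Sylow r G) ≤ Nat.card (Sylow r H))
    (P : Sylow r G) : f.ker ≤ normalizer (P : Set G) := by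
  have l : normalizer (P : Set G) ≤ (normalizer (P.mapSurjective hf : Set H)).comap f :=
    map_le_iff_le_comap.1 (le_normalizer_map f)
  rw [P.card_eq_index_normalizer, (P.mapSurjective hf).card_eq_index_normalizer, ← index_comap_of_surjective _ hf,
    ← relIndex_mul_index l] at h
  exact (ker_le_comap f _).trans (relIndex_eq_one.1 (le_antisymm (Nat.le_of_mul_le_mul_right (h.trans (one_mul _).ge)
    (Nat.pos_of_ne_zero FiniteIndex.index_ne_zero)) (Nat.pos_of_ne_zero FiniteIndex.index_ne_zero)))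

theorem ker_bot (hZ : center G = ⊥) {K : Subgroup G} [hK : K.Normal]
    (h : ∀ r, r.Prime → ∀ P : Sylow r G, K ≤ normalizer (P : Set G)) : K = ⊥ := by
  by_contra c
  obtain ⟨s, hs, d⟩ := Nat.exists_prime_and_dvd (mt card_eq_one.1 c)
  have := Fact.mk hs
  obtain ⟨x, hx⟩ := exists_prime_orderOf_dvd_card' s d
  obtain ⟨S, hS⟩ := (show IsPGroup s (zpowers (x : G)) from IsPGroup.of_card (n := 1) (by
    rw [Nat.card_zpowers, orderOf_coe, hx, pow_one])).exists_le_sylow
  have nA : ((S : Subgroup G) ⊓ K).Normal := ⟨fun a ha g => ⟨syl_mem_of_smul (P := g • S)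
    (mem_syl_smul.2 (by rw [show g⁻¹ * (g * a * g⁻¹) * g = a by group]; exact ha.1)) (Sylow.smul_eq_iff_mem_normalizer.2
      (h s hs S (hK.conj_mem a ha.2 g))), hK.conj_mem a ha.2 g⟩⟩
  obtain ⟨M, m1, m2, -, m3⟩ := H17.exists_not_le_commutator_le (C := ⊥) (S.isPGroup'.to_inf_left (K := K)) S.isPGroup'
    le_normalizer_of_normal fun k => hs.one_lt.ne (by
      rw [← hx, ← orderOf_coe, mem_bot.1 (k ⟨hS (mem_zpowers _), x.2⟩), orderOf_one])
  obtain ⟨z, hz, z1⟩ := SetLike.not_le_iff_exists.1 m2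
  refine z1 (hZ ▸ mem_center_iff.2 fun g => mem_centralizer_singleton_iff.1 (?_ : g ∈ centralizer {z}))
  suffices centralizer {z} = ⊤ from this ▸ mem_top g
  by_contra e
  obtain ⟨r, hr, d⟩ := Nat.exists_prime_and_dvd (mt index_eq_one.1 e)
  have := Fact.mk hr
  have k : ∀ R : Sylow r G, (∀ y ∈ (R : Subgroup G), ⁅z, y⁆ = 1) → False := fun R k => R.not_dvd_index (d.trans
    (index_dvd_of_le fun y hy => mem_centralizer_singleton_iff.2 (commutatorElement_eq_one_iff_mul_comm.1 (k y hy)).symm))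
  by_cases e : r = s
  · subst e
    exact k S fun y hy => m3 (commutator_mem_commutator hz hy)
  · obtain ⟨R⟩ : Nonempty (Sylow r G) := inferInstance
    refine k R fun y hy => disjoint_def.1 (IsPGroup.disjoint_of_ne r s e _ _ R.isPGroup' S.isPGroup')
      (mul_mem ((mem_normalizer_iff.1 (h r hr R (m1 hz).2) y).1 hy) (inv_mem hy)) ?_
    rw [show ⁅z, y⁆ = z * (y * z⁻¹ * y⁻¹) by rw [commutatorElement_def]; group]
    exact (mul_mem (m1 hz) (nA.conj_mem _ (inv_mem (m1 hz)) y)).1

theorem not_dvd [Fact p.Prime] [Fact r.Prime] (P : Sylow p G) (R : Sylow r G) (h : (R : Subgroup G) ≤ normalizer (P : Set G))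
    (h1 : Nat.card (Sylow r G) < p ^ 2) (h2 : ¬ p ≡ 1 [MOD r]) : ¬ p ∣ Nat.card (Sylow r G) := by
  let R' := R.subtype (le_sup_left : (R : Subgroup G) ≤ (R : Subgroup G) ⊔ (P : Subgroup G))
  obtain ⟨k, hk⟩ := P.isPGroup'.exists_card_eq
  have d : (R : Subgroup G).relIndex ((R : Subgroup G) ⊔ (P : Subgroup G)) ∣ p ^ k := hk ▸ H17.relIndex_sup_dvd_card h
  obtain ⟨a, -, e⟩ := (Nat.dvd_prime_pow Fact.out).1 (R'.card_dvd_index.trans d)
  have l := (syl_le r _ ((R : Subgroup G) ⊔ (P : Subgroup G)).subtype_injective).trans_lt h1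
  have m := card_sylow_modEq_one r ↥((R : Subgroup G) ⊔ (P : Subgroup G))
  rw [e] at l m
  have a2 := (Nat.pow_lt_pow_iff_right (Fact.out : p.Prime).one_lt).1 l
  obtain rfl : a = 0 := by
    by_contra c
    exact h2 (by rwa [show a = 1 by omega, pow_one] at m)
  rw [R'.card_eq_index_normalizer, pow_zero, index_eq_one] at e
  rw [R.card_eq_index_normalizer]
  exact fun c => P.not_dvd_index (c.trans (index_dvd_of_le (le_sup_right.trans
    ((normal_subgroupOf_iff_le_normalizer le_sup_left).1 (normalizer_eq_top_iff.1 e)))))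

theorem syl_of_coatom [IsSimpleGroup G] [Fact r.Prime] {M : Subgroup G} (hM : IsCoatom M) (h1 : ¬ r ∣ M.index)
    (h2 : r ∣ Nat.card G) (h3 : ∀ Q : Sylow r M, (Q : Subgroup M).index ≤ 2) : Nat.card (Sylow r G) = M.index := by
  obtain ⟨Q⟩ : Nonempty (Sylow r M) := inferInstance
  obtain ⟨P, hP⟩ := Q.exists_comap_subtype_eq
  have n : (Q : Subgroup M).Normal := by
    rcases (h3 Q).lt_or_eq with k | k
    · rw [index_eq_one.1 (show (Q : Subgroup M).index = 1 by have := FiniteIndex.index_ne_zero (H := (Q : Subgroup M)); omega)]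
      infer_instance
    · exact normal_of_index_eq_two k
  have l : (P : Subgroup G) ≤ M := by
    have e : Nat.card (P : Subgroup G) = Nat.card ↥((P : Subgroup G) ⊓ M) := by
      rw [← subgroupOf_map_subtype, card_map_of_injective M.subtype_injective, subgroupOf, hP, P.card_eq_multiplicity,
        Q.card_eq_multiplicity, ← M.card_mul_index, Nat.factorization_mul Nat.card_pos.ne' FiniteIndex.index_ne_zero,
        Finsupp.add_apply, Nat.factorization_eq_zero_of_not_dvd h1, add_zero]
    exact inf_eq_left.1 (eq_of_le_of_card_ge inf_le_left e.le)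
  have l2 : M ≤ normalizer (P : Set G) := (normal_subgroupOf_iff_le_normalizer l).1 (hP ▸ n :)
  rw [P.card_eq_index_normalizer, ← (hM.le_iff.1 l2).resolve_left fun e => ?_]
  rcases (normalizer_eq_top_iff.1 e).eq_bot_or_eq_top with k | k
  · exact P.ne_bot_of_dvd_card h2 k
  · exact hM.1 (eq_top_iff.2 (k ▸ l))

instance : Fact (Nat.Prime 17) := ⟨by norm_num⟩

theorem card17 : Nat.card PSL(2, ZMod 17) = 2448 := by
  have := H10.card_PSL2 (F := ZMod 17)
  rw [ZMod.card, show Nat.gcd 2 (17 - 1) = 2 from rfl] at this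
  exact Nat.eq_of_mul_eq_mul_left two_pos this

theorem psl17 : Nat.card (Sylow 2 PSL(2, ZMod 17)) = 153 ∧ Nat.card (Sylow 3 PSL(2, ZMod 17)) = 136 := by
  have := Matrix.ProjectiveSpecialLinearGroup.rank_two_simple (F := ZMod 17) (by rw [Nat.card_zmod]; omega)
  obtain ⟨M, m1, ⟨e⟩⟩ := Cfsg.Agent.S0812.result (ZMod.card 17) (by decide)
  obtain ⟨N, n1, ⟨f⟩⟩ := Cfsg.Agent.S0811.result (ZMod.card 17) (by decide)
  have c1 : Nat.card M = 16 := by rw [Nat.card_congr e.toEquiv, DihedralGroup.nat_card]; rfl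
  have c2 : Nat.card N = 18 := by rw [Nat.card_congr f.toEquiv, DihedralGroup.nat_card]; rfl
  have i1 : M.index = 153 := by have := M.card_mul_index; rw [c1, card17] at this; omega
  have i2 : N.index = 136 := by have := N.card_mul_index; rw [c2, card17] at this; omega
  refine ⟨i1 ▸ syl_of_coatom m1 (by omega) (by rw [card17]; omega) fun Q => ?_,
    i2 ▸ syl_of_coatom n1 (by omega) (by rw [card17]; omega) fun Q => ?_⟩
  · have := Q.not_dvd_index
    have d := Nat.mem_divisors.2 ⟨c1 ▸ index_dvd_card (Q : Subgroup M), by omega⟩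
    rw [show Nat.divisors 16 = {1, 2, 4, 8, 16} by decide] at d
    simp only [Finset.mem_insert, Finset.mem_singleton] at d
    omega
  · have := Q.not_dvd_index
    have d := Nat.mem_divisors.2 ⟨c2 ▸ index_dvd_card (Q : Subgroup N), by omega⟩
    rw [show Nat.divisors 18 = {1, 2, 3, 6, 9, 18} by decide] at d
    simp only [Finset.mem_insert, Finset.mem_singleton] at d
    omega

theorem ord17 {Ω : Type*} [Fintype Ω] [DecidableEq Ω] (hΩ : Fintype.card Ω = 18) (X : Subgroup (Equiv.Perm Ω))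
    (h : Nat.card (Sylow 17 X) = 18) : ∃ d < 17, Nat.card X = (17 + 1) * 17 * d := by
  obtain ⟨P⟩ : Nonempty (Sylow 17 X) := inferInstance
  obtain ⟨k, hk⟩ := P.isPGroup'.exists_card_eq
  have cP : Nat.card (P : Subgroup X) = 17 := by
    have d := (card_subgroup_dvd_card (P : Subgroup X)).trans (card_subgroup_dvd_card X)
    rw [hk, Nat.card_perm, Nat.card_eq_fintype_card, hΩ] at d
    rcases k with _ | _ | k
    · have := P.card_eq_index_normalizer.trans (index_eq_one.2 (normalizer_eq_top_iff.2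
        (show (P : Subgroup X).Normal by rw [card_eq_one.1 hk]; infer_instance)))
      omega
    · exact hk
    · exact absurd ((pow_dvd_pow 17 (show 2 ≤ k + 1 + 1 by omega)).trans d) (by norm_num [Nat.factorial])
  obtain ⟨y, hy⟩ := exists_prime_orderOf_dvd_card' (G := (P : Subgroup X)) 17 (dvd_of_eq cP.symm)
  have o : orderOf (y : X) = 17 := (orderOf_coe y).trans hy
  have e : zpowers (y : X) = P := eq_of_le_of_card_ge (zpowers_le.2 y.2) (by rw [cP, Nat.card_zpowers, o])
  have y1 : (y : X) ^ 17 = 1 := orderOf_dvd_iff_pow_eq_one.1 (dvd_of_eq o)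
  have f1 := ncard_fix_modEq (p := 17) (n := 1) y1 (Set.univ : Set Ω) fun _ _ => trivial
  have f2 : {x : Ω | (y : X) • x = x}.ncard < 18 := by
    rw [← hΩ, ← Nat.card_eq_fintype_card, ← Set.ncard_univ]
    refine Set.ncard_lt_ncard (Set.ssubset_univ_iff.2 fun k => ?_)
    rw [show (y : X) = 1 from Subtype.ext (Equiv.ext fun x => k.ge (Set.mem_univ x)), orderOf_one] at o
    omega
  simp only [Set.ncard_univ, Nat.card_eq_fintype_card, hΩ, Set.mem_univ, true_and, Nat.ModEq] at f1
  have c := (Dvd.intro _ rfl).trans (card_cent_dvd' y1 (c := 1) (m := 1) (by omega) hΩ ⊤ fun _ => trivial)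
  rw [← cent_zpowers, e] at c
  have c2 : 17 ∣ Nat.card (centralizer ((P : Subgroup X) : Set X)) :=
    (dvd_of_eq cP.symm).trans (card_dvd_of_le (e ▸ le_centralizer _))
  have c3 := relIndex_cent_dvd (P : Subgroup X) (by rw [cP]; norm_num)
  refine ⟨_, (Nat.le_of_dvd (by omega) c3).trans_lt (by omega), ?_⟩
  have c4 := card_cent_mul_relIndex (P : Subgroup X)
  rw [Nat.dvd_antisymm c c2] at c4
  rw [← card_mul_card_sylow P, h, mul_assoc, mul_comm]
  exact congrArg _ c4.symm

theorem top17 (h : Nat.card (Sylow 17 G) = 18) :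
    (Nonempty ((toPermHom G (Sylow 17 G)).range ≃* PGL(2, ZMod 17)) ∨
      Nonempty ((toPermHom G (Sylow 17 G)).range ≃* PSL(2, ZMod 17))) ∧ Nat.card (toPermHom G (Sylow 17 G)).range ∣ 4896 := by
  classical
  have := Fintype.ofFinite (Sylow 17 G)
  let φ := toPermHom G (Sylow 17 G)
  let e := QuotientGroup.quotientKerEquivRange φ
  have c : Fintype.card (Sylow 17 G) = 18 := Nat.card_eq_fintype_card.symm.trans h
  obtain ⟨d, d1, d2⟩ := ord17 c φ.range (by
    rw [← h, ← card_sylow_quot φ.ker fun P k hk => congrArg (fun f : Equiv.Perm _ => f P) hk]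
    exact le_antisymm (syl_le 17 e.symm.toMonoidHom e.symm.injective) (syl_le 17 e.toMonoidHom e.injective))
  have : IsPretransitive φ.range (Sylow 17 G) := ⟨fun P Q => by
    obtain ⟨g, hg⟩ := exists_smul_eq G P Q
    exact ⟨⟨φ g, g, rfl⟩, hg⟩⟩
  rcases Cfsg.Agent.S0732.result Fact.out c φ.range d2 d1 with ⟨k, l⟩ | ⟨k, l⟩ | ⟨q, -, k, -⟩
  · exact ⟨.inl l, by rw [d2, k]⟩
  · exact ⟨.inr l, by rw [d2, show d = 8 by omega]; norm_num⟩
  · exact absurd (Nat.prime_three.dvd_of_dvd_pow (k ▸ (by norm_num : 3 ∣ 17 + 1))) (by norm_num)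

end H17.SN
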