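import Mathlib

/-! Scott's lemma (subdirect products of a nonabelian simple group) and the coordinate form of
surjections `T ^ ι → U` onto a nonabelian simple group. -/

set_option autoImplicit false
open Subgroup

namespace H17.Sc

variable {T U R ι : Type*} [Group T] [Group U] [Group R]

theorem not_comm_top (h : ¬ IsMulCommutative U) (A B : Subgroup U) (hA : A = ⊤) (hB : B = ⊤)
    (hc : ∀ a ∈ A, ∀ b ∈ B, a * b = b * a) : False :=
  h ⟨⟨fun a b => hc a (hA ▸ mem_top a) b (hB ▸ mem_top b)⟩⟩

theorem factor [Finite ι] [IsSimpleGroup U] (hU : ¬ IsMulCommutative U) (f : (ι → T) →* U)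
    (hf : Function.Surjective f) : ∃ i, ∃ β : T →* U, ∀ x, f x = β (x i) := by
  classical
  have := Fintype.ofFinite ι
  let g : ι → T →* U := fun i => f.comp (MonoidHom.mulSingle (fun _ : ι => T) i)
  have hn : ∀ i, (g i).range.Normal := fun i => ⟨by
    rintro _ ⟨t, rfl⟩ u
    obtain ⟨x, rfl⟩ := hf u
    refine ⟨x i * t * (x i)⁻¹, ?_⟩
    simp only [g, MonoidHom.comp_apply, ← map_inv, ← map_mul]
    congr 1
    funext j
    by_cases h : j = i
    · subst h; simp
    · simp [h]⟩
  have key : ∀ s : Finset ι, ∀ x : ι → T, (∀ j, j ∉ s → x j = 1) → (∀ j ∈ s, (g j).range = ⊥) → f x = 1 := by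
    intro s
    induction s using Finset.induction_on with
    | empty => intro x hx _; rw [show x = 1 from funext fun j => hx j (by simp), map_one]
    | insert a s ha ih =>
      intro x hx hs
      have e : x = Pi.mulSingle a (x a) * Function.update x a 1 := by
        funext j
        by_cases h : j = a
        · subst h; simp
        · simp [h]
      have h1 : f (Pi.mulSingle a (x a)) = 1 := by
        have : g a (x a) ∈ (g a).range := ⟨_, rfl⟩
        rwa [hs a (by simp), mem_bot] at this
      rw [e, map_mul, h1, one_mul]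
      refine ih _ (fun j hj => ?_) fun j hj => hs j (by simp [hj])
      by_cases h : j = a
      · subst h; simp
      · simp [h, hx j (by simp [h, hj])]
  obtain ⟨i, hi⟩ : ∃ i, (g i).range = ⊤ := by
    by_contra hc
    push Not at hc
    have h1 : ∀ x, f x = 1 := fun x => key Finset.univ x (by simp) fun j _ =>
      ((hn j).eq_bot_or_eq_top).resolve_right (hc j)
    obtain ⟨u, hu⟩ := exists_ne (1 : U)
    obtain ⟨x, rfl⟩ := hf u
    exact hu (h1 x)
  refine ⟨i, g i, fun x => ?_⟩
  have e : x = Pi.mulSingle i (x i) * Function.update x i 1 := by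
    funext j
    by_cases h : j = i
    · subst h; simp
    · simp [h]
  have h2 : f (Function.update x i 1) = 1 := by
    refine key (Finset.univ.erase i) _ (fun j hj => ?_) fun j hj => ?_
    · have : j = i := by simpa using hj
      subst this; simp
    · refine ((hn j).eq_bot_or_eq_top).resolve_right fun hj' => not_comm_top hU _ _ hi hj' ?_
      rintro _ ⟨s, rfl⟩ _ ⟨t, rfl⟩
      simp only [g, MonoidHom.comp_apply, ← map_mul]
      congr 1
      exact (Pi.mulSingle_commute (f := fun _ : ι => T) (Ne.symm (by simpa using hj)) s t).eq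
  conv_lhs => rw [e, map_mul, h2, mul_one]
  rfl

theorem map_ker_top [IsSimpleGroup T] {p q : R →* T} (hp : Function.Surjective p)
    (hq : Function.Surjective q) (h : p.ker ≠ q.ker) : p.ker.map q = ⊤ := by
  refine ((Normal.map inferInstance q hq).eq_bot_or_eq_top).resolve_left fun hb => h ?_
  have hle : p.ker ≤ q.ker := (Subgroup.map_eq_bot_iff _).1 hb
  rcases (Normal.map (inferInstance : q.ker.Normal) p hp).eq_bot_or_eq_top with h1 | h1
  · exact le_antisymm hle ((Subgroup.map_eq_bot_iff _).1 h1)
  · exfalso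
    obtain ⟨u, hu⟩ := exists_ne (1 : T)
    obtain ⟨x, rfl⟩ := hq u
    obtain ⟨y, hy, hxy⟩ : p x ∈ q.ker.map p := h1 ▸ mem_top _
    have : y⁻¹ * x ∈ q.ker := hle (by simp [MonoidHom.mem_ker, hxy])
    rw [MonoidHom.mem_ker, map_mul, map_inv, (MonoidHom.mem_ker).1 hy] at this
    exact hu (by simpa using this)

theorem inf_top [IsSimpleGroup T] (hT : ¬ IsMulCommutative T) (π : ι → R →* T)
    (hπ : ∀ i, Function.Surjective (π i)) (j : ι) (s : Finset ι) (hs : ∀ i ∈ s, (π i).ker ≠ (π j).ker) :
    (⨅ i ∈ s, (π i).ker).map (π j) = ⊤ := by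
  classical
  induction s using Finset.induction_on with
  | empty => simpa [← MonoidHom.range_eq_map, MonoidHom.range_eq_top] using hπ j
  | insert a s ha ih =>
    have h1 := ih fun i hi => hs i (by simp [hi])
    have h2 := map_ker_top (hπ a) (hπ j) (hs a (by simp))
    have : (⨅ i ∈ s, (π i).ker).Normal := normal_iInf_normal fun i => normal_iInf_normal fun _ => inferInstance
    have h3 : ⁅(π a).ker, ⨅ i ∈ s, (π i).ker⁆ ≤ ⨅ i ∈ insert a s, (π i).ker := by
      rw [Finset.iInf_insert]; exact commutator_le_inf _ _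
    have h4 := map_mono (f := π j) h3
    rw [map_commutator, h1, h2] at h4
    refine top_le_iff.1 (le_trans ?_ h4)
    rcases (inferInstance : (⁅(⊤ : Subgroup T), (⊤ : Subgroup T)⁆).Normal).eq_bot_or_eq_top with h | h
    · exact (hT ⟨⟨fun a b => by
        have := commutator_mem_commutator (mem_top a) (mem_top b)
        rw [h, mem_bot, commutatorElement_eq_one_iff_mul_comm] at this
        exact this⟩⟩).elim
    · exact h.ge

/-- Scott's lemma, surjectivity form. -/
theorem scott [IsSimpleGroup T] (hT : ¬ IsMulCommutative T) (π : ι → R →* T)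
    (hπ : ∀ i, Function.Surjective (π i)) (y : ι → T) (s : Finset ι)
    (hs : ∀ i ∈ s, ∀ j ∈ s, (π i).ker = (π j).ker → i = j) : ∃ r, ∀ i ∈ s, π i r = y i := by
  classical
  induction s using Finset.induction_on with
  | empty => exact ⟨1, by simp⟩
  | insert a s ha ih =>
    obtain ⟨r, hr⟩ := ih fun i hi j hj => hs i (by simp [hi]) j (by simp [hj])
    have h := inf_top hT π hπ a s fun i hi e => ha (hs i (by simp [hi]) a (by simp) e ▸ hi)
    obtain ⟨d, hd, e⟩ : (π a r)⁻¹ * y a ∈ (⨅ i ∈ s, (π i).ker).map (π a) := h ▸ mem_top _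
    refine ⟨r * d, fun i hi => ?_⟩
    rcases Finset.mem_insert.1 hi with rfl | hi
    · simp [e]
    · have : d ∈ (π i).ker := by
        simp only [SetLike.mem_coe, mem_iInf] at hd
        exact hd i hi
      simp [hr i hi, (MonoidHom.mem_ker).1 this]

theorem exists_aut {p q : R →* T} (hp : Function.Surjective p) (hq : Function.Surjective q)
    (h : p.ker = q.ker) : ∃ β : T ≃* T, ∀ r, β (p r) = q r := by
  refine ⟨(QuotientGroup.quotientKerEquivOfSurjective p hp).symm.trans
    ((QuotientGroup.quotientMulEquivOfEq h).trans (QuotientGroup.quotientKerEquivOfSurjective q hq)), fun r => ?_⟩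
  have : (QuotientGroup.quotientKerEquivOfSurjective p hp).symm (p r) = (r : R ⧸ p.ker) :=
    (MulEquiv.symm_apply_eq _).2 rfl
  simp only [MulEquiv.trans_apply, this]
  rfl

end H17.Sc
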