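import Cfsg.Agent.H1.FTCor
import Cfsg.Agent.H1.Harv2
import Cfsg.Agent.H16.NF3
import Cfsg.Agent.H21.Crit

/-! Non-normal TI Hall subgroups of `π`-separable groups: `TIH π H`, `TIH.sup_norm` (`G = O_π'(G) N(H)`), `TIH.fc`
(`H` is a Frobenius complement), `TIH.solv`, `TIH.compl` (normal complement of `C_H(Q)`), `ZGrp.der2_cent`. -/

set_option autoImplicit false
set_option linter.unusedSectionVars false
set_option linter.unusedVariables false

namespace H17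
open Subgroup Cfsg H18 H1
open scoped commutatorElement

variable {G : Type*} [Group G] [Finite G] {A B D E F H K L M P Q R S T U V W X Y Z : Subgroup G}
  {a b c g j t u w x y z : G} {p q k : ℕ} {π : Set ℕ}

structure TIH (π : Set ℕ) (H : Subgroup G) : Prop where
  ti : IsTISubset (H : Set G)
  nn : ¬ H.Normal
  hall : Hall π H ⊤
  sep : PiSep π (⊤ : Subgroup G)

theorem tih_of (hTI : IsTISubset (H : Set G)) (hnn : ¬ H.Normal)
    (hHall : (Nat.card H).Coprime (H.subgroupOf (normalizer (H : Set G))).index)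
    (hsep : ∃ (n : ℕ) (M : Fin (n + 1) → Subgroup G), M 0 = ⊥ ∧ M (Fin.last n) = ⊤ ∧ Monotone M ∧ (∀ i, (M i).Normal) ∧
      ∀ i : Fin n, (∀ q : ℕ, q.Prime → q ∣ (M i.castSucc).relIndex (M i.succ) → q ∣ Nat.card H) ∨
        ((M i.castSucc).relIndex (M i.succ)).Coprime (Nat.card H)) : TIH (primes (Nat.card H)) H := by
  obtain ⟨n, M, h0, h1, h2, h3, h4⟩ := hsep
  refine ⟨hTI, hnn, ti_hall hTI (hall_primes le_N hHall), piSep_of_chain M h0 h1 h2 h3 fun i => (h4 i).imp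
    (fun h q hq hd => ⟨hq, h q hq hd⟩) fun h q hq hd e => ?_⟩
  exact hq.one_lt.ne' (Nat.eq_one_of_dvd_coprimes h hd e.2)

theorem TIH.mem_N (h : TIH π H) (hx : x ∈ H) (h1 : x ≠ 1) (hg : g * x * g⁻¹ ∈ H) : g ∈ N(H) :=
  by_contra fun e => h1 (h.ti g e x hx hg)

theorem TIH.N_le (h : TIH π H) (hT : T ≤ H) (h1 : T ≠ ⊥) : N(T) ≤ N(H) := fun g hg => by
  obtain ⟨x, hx, x1⟩ := exists_mem_ne_one' h1
  exact h.mem_N (hT hx) x1 (hT (norm_iff.1 (le_refl N(T)) g hg x hx))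

theorem pcore2_ne_of_piSep (h : PiSep π K) (e : O[π](K ⫽ O[πᶜ](K)) = ⊥) : K ≤ O[πᶜ](K) := by
  refine (quo_eq_bot_iff pcore_nml.norm).1 (by_contra fun e2 => ?_)
  obtain ⟨M, m1, m2, m3⟩ := PiSep.exists_nml (PiSep.mim h) e2
  rcases m3 with m | m
  · exact m2 (le_bot_iff.1 ((le_pcore m1 m).trans e.le))
  · exact m2 (le_bot_iff.1 ((le_pcore m1 m).trans pcore_quo_pcore.le))

theorem TIH.sup_norm (h : TIH π H) : O[πᶜ](⊤) ⊔ N(H) = ⊤ := by
  have hT : Hall π (H ⊓ O2[πᶜ,π](⊤)) O2[πᶜ,π](⊤) := h.hall.inf_nml pcore2_nml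
  generalize hT' : H ⊓ O2[πᶜ,π](⊤) = T at hT
  have t1 : T ≤ H := hT' ▸ inf_le_left
  have t0 : T ≠ ⊥ := fun e => by
    have e1 := hT.quo_pcore2
    rw [e, mim_bot] at e1
    refine h.nn ?_
    rw [h.hall.pi.eq_bot (pcore_pi.of_le (le_top.trans (pcore2_ne_of_piSep h.sep e1.symm)))]
    infer_instance
  have := (h.sep.mono le_top).frattini_arg pcore2_nml hT
  rw [← hT.sup_pcore2] at this
  refine eq_top_iff.2 (this.ge.trans ?_)
  exact sup_le (sup_le le_sup_left (t1.trans (le_N.trans le_sup_right)))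
    (inf_le_right.trans ((h.N_le t1 t0).trans le_sup_right))

theorem TIH.nml_sup (h : TIH π H) (hT : N(H) ≤ N(T)) : (O[πᶜ](⊤) ⊔ T) ⊴ ⊤ :=
  ⟨le_top, h.sup_norm.ge.trans (sup_le (le_norm le_sup_left) (norm_sup (le_top.trans pcore_nml.norm) hT))⟩

theorem TIH.fc (h : TIH π H) : H16.FC H := by
  have c : Cop H O[πᶜ](⊤) := cop_pi (le_top.trans pcore_nml.norm) h.hall.pi pcore_pi
  obtain ⟨q, hq, Q, a, b, d⟩ : ∃ q, q.Prime ∧ ∃ Q, Hall {q} Q O[πᶜ](⊤) ∧ H ≤ N(Q) ∧ ¬ Q ≤ C(H) := by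
    by_contra! e
    refine h.nn (Nml.normal ⟨le_top, h.sup_norm.ge.trans (sup_le (cent_norm (le_of_sylows fun q hq _ => ?_)) le_rfl)⟩)
    exact (c.exists_sylow hq).imp fun Q d => ⟨d.1, e q hq Q d.1 d.2⟩
  have c1 := (c.sub a.le b).comm
  have e := (c.sub a.le b).comm_comm
  set V := ⁅Q, H⁆
  have v : V ≤ Q := comm_le_left b
  have n : H ≤ N(⁅V, V⁆) := norm_der c1.1
  refine H16.fc_of_semireg (K := V ⫽ ⁅V, V⁆) ((coset _).comp (inclusion n))
    (fun g => mim_norm c1.1 ⟨⟨g, n g.2⟩, g.2, rfl⟩)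
    (fun j => ((a.pi.of_le v).solv.der_lt (mt comm_eq_bot_iff.1 d)).not_ge ((quo_eq_bot_iff nml_der.norm).1 j))
    fun x x1 => ?_
  have z := zpowers_le.2 x.2
  rw [show ((coset _).comp (inclusion n)) x = mfun (coset ⁅V, V⁆) (x : G) by rw [mfun_of_mem (n x.2)]; rfl, ← C_zpowers,
    ← mim_zpowers (n x.2)]
  refine (c1.left z).quo_cent_eq_bot (z.trans n) nml_der.norm (le_trans (le_inf inf_le_left ?_) (c1.cent_le_of_comm_eq e))
  refine le_trans (fun g hg => ?_) (c1.inf_N.le.trans inf_le_right)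
  exact ⟨hg.1, h.mem_N x.2 (fun e => x1 (Subtype.ext e)) (by rw [conj_eq_self_of_C1 (C_zpowers.le hg.2)]; exact x.2)⟩

theorem zgrp_of_fc (h : H16.FC H) (h2 : ∀ P ≤ H, PiGrp {2} P → Abel P) : ZGrp H :=
  zgrp_of_sylow fun p hp P hP => by
    have f : H16.FC P := h.of_injective (inclusion hP.le) (inclusion_injective _)
    by_cases e : p = 2
    · subst e; exact f.isCyclic (fun a b => Subtype.ext (comm_of_cent (h2 P hP.le hP.pi) a.2 b.2))
    · exact topEquiv.isCyclic.1 (f.isCyclic_of_odd hp e (hP.pi.isPGroup.to_subgroup ⊤))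

theorem ZGrp.der2_cent (h : ZGrp H) (hA : A ≤ N(H)) : ⁅⁅A, A⁆, ⁅A, A⁆⁆ ≤ C(H) := by
  have n : A ≤ N(⁅H, H⁆) := norm_der hA
  have h1 : ⁅A, A⁆ ≤ C(⁅H, H⁆) := h.cyc_der.der_cent n
  have h2 : ⁅⁅A, A⁆, H⁆ ≤ ⁅H, H⁆ := by
    rw [comm_le_iff_quo (der_le.trans n) nml_der.norm, mim_comm n n]
    exact h.cyc_quo_der.der_cent (mim_norm hA)
  have h3 : ⁅⁅⁅A, A⁆, H⁆, ⁅A, A⁆⁆ = ⊥ := comm_eq_bot_iff.2 (h2.trans (cent_symm h1))
  refine comm_eq_bot_iff.1 (commutator_commutator_eq_bot_of_rotate h3 ?_)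
  rwa [comm_comm (A := H)]

theorem TIH.C_le (h : TIH π H) : C(H) ≤ O[πᶜ](⊤) ⊔ H := by
  have a : Hall π (H ⊓ C(H)) C(H) := (h.hall.of_le le_N le_top).nml_inf le_rfl C_le_N
  obtain ⟨Y, s⟩ := a.exists_sd (norm_inf C_le_N le_N)
  have y := s.hall_compl a
  have n : C(H) ≤ N(Y) := s.sup.ge.trans (sup_le (cent_norm (inf_le_left.trans (cent_symm y.le))) le_N)
  have e : O[πᶜ](⊤) ⊔ Y ≤ O[πᶜ](⊤) := le_pcore (h.nml_sup (y.eq_pcore n ▸ norm_pcore (norm_C le_rfl)))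
    (pcore_pi.sup_norm' y.pi (le_top.trans pcore_nml.norm))
  exact s.sup.ge.trans (sup_le (inf_le_left.trans le_sup_right) (le_sup_right.trans (e.trans le_sup_left)))

theorem solv_der' (h : Solv ⁅K, K⁆) : Solv K :=
  solv_of_quo nml_der.norm (Abel.solv ((abel_quo_iff nml_der.norm).2 le_rfl)) h

theorem TIH.solv (h : TIH π H) (h1 : Solv O[πᶜ]((⊤ : Subgroup G))) (h2 : Solv H) : Solv (⊤ : Subgroup G) := by
  have s : Solv (O[πᶜ](⊤) ⊔ H : Subgroup G) := h1.sup h2 (Or.inr (le_top.trans pcore_nml.norm))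
  by_cases e : 2 ∈ π
  · exact H21.solv_of_odd_idx (h.nml_sup le_rfl) s
      fun q hq hd j => h.hall.idx_of_le le_sup_right q hq hd (j ▸ e)
  have z := zgrp_of_fc h.fc fun P hP hp => by
    rw [hp.eq_bot fun q hq hd j => e (j ▸ h.hall.pi.of_le hP q hq hd)]; exact abel_bot
  rw [← h.sup_norm]
  exact h1.sup (solv_der' (solv_der' (s.of_le ((ZGrp.der2_cent z le_rfl).trans h.C_le))))
    (Or.inr (le_top.trans pcore_nml.norm))

theorem TIH.compl (h : TIH π H) (z : ZGrp H) (s : SD H Q N(H)) :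
    Hall (primes (Nat.card (H ⊓ C(Q) : Subgroup G))) (H ⊓ C(Q)) ⊤ ∧ ∃ M, SD M (H ⊓ C(Q)) ⊤ := by
  have hQ : PiGrp πᶜ Q := (s.hall_compl (h.hall.of_le le_N le_top)).pi
  have c : Cop Q H := cop_pi' s.norm hQ h.hall.pi
  generalize hσ : primes (Nat.card (H ⊓ C(Q) : Subgroup G)) = σ
  have p0 : PiGrp σ (H ⊓ C(Q)) := hσ ▸ piNat_primes
  have sub : ∀ q, q.Prime → q ∈ σ → q ∈ π := fun q hq j =>
    h.hall.pi q hq ((hσ ▸ j : q ∈ primes _).2.trans (card_dvd inf_le_left))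
  have a : Hall σ (H ⊓ C(Q)) H := hall_of_sylows inf_le_left p0 fun p hp j _ => by
    obtain ⟨X, x1, x2⟩ := cauchy_sub hp (hσ ▸ j : p ∈ primes _).2
    obtain ⟨P, p1, p2, p3⟩ := c.exists_sylow_ge hp (x1.trans inf_le_left) (piGrp_of_prime hp x2)
      (cent_norm (cent_symm (x1.trans inf_le_right)))
    have y := z.cyc p1.le p1.pi
    refine ⟨P, p1, le_inf p1.le ((y.comm_eq_bot_or hp p1.pi p3 fun q hq hd j2 => hQ q hq hd (j2 ▸ sub p hp j)).elim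
      cent_symm fun e => absurd ?_ (ne_bot_of_prime (x2 ▸ hp)))⟩
    exact le_bot_iff.1 ((le_inf p2 (x1.trans inf_le_right)).trans (((c.sub p1.le p3).cent_le_of_comm_eq e).trans
      (comm_eq_bot_iff.2 y.abel).le))
  obtain ⟨T, t, nT⟩ := (piSep_of_solv (π := σᶜ) z.solv).cop_hall_exists c
  have e1 : ⁅T, Q⁆ = T := (c.sub t.le nT).comm_eq_of_cent (le_bot_iff.1
    ((le_inf (inf_le_inf_right _ t.le) inf_le_left).trans (p0.inf_eq_bot t.pi).le))
  have n1 : N(H) ≤ N(O[σ](⁅H, H⁆)) := norm_pcore (norm_der le_rfl)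
  have e2 : T ≤ C(O[σ](⁅H, H⁆)) := e1.ge.trans ((comm_mono le_rfl (cent_symm ((a.nml_le
    ⟨pcore_le.trans der_le, le_N.trans n1⟩ pcore_pi).trans inf_le_right))).trans
      (comm_le_right (norm_C (t.le.trans (le_N.trans n1)))))
  have e3 : T ⊔ ⁅H, H⁆ ≤ N(T) := sup_le le_N (z.cyc_der.abel.nil.dp_pcore (π := σ).sup.ge.trans (sup_le
    (cent_norm (cent_symm e2)) (le_norm (t.nml_le ⟨pcore_le.trans der_le, norm_pcore nml_der.norm⟩ pcore_pi))))
  have l : T ⊔ ⁅H, H⁆ ≤ H := sup_le t.le der_le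
  have e4 : H ≤ N(T) := (t.of_le le_sup_left l).eq_pcore e3 ▸ norm_pcore (norm_of_der_le le_sup_right l)
  have e5 := h.nml_sup (T := T) (t.eq_pcore e4 ▸ norm_pcore le_rfl)
  have top : ⊤ ≤ O[πᶜ](⊤) ⊔ T ⊔ Q ⊔ (H ⊓ C(Q)) := h.sup_norm.ge.trans (sup_le
    (le_sup_left.trans (le_sup_left.trans le_sup_left)) (s.sup.ge.trans (sup_le ((a.sup_compl t).ge.trans
      (sup_le le_sup_right (le_sup_right.trans (le_sup_left.trans le_sup_left)))) (le_sup_right.trans le_sup_left))))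
  have pM : PiGrp σᶜ (O[πᶜ](⊤) ⊔ T ⊔ Q) := PiGrp.sup_norm' (PiGrp.sup_norm'
    (fun q hq hd j => pcore_pi (π := πᶜ) q hq hd (sub q hq j)) t.pi (le_top.trans pcore_nml.norm))
    (fun q hq hd j => hQ q hq hd (sub q hq j)) (le_top.trans e5.norm)
  exact ⟨a.trans h.hall sub, _, sd_of_nml ⟨le_top, top.trans (sup_le le_N (norm_sup (le_top.trans e5.norm)
    (cent_norm inf_le_right)))⟩ le_top (pM.inf_eq_bot' p0) top⟩

theorem sSup_coprime_eq (hn : Nat.card H ≠ 0) : sSup {K : Subgroup G | K.Normal ∧ (Nat.card K).Coprime (Nat.card H)} =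
    O[(primes (Nat.card H))ᶜ]((⊤ : Subgroup G)) := by
  refine le_antisymm (sSup_le fun K hK => ?_) (le_sSup ⟨pcore_nml.normal, (PiNat.coprime piNat_primes pcore_pi).symm⟩)
  have := hK.1
  exact le_pcore nml_top fun q hq hd e => hq.one_lt.ne' (Nat.eq_one_of_dvd_coprimes hK.2 hd e.2)

end H17
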