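import Cfsg.Agent.H4.Factor

/-! Tools for Thompson's `J`-criterion: two additive computations (`three_zero`, `four_zero`), conjugation on an
abelian subgroup written additively (`cjE`), and the surjectivity form of Thompson's replacement (`exists_comm_eq`). -/

set_option autoImplicit false

namespace H17.TJ

open Subgroup H26 H4 Cfsg
open scoped commutatorElement

section add
variable {E : Type*} [AddCommGroup E]

theorem three_zero (h : ℕ → ℕ → E) (δ : E →+ E)
    (hδ : ∀ a b, δ (h a b) = h a b - h (a + 1) b - h a (b + 1) + h (a + 1) (b + 1))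
    (hq : ∀ a b, δ (h a b - δ (h a b)) = h a b - δ (h a b)) (alt : ∀ a b, h a b = - h b a)
    (dg : ∀ a, h a a = 0) (z5 : ∀ a, h a 5 = 0) (z6 : ∀ a, h a 6 = 0) :
    h 2 3 = 0 ∧ h 2 4 = 0 ∧ h 3 4 = 0 := by
  have r : ∀ a b, h (a + 2) b + 2 • h (a + 1) (b + 1) + h a (b + 2) - 2 • h (a + 2) (b + 1)
      - 2 • h (a + 1) (b + 2) + h (a + 2) (b + 2) = 0 := fun a b => by
    have := hq a b
    rw [map_sub, hδ a b, map_add, map_sub, map_sub, hδ, hδ, hδ, hδ] at this
    rw [← sub_eq_zero] at this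
    rw [← neg_eq_zero, ← this]
    simp only [add_assoc, Nat.reduceAdd]
    abel
  have h34 : h 3 4 = 0 := by simpa [z5, z6] using r 1 4
  have h24 : h 2 4 = 0 := by simpa [z5, z6] using r 0 4
  have e1 : h 2 3 + 2 • h 1 4 = 0 := by simpa [z5, z6, h24] using r 0 3
  have e2 : - h 2 3 + 2 • h 2 3 + h 1 4 = 0 := by simpa [z5, z6, h24, h34, dg, alt 3 2] using r 1 2
  refine ⟨?_, h24, h34⟩
  have : h 2 3 = 2 • (- h 2 3 + 2 • h 2 3 + h 1 4) - (h 2 3 + 2 • h 1 4) := by abel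
  rw [this, e1, e2]; simp

theorem four_zero {p : ℕ} (hp : p.Prime) (h2 : p ≠ 2) (w : ℕ → E) (γ : E →+ E) (hγ : ∀ j, γ (w j) = w j - w (j + 1))
    (z5 : w 5 = 0) (hw : ∀ j, p • w j = 0) (i : ℕ)
    (h : γ (w 3 - (w 1 - γ^[i] (w 1))) = w 3 - (w 1 - γ^[i] (w 1))) : w 4 = 0 := by
  have c : ∀ (n : ℕ) (x : E), γ (γ^[n] x) = γ^[n] (γ x) := fun n x => by
    rw [← Function.iterate_succ_apply' γ, Function.iterate_succ_apply]
  have it : ∀ n : ℕ, γ^[n] (w 2) = w 2 - n • w 3 + (n.choose 2) • w 4 := fun n => by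
    induction n with
    | zero => simp
    | succ n ih =>
      rw [Function.iterate_succ_apply', ih, map_add, map_sub, map_nsmul, map_nsmul, hγ, hγ, hγ,
        Nat.choose_succ_succ' n 1, Nat.choose_one_right]
      simp only [Nat.reduceAdd, z5, sub_zero, add_nsmul, one_nsmul, nsmul_sub]
      abel
  have sb : ∀ (n : ℕ) (x y : E), γ^[n] (x - y) = γ^[n] x - γ^[n] y := fun n x y => by
    induction n with
    | zero => rfl
    | succ n ih => rw [Function.iterate_succ_apply', ih, map_sub, Function.iterate_succ_apply',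
        Function.iterate_succ_apply']
  rw [map_sub, map_sub, c, hγ, hγ, sb, it] at h
  have e1 : w 4 = i • w 3 - (i.choose 2) • w 4 := by
    rw [← sub_eq_zero] at h ⊢
    rw [← neg_eq_zero, ← h]
    simp only [Nat.reduceAdd]
    abel
  have e2 : i • w 4 = 0 := by
    have := congrArg γ e1
    rw [map_sub, map_nsmul, map_nsmul, hγ, hγ] at this
    simp only [Nat.reduceAdd, z5, sub_zero, nsmul_sub] at this
    rw [← sub_eq_zero] at this e1
    rw [← this, ← sub_zero (_ - _), ← e1]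
    abel
  by_contra hne
  have hi : p ∣ i := by
    by_contra hi
    have := addOrderOf_dvd_of_nsmul_eq_zero e2
    have h1 := addOrderOf_dvd_of_nsmul_eq_zero (hw 4)
    exact hne (AddMonoid.addOrderOf_eq_one_iff.1 (Nat.eq_one_of_dvd_coprimes
      ((Nat.Prime.coprime_iff_not_dvd hp).2 hi) h1 this))
  obtain ⟨k, rfl⟩ := hi
  have hc : p ∣ (p * k).choose 2 := by
    have h1 : p ∣ 2 * (p * k).choose 2 := by
      rw [Nat.choose_two_right, Nat.mul_div_cancel' (Nat.even_mul_pred_self _).two_dvd, mul_assoc]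
      exact dvd_mul_right _ _
    exact ((Nat.coprime_primes hp Nat.prime_two).2 h2).dvd_of_dvd_mul_left h1
  obtain ⟨m, hm⟩ := hc
  apply hne
  rw [e1, hm, mul_nsmul, mul_nsmul, hw, hw]
  simp

end add

variable {G : Type*} [Group G] {e : ℕ}

/-- Conjugation on an abelian subgroup, additively. -/
def cjE {V : Subgroup G} (hV : IsElementaryAbelian e V) {g : G} (hg : g ∈ 𝐍 V) : EA hV →+ EA hV :=
  AddMonoidHom.mk' (fun x => EA.mk hV (g * EA.val x * g⁻¹) (conj_mem_of_mem_normalizer hg (EA.val_mem x)))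
    fun x y => EA.val_injective (by simp [mul_assoc])

@[simp] theorem val_cjE {V : Subgroup G} (hV : IsElementaryAbelian e V) {g : G} (hg : g ∈ 𝐍 V) (x : EA hV) :
    EA.val (cjE hV hg x) = g * EA.val x * g⁻¹ := rfl

theorem val_cjE_iterate {V : Subgroup G} (hV : IsElementaryAbelian e V) {g : G} (hg : g ∈ 𝐍 V) (i : ℕ) (x : EA hV) :
    EA.val ((cjE hV hg)^[i] x) = g ^ i * EA.val x * (g ^ i)⁻¹ := by
  induction i with
  | zero => simp
  | succ i ih => rw [Function.iterate_succ_apply', val_cjE, ih, pow_succ']; group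

/-- Thompson's replacement: if `[v, A]` is abelian, each of its elements is `⁅v, a⁆` modulo `C(A)`. -/
theorem exists_comm_eq [Finite G] {S A L : Subgroup G} (hA : A ∈ MaxEA 0 S) (hL : IsMulCommutative L) (hLS : L ≤ S)
    {v : G} (hv : ∀ a ∈ A, ⁅v, a⁆ ∈ L) {b c : G} (hb : b ∈ A) (hc : c ∈ A) :
    ∃ a ∈ A, ⁅v, a⁆⁻¹ * ⁅⁅v, b⁆, c⁆ ∈ 𝐂 A := by
  classical
  set M := closure {x | ∃ a ∈ A, ⁅v, a⁆ = x} with hM
  have hML : M ≤ L := (closure_le _).2 (by rintro _ ⟨a, ha, rfl⟩; exact hv a ha)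
  have mM : ∀ a ∈ A, ⁅v, a⁆ ∈ M := fun a ha => subset_closure ⟨a, ha, rfl⟩
  have cM := comm_mono hL hML
  have key : ∀ a d : G, a * ⁅v, d⁆ * a⁻¹ = ⁅v, a⁆⁻¹ * ⁅v, a * d⁆ := fun a d => by
    simp only [commutatorElement_def]; group
  have hm : ⁅⁅v, b⁆, c⁆ ∈ M := by
    have : ⁅⁅v, b⁆, c⁆ = ⁅v, b⁆ * (c * ⁅v, b⁆ * c⁻¹)⁻¹ := by simp only [commutatorElement_def]; group
    rw [this, key]
    exact mul_mem (mM b hb) (inv_mem (mul_mem (inv_mem (mM c hc)) (mM _ (mul_mem hc hb))))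
  set C := A ⊓ 𝐂 M with hC
  set D := M ⊓ 𝐂 A with hD
  let φ : A → M ⧸ D.subgroupOf M := fun a => QuotientGroup.mk ⟨⁅v, a⁆, mM a a.2⟩
  have hφ : ∀ a a' : A, φ a = φ a' → ((a⁻¹ * a' : A) : G) ∈ C := fun a a' h => by
    have h1 : ⁅v, (a : G)⁆⁻¹ * ⁅v, (a' : G)⁆ ∈ 𝐂 A := (mem_subgroupOf.1 (QuotientGroup.eq.1 h)).2
    set d : G := ((a⁻¹ * a' : A) : G) with hd
    have dA : d ∈ A := (a⁻¹ * a').2
    have h2 : ⁅v, d⁆ ∈ 𝐂 A := by
      have h3 : (a : G) * ⁅v, d⁆ * (a : G)⁻¹ ∈ 𝐂 A := by rw [key]; simpa [hd] using h1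
      have h4 := conj_mem_of_mem_normalizer (normalizer_le_normalizer_centralizer A (le_normalizer (inv_mem a.2))) h3
      simpa [mul_assoc] using h4
    refine ⟨dA, le_centralizer_iff.1 ((closure_le _).2 ?_) (mem_zpowers d)⟩
    rintro _ ⟨y, hy, rfl⟩
    refine mem_centralizer_zpowers.2 ?_
    have h3 : d * ⁅v, y⁆ * d⁻¹ = ⁅v, y⁆ := by
      have h4 := key y d
      rw [mem_centralizer_iff.1 h2 y hy, mul_inv_cancel_right, comm_of (MaxEA.comm hA) hy dA] at h4
      rw [key, inv_mul_eq_iff_eq_mul, comm_of cM (mM d dA) (mM y hy), h4, mul_inv_cancel_left]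
    rw [← h3]; simp [← h3.symm]
    exact mul_inv_eq_iff_eq_mul.1 h3
  let f : A ⧸ C.subgroupOf A → M ⧸ D.subgroupOf M := fun q => φ q.out
  have fi : Function.Injective f := fun q q' h => by
    rw [← QuotientGroup.out_eq' q, ← QuotientGroup.out_eq' q']
    exact QuotientGroup.eq.2 (mem_subgroupOf.2 (hφ _ _ h))
  have c1 := card_mul_card_le M C
  have c2 : Nat.card ↥(M ⊔ C) ≤ Nat.card A := MaxEA.card_le hA (sup_le (hML.trans hLS) (inf_le_left.trans (MaxEA.le hA)))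
    (elemAb_zero.2 (comm_sup cM (comm_mono (MaxEA.comm hA) inf_le_left) (le_centralizer_iff.1 inf_le_right)))
  have c3 : Nat.card ↥(M ⊓ C) ≤ Nat.card D := card_le_of_le (le_inf inf_le_left
    (inf_le_right.trans (inf_le_left.trans (comm_le_centralizer (MaxEA.comm hA)))))
  have c4 := card_eq_card_quotient_mul_card_subgroup (C.subgroupOf A)
  have c5 := card_eq_card_quotient_mul_card_subgroup (D.subgroupOf M)
  rw [Nat.card_congr (subgroupOfEquivOfLe (inf_le_left : C ≤ A)).toEquiv] at c4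
  rw [Nat.card_congr (subgroupOfEquivOfLe (inf_le_left : D ≤ M)).toEquiv] at c5
  have c6 : Nat.card (M ⧸ D.subgroupOf M) ≤ Nat.card (A ⧸ C.subgroupOf A) := by
    have := c1.trans (Nat.mul_le_mul c2 c3)
    rw [c4, c5] at this
    have p1 := card_pos' C
    have p2 := card_pos' D
    refine Nat.le_of_mul_le_mul_right (c := Nat.card D * Nat.card C) ?_ (Nat.mul_pos p2 p1)
    nlinarith
  obtain ⟨q, hq⟩ := (fi.bijective_of_nat_card_le c6).2 (QuotientGroup.mk ⟨_, hm⟩)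
  exact ⟨q.out, q.out.2, (mem_subgroupOf.1 (QuotientGroup.eq.1 hq)).2⟩

end H17.TJ
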