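import Cfsg.Agent.H17.TJ1

/-! The critical configuration of Thompson's `J`-criterion (`final`): a maximal Sylow subgroup, and a largest
abelian subgroup that is cyclic modulo `O_p` and quadratic on `Z(O_p)`, cannot occur for `p ≥ 5`. -/

set_option autoImplicit false

namespace H17.TJ

open Subgroup H26 H4 H27 Cfsg
open scoped commutatorElement

variable {G : Type*} [Group G] {p : ℕ}

/-- The chain `u, [u, g], [u, g, g], …`. -/
def ch (g u : G) (j : ℕ) : G := (fun y => ⁅y, g⁆)^[j] u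

theorem ch_succ (g u : G) (j : ℕ) : ch g u (j + 1) = ⁅ch g u j, g⁆ := Function.iterate_succ_apply' _ _ _

theorem ch_add (g u : G) (i j : ℕ) : ch g (ch g u j) i = ch g u (i + j) := (Function.iterate_add_apply _ _ _ _).symm

theorem conj_ch (g u : G) (j : ℕ) : g * ch g u j * g⁻¹ = (ch g u (j + 1))⁻¹ * ch g u j := by
  rw [ch_succ, commutatorElement_def]; group

theorem ch_mem_ic {X : Subgroup G} {g u : G} (hu : u ∈ X) (j : ℕ) : ch g u j ∈ iterCommutator X (zpowers g) j := by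
  induction j with
  | zero => exact hu
  | succ j ih => rw [ch_succ]; exact commutator_mem_commutator ih (mem_zpowers g)

theorem ch_mem {X : Subgroup G} [X.Normal] {g u : G} (hu : u ∈ X) (j : ℕ) : ch g u j ∈ X :=
  ic_le le_normalizer_of_normal j (ch_mem_ic hu j)

theorem exists_chain [Finite G] [Fact p.Prime] {X Y : Subgroup G} [X.Normal] [Y.Normal] (hX : IsPGroup p X)
    (hXY : ⁅X, X⁆ ≤ Y) {g : G} (hg : IsPGroup p (zpowers g)) {n : ℕ} (h : ¬ iterCommutator X (zpowers g) n ≤ Y) :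
    ∃ u ∈ X, ch g u n ∉ Y ∧ ch g u (n + 1) ∈ Y := by
  classical
  let π := QuotientGroup.mk' Y
  have hc : IsMulCommutative (X.map π) := by
    rw [isMulCommutative_iff', ← commutator_eq_bot_iff_le_centralizer, ← map_commutator, Subgroup.map_eq_bot_iff]
    simpa [π] using hXY
  have key : ∀ k, ∀ y ∈ iterCommutator X (zpowers g) k, ∃ u ∈ X, π y = π (ch g u k) := fun k => by
    induction k with
    | zero => exact fun y hy => ⟨y, hy, rfl⟩
    | succ k ih =>
      intro y hy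
      have h1 := mem_map_of_mem π hy
      rw [ic_succ, map_commutator, MonoidHom.map_zpowers] at h1
      have h2 : g ∈ 𝐍 (iterCommutator X (zpowers g) k) := by
        cases k with
        | zero => exact le_normalizer_of_normal (H := X) (mem_top g)
        | succ k => exact le_normalizer_commutator_right _ _ (mem_zpowers g)
      obtain ⟨_, ⟨v, hv, rfl⟩, h3⟩ := (mem_commutator_zpowers_iff
        (comm_mono hc (map_mono (ic_le le_normalizer_of_normal k)))
        (le_normalizer_map π (mem_map_of_mem π h2))).1 h1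
      obtain ⟨u, hu, h4⟩ := ih v hv
      exact ⟨u, hu, by rw [← h3, h4, ch_succ, map_commutatorElement]⟩
  obtain ⟨y, hy, hy'⟩ := SetLike.not_le_iff_exists.1 h
  obtain ⟨u, hu, h1⟩ := key n y hy
  have h2 : ch g u n ∉ Y := fun c => hy' (by
    rw [← QuotientGroup.eq_one_iff] at c ⊢
    exact h1.trans c)
  obtain ⟨m, hm⟩ := exists_ic_eq_bot hX hg le_normalizer_of_normal
  have ex : ∃ k, ch g u (n + k) ∈ Y :=
    ⟨m, (ic_le_of_le le_normalizer_of_normal (Nat.le_add_left m n) (hm.le.trans bot_le)) (ch_mem_ic hu _)⟩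
  obtain ⟨k, hk⟩ := Nat.exists_eq_succ_of_ne_zero (n := Nat.find ex) fun c => h2 (by simpa [c] using Nat.find_spec ex)
  refine ⟨ch g u k, ch_mem hu k, ?_, ?_⟩
  · rw [ch_add]; exact Nat.find_min ex (by omega)
  · rw [ch_add, add_right_comm, add_assoc, ← Nat.succ_eq_add_one, ← hk]; exact Nat.find_spec ex

theorem chain_comm {T X Y : Subgroup G} [T.Normal] [X.Normal] [Y.Normal] (hXT : X ≤ T) (h1 : ⁅X, X⁆ ≤ 𝐂 T)
    (hY : Y ≤ 𝐂 X) {g u : G} (hu : u ∈ X) (h5 : ch g u 5 ∈ Y)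
    (hq : ∀ z ∈ T ⊓ 𝐂 T, ⁅⁅z, g⁆, g⁆ = 1) :
    ⁅ch g u 2, ch g u 3⁆ = 1 ∧ ⁅ch g u 2, ch g u 4⁆ = 1 ∧ ⁅ch g u 3, ch g u 4⁆ = 1 := by
  have hZ : IsElementaryAbelian 0 (T ⊓ 𝐂 T) := elemAb_zero.2 (comm_inf_centralizer T)
  have mZ : ∀ a b : X, ⁅(a : G), (b : G)⁆ ∈ T ⊓ 𝐂 T := fun a b =>
    ⟨hXT (commutator_le_self X (commutator_mem_commutator a.2 b.2)), h1 (commutator_mem_commutator a.2 b.2)⟩
  let B : X → X → EA hZ := fun a b => EA.mk hZ _ (mZ a b)
  have sk : ∀ a b, B a b = - B b a := fun a b => EA.val_injective (by simp [B])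
  have ad : ∀ a b c, B (a * b) c = B b c + B a c := fun a b c => EA.val_injective (by
    simp only [B, EA.val_mk, EA.val_add, coe_mul]
    rw [commutatorElement_mul_left_eq_conj_mul, mem_centralizer_iff.1 (mZ b c).2 a (hXT a.2), mul_inv_cancel_right])
  have iv : ∀ a c, B a⁻¹ c = - B a c := fun a c => by
    have := ad a⁻¹ a c
    rw [inv_mul_cancel, show B 1 c = 0 from EA.val_injective (by simp [B])] at this
    exact (neg_eq_of_add_eq_zero_right this.symm).symm
  let x : ℕ → X := fun j => ⟨ch g u j, ch_mem hu j⟩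
  have hg : g ∈ 𝐍 (T ⊓ 𝐂 T) := le_normalizer_of_normal (mem_top g)
  have z : ∀ a b, ch g u b ∈ Y → B (x a) (x b) = 0 := fun a b hb => EA.val_injective (by
    simp only [B, x, EA.val_mk, EA.val_zero]
    exact commutatorElement_eq_one_iff_mul_comm.2 (mem_centralizer_iff.1 (hY hb) _ (ch_mem hu a)))
  obtain ⟨r1, r2, r3⟩ := three_zero (fun a b => B (x a) (x b)) (cjE hZ hg) (fun a b => by
      have : cjE hZ hg (B (x a) (x b)) = B ((x (a + 1))⁻¹ * x a) ((x (b + 1))⁻¹ * x b) := EA.val_injective (by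
        simp only [B, x, val_cjE, EA.val_mk, coe_mul, coe_inv, ← conj_ch, commutatorElement_def]; group)
      rw [this, ad, iv, sk (x a), sk (x (a + 1)), ad, ad, iv, iv, sk (x b), sk (x b), sk (x (b + 1)), sk (x (b + 1))]
      abel)
    (fun a b => EA.val_injective (by
      have := commutatorElement_eq_one_iff_mul_comm.1 (hq _ (mZ (x a) (x b)))
      simp only [val_cjE, EA.val_sub, B, EA.val_mk]
      rw [show ⁅((x a : X) : G), ((x b : X) : G)⁆ * (g * ⁅((x a : X) : G), ((x b : X) : G)⁆ * g⁻¹)⁻¹ =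
        ⁅⁅((x a : X) : G), ((x b : X) : G)⁆, g⁆ by simp only [commutatorElement_def (_ : G) g]; group, ← this,
        mul_inv_cancel_right]))
    (fun a b => sk _ _) (fun a => EA.val_injective (by simp [B])) (fun a => z a 5 h5)
    (fun a => z a 6 (by rw [ch_succ]; exact commutator_le_left Y ⊤ (commutator_mem_commutator h5 (mem_top g))))
  exact ⟨congrArg EA.val r1, congrArg EA.val r2, congrArg EA.val r3⟩

theorem chain_contra [Finite G] [hp : Fact p.Prime] (h2 : p ≠ 2) {S A T X Y : Subgroup G} [T.Normal] [X.Normal]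
    [Y.Normal] (hA : A ∈ MaxEA 0 S) (hTS : T ≤ S) (hXT : X ≤ T) (hYX : Y ≤ X) (h0 : ⁅X, T⁆ ≤ Y) (h1 : ⁅X, X⁆ ≤ 𝐂 T)
    (hY : Y ≤ 𝐂 X) (hP : ∀ x ∈ X, x ^ p ∈ Y) {g u : G} (hg : g ∈ A) (hcyc : ∀ a ∈ A, ∃ i : ℕ, (g ^ i)⁻¹ * a ∈ T)
    (hu : u ∈ X) (h5 : ch g u 5 ∈ Y) (hq : ∀ z ∈ T ⊓ 𝐂 T, ⁅⁅z, g⁆, g⁆ = 1) : ch g u 4 ∈ Y := by
  obtain ⟨r1, r2, r3⟩ := chain_comm hXT h1 hY hu h5 hq
  rw [commutatorElement_eq_one_iff_mul_comm] at r1 r2 r3
  set L := closure {ch g u 2, ch g u 3, ch g u 4} ⊔ Y with hL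
  have l0 : closure {ch g u 2, ch g u 3, ch g u 4} ≤ X := (closure_le _).2 (by
    rintro _ (rfl | rfl | rfl) <;> exact ch_mem hu _)
  have cL : IsMulCommutative L := comm_sup (elemAb_closure (p := 0) (by
      rintro _ (rfl | rfl | rfl) _ (rfl | rfl | rfl) <;> simp only [r1, r2, r3]) (by simp)).1
    (isMulCommutative_iff'.2 (hY.trans (centralizer_anti hYX))) (l0.trans (le_centralizer_iff.1 hY))
  have m2 : ch g u 2 ∈ L := mem_sup_left (subset_closure (by simp))
  have m3 : ch g u 3 ∈ L := mem_sup_left (subset_closure (by simp))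
  have m4 : ch g u 4 ∈ L := mem_sup_left (subset_closure (by simp))
  have gL : L ≤ L.comap (MulAut.conj g).toMonoidHom := by
    refine sup_le ((closure_le _).2 ?_) fun y hy => mem_sup_right (Normal.conj_mem inferInstance y hy g)
    rintro _ (rfl | rfl | rfl) <;> change g * _ * g⁻¹ ∈ L <;> rw [conj_ch]
    exacts [mul_mem (inv_mem m3) m2, mul_mem (inv_mem m4) m3, mul_mem (inv_mem (mem_sup_right h5)) m4]
  have pL : ∀ i : ℕ, ⁅ch g u 1, g ^ i⁆ ∈ L := fun i => by
    induction i with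
    | zero => simp
    | succ i ih =>
      rw [show ⁅ch g u 1, g ^ (i + 1)⁆ = ⁅ch g u 1, g⁆ * (g * ⁅ch g u 1, g ^ i⁆ * g⁻¹) by
        simp only [commutatorElement_def, pow_succ']; group, ← ch_succ]
      exact mul_mem m2 (gL ih)
  have dec : ∀ a ∈ A, ∃ i : ℕ, ∃ y ∈ Y, ⁅ch g u 1, a⁆ = ⁅ch g u 1, g ^ i⁆ * y := fun a ha => by
    obtain ⟨i, hi⟩ := hcyc a ha
    refine ⟨i, _, Normal.conj_mem inferInstance _ (h0 (commutator_mem_commutator (ch_mem (g := g) hu 1) hi)) (g ^ i), ?_⟩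
    simp only [commutatorElement_def]; group
  obtain ⟨a, ha, h3⟩ := exists_comm_eq hA cL ((sup_le l0 hYX).trans (hXT.trans hTS)) (v := ch g u 1) (fun a ha => by
    obtain ⟨i, y, hy, e⟩ := dec a ha
    exact e ▸ mul_mem (pL i) (mem_sup_right hy)) hg hg
  obtain ⟨i, y, hy, e⟩ := dec a ha
  rw [e, ← ch_succ, ← ch_succ] at h3
  let π := QuotientGroup.mk' Y
  have hE : IsElementaryAbelian p (X.map π) := elemAb_map_of_phi_le (phi_le_iff.2 ⟨by
    simpa [π] using (commutator_mono le_rfl hXT).trans h0, by simpa [π] using hP⟩)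
  have : (X.map π).Normal := Normal.map inferInstance π (QuotientGroup.mk'_surjective Y)
  let w : ℕ → EA hE := fun j => EA.mk hE (π (ch g u j)) (mem_map_of_mem π (ch_mem hu j))
  have hg' : π g ∈ 𝐍 (X.map π) := le_normalizer_of_normal (mem_top _)
  have e1 : EA.val (w 3 - (w 1 - (cjE hE hg')^[i] (w 1))) = π ((⁅ch g u 1, g ^ i⁆ * y)⁻¹ * ch g u 3) := by
    rw [sub_eq_neg_add, EA.val_add, EA.val_neg, EA.val_sub, val_cjE_iterate, map_mul, map_inv, map_mul,
      show π y = 1 from (QuotientGroup.eq_one_iff y).2 hy]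
    simp only [w, EA.val_mk, map_mul, map_inv, map_pow, commutatorElement_def]
    group
  have := four_zero hp.out h2 w (cjE hE hg') (fun j => by
      rw [sub_eq_neg_add]
      exact EA.val_injective (by simp only [w, val_cjE, EA.val_mk, EA.val_add, EA.val_neg, ← map_inv, ← map_mul, conj_ch]))
    (EA.val_injective ((QuotientGroup.eq_one_iff _).2 h5))
    (fun j => EA.val_injective (hE.2 _ (EA.val_mem _))) i (EA.val_injective (by
      rw [val_cjE, e1, ← map_mul, mem_centralizer_iff.1 h3 g hg, map_mul, mul_inv_cancel_right]))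
  exact (QuotientGroup.eq_one_iff _).1 (congrArg EA.val this)

theorem final [Finite G] [hp : Fact p.Prime] (h5 : 5 ≤ p) {S A : Subgroup G} (hC : 𝐂 (pCore p G) ≤ pCore p G)
    (hS : H26.IsSyl p S ⊤) (hM : IsCoatom S) (hA : A ∈ MaxEA 0 S) {g : G} (hg : g ∈ A)
    (hcyc : ∀ a ∈ A, ∃ i : ℕ, (g ^ i)⁻¹ * a ∈ pCore p G)
    (hq : ⁅⁅pCore p G ⊓ 𝐂 (pCore p G), A⁆, A⁆ = ⊥) : g ∈ pCore p G := by
  by_contra hgT
  set T := pCore p G with hT
  set H := pResidualOf p (⊤ : Subgroup G) with hH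
  have tp : IsPGroup p T := isPGroup_pCore p G
  have : H.Normal := normal_of_top_le_normalizer (le_normalizer_pResidualOf p ⊤)
  have hHH : pResidualOf p H = H := pResidualOf_pResidualOf p ⊤
  have h1 : ¬ H ≤ 𝐂 T := fun c => hgT (le_pCore (isPGroup_of_pResidualOf_le tp (c.trans hC)) (mem_top g))
  obtain ⟨X, hXT, ⟨hXn, hX⟩, hmin⟩ := exists_minimal_le (Q := fun X => X.Normal ∧ ¬ H ≤ 𝐂 X) T ⟨inferInstance, h1⟩
  have xp := tp.to_le hXT
  set Y := X ⊓ 𝐂 H with hY
  have hch : IsChiefFactor X Y := ⟨lt_of_le_of_ne inf_le_left fun c => hX (le_centralizer_iff.1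
    (c.ge.trans inf_le_right)), hXn, inferInstance, fun N hN h2 h3 => by
      by_cases c : H ≤ 𝐂 N
      · exact Or.inl (le_antisymm (le_inf h3 (le_centralizer_iff.1 c)) h2)
      · exact Or.inr (hmin N h3 ⟨hN, c⟩)⟩
  have h0 : ⁅X, T⁆ ≤ Y := chief_commutator_le hch xp tp
  have e : ⁅X, H⁆ = X := hmin _ (commutator_le_left _ _) ⟨inferInstance, fun c =>
    hX (le_centralizer_of_stab hHH (xp.to_le (commutator_le_left _ _)) le_rfl c)⟩
  have hYX : Y ≤ 𝐂 X := le_centralizer_iff.1 (e.ge.trans (three_subgroups_centralizer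
    ((commutator_eq_bot_iff_le_centralizer.2 (le_centralizer_iff.1 inf_le_right)).le.trans bot_le)
    ((commutator_le_left _ _).trans inf_le_right)))
  have hXX : ⁅X, X⁆ ≤ 𝐂 T := three_subgroups_centralizer (h0.trans hYX) (commutator_comm X T ▸ h0.trans hYX)
  have hn : ¬ iterCommutator X (zpowers g) 4 ≤ Y := fun c => hX (le_centralizer_of_stab hHH (xp.to_le inf_le_left)
    ((commutator_mono le_rfl le_top).trans (chief_central_of_isCoatom hS hM (MaxEA.le hA hg) hgT hch xp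
      (ic_le_of_le le_normalizer_of_normal (by omega) c))) (le_centralizer_iff.1 inf_le_right))
  obtain ⟨u, hu, h4, h5'⟩ := exists_chain xp ((commutator_mono le_rfl hXT).trans h0)
    (hS.isP.to_le (zpowers_le.2 (MaxEA.le hA hg))) hn
  exact h4 (chain_contra (by omega) hA ((pCoreOf_top p G).ge.trans hS.pCoreOf_le) hXT inf_le_left h0 hXX hYX
    (chief_pow_mem hch xp) hg hcyc hu h5' fun z hz =>
      mem_bot.1 (hq ▸ commutator_mem_commutator (commutator_mem_commutator hz hg) hg))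

end H17.TJ
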