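import Cfsg.Agent.H17.TJ2
import Cfsg.Agent.H17.Coprime
import Cfsg.Agent.S3734

/-! Thompson's `J`-criterion for `p ≥ 5`: largest abelian `p`-subgroups (`MA`) lie in `O_p` when `C(O_p) ≤ O_p` and
`O^p(G)` is abelian modulo `O_p` (`MA.le_pCore`); `J(S)` is normal when the Sylow subgroup `S` is maximal
(`thompson_normal`); `pnil_of_J`. -/

set_option autoImplicit false

namespace H17.TJ

open Subgroup H26 H4 H27 Cfsg
open scoped commutatorElement

universe u

section
variable {G : Type*} [Group G] [Finite G] {p : ℕ} [hp : Fact p.Prime]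

/-- An abelian `p`-subgroup of largest order. -/
def MA (p : ℕ) (A : Subgroup G) : Prop :=
  IsPGroup p A ∧ IsMulCommutative A ∧ ∀ B : Subgroup G, IsPGroup p B → IsMulCommutative B → Nat.card B ≤ Nat.card A

theorem ma_of_maxEA {S A : Subgroup G} (hS : H26.IsSyl p S ⊤) (h : A ∈ MaxEA 0 S) : MA p A :=
  ⟨hS.isP.to_le (MaxEA.le h), MaxEA.comm h, fun B h1 h2 => by
    obtain ⟨g, -, hg⟩ := hS.exists_cj_le h1 le_top
    exact card_cj g B ▸ MaxEA.card_le h hg (elemAb_zero.2 (comm_map h2 _))⟩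

omit [Finite G] hp in
theorem MA.maxEA {S A : Subgroup G} (h : MA p A) (hS : IsPGroup p S) (hA : A ≤ S) : A ∈ MaxEA 0 S :=
  ⟨hA, elemAb_zero.2 h.2.1, fun B h1 h2 => h.2.2 B (hS.to_le h1) (elemAb_zero.1 h2)⟩

omit [Finite G] hp in
theorem MA.subgroupOf {L A : Subgroup G} (h : MA p A) (hA : A ≤ L) : MA p (A.subgroupOf L) := by
  refine ⟨h.1.comap_subtype, ?_, fun B h1 h2 => ?_⟩
  · rw [← comm_map_iff L.subtype_injective, subgroupOf_map_subtype, inf_eq_left.2 hA]; exact h.2.1
  · rw [Nat.card_congr (subgroupOfEquivOfLe hA).toEquiv, ← card_map_of_injective (K := B) L.subtype_injective]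
    exact h.2.2 _ (h1.map _) (comm_map h2 _)

theorem coatom_cyclic (hO : pCore p G = ⊥) (hK : IsMulCommutative (pResidualOf p (⊤ : Subgroup G)))
    {B : Subgroup G} (hB : IsPGroup p B) (cB : IsMulCommutative B) (hne : B ≠ ⊥)
    (h : ∀ L ≠ ⊤, B ≤ L → B ≤ pCoreOf p L) : IsCoatom B ∧ ∃ b ∈ B, zpowers b = B := by
  set K := pResidualOf p (⊤ : Subgroup G) with hKd
  have : K.Normal := normal_of_top_le_normalizer (le_normalizer_pResidualOf p ⊤)
  have nb : ∀ P : Subgroup G, IsPGroup p P → ⊤ ≤ 𝐍 P → P = ⊥ := fun P h1 h2 =>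
    have := normal_of_top_le_normalizer h2; le_bot_iff.1 (hO ▸ le_pCore h1)
  have kp : ¬ p ∣ Nat.card K := by
    obtain ⟨P, hP⟩ := H26.exists_isSyl p K
    refine hP.eq_bot_iff.1 (le_bot_iff.1 ?_)
    rw [← hP.pCoreOf_eq (le_normalizer_of_le_comm hK le_rfl hP.le), ← hO, ← pCoreOf_top]
    exact pCoreOf_le_pCoreOf_of_normal le_top le_normalizer_of_normal
  have cop : H17.Cop B K := H17.Cop.of_pgroup hB kp le_normalizer_of_normal
  have l1 : ⁅K, B⁆ ≠ ⊥ := fun c => by
    obtain ⟨S, hS, h1⟩ := H26.exists_isSyl_ge hB le_top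
    refine hne (le_bot_iff.1 ((le_inf h1 (commutator_eq_bot_iff'.1 c)).trans (nb _ (hS.isP.to_le inf_le_left) ?_).le))
    rw [← hS.pResidualOf_sup]
    exact sup_le (le_normalizer_of_le_centralizer (le_centralizer_iff.1 inf_le_right))
      (le_normalizer_inf le_normalizer le_normalizer_of_normal)
  have l2 : ∀ M ≤ K, M ⊔ B ≠ ⊤ → ⁅M, B⁆ = ⊥ := fun M hM c => by
    rw [← le_bot_iff, ← H3.inf_eq_bot_of_not_dvd_card kp (isPGroup_pCoreOf p (M ⊔ B))]
    exact le_inf ((commutator_mono hM le_rfl).trans (commutator_le_left _ _)) ((commutator_mono le_rfl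
      (h _ c le_sup_right)).trans (commutator_le_of_le_normalizer' (le_sup_left.trans (le_normalizer_pCoreOf p _))))
  have l3 : ⁅K, B⁆ = K := by
    have h1 : ⁅K, B⁆ ⊔ B = ⊤ := by
      by_contra c
      exact l1 (cop.commutator_eq_bot (l2 _ (commutator_le_left _ _) c))
    have h2 := dedekind_left' (C := K) (commutator_le_left K B) (le_normalizer_commutator_right K B)
    rwa [h1, top_inf_eq, cop.inf_eq_bot, sup_bot_eq, eq_comm] at h2
  have l4 : ∀ M ≤ K, M ≠ ⊥ → M ⊔ B = ⊤ := fun M hM c => by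
    by_contra c2
    have := cop.centralizer_inf_commutator (commutator_eq_bot_iff'.2 (comm_le_centralizer hK))
    rw [l3] at this
    exact c (le_bot_iff.1 (this ▸ le_inf (commutator_eq_bot_iff_le_centralizer.1 (l2 M hM c2)) hM))
  have k0 : K ≠ ⊥ := fun c => l1 (by rw [c, commutator_bot_left])
  refine ⟨⟨fun c => hne (nb B hB (c ▸ le_normalizer)), fun L hL => ?_⟩, ?_⟩
  · have h1 := dedekind_left (B := K) hL.le le_normalizer_of_normal
    rw [sup_comm, l4 K le_rfl k0, top_inf_eq] at h1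
    rw [h1, sup_comm]
    exact l4 _ inf_le_left fun c => hL.ne' (by rwa [c, sup_bot_eq] at h1)
  · have h1 := (Cfsg.Agent.S3734.result B K cB cop.norm cop.cop).1
    by_contra! c
    refine k0 (h1 ▸ le_bot_iff.1 (iSup₂_le fun D hD => ?_))
    obtain ⟨hD, b, hb, e⟩ := hD
    by_contra c2
    have h2 := l4 (K ⊓ 𝐂 D) inf_le_left (fun c3 => c2 c3.le)
    have h3 := nb D (hB.to_le hD) (h2 ▸ le_normalizer_of_le_centralizer
      (sup_le inf_le_right (le_centralizer_of_le_comm cB le_rfl hD)))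
    exact c b hb (by rwa [h3, bot_sup_eq] at e)

end

variable {p : ℕ} [hp : Fact p.Prime]

theorem MA.le_pCore (h5 : 5 ≤ p) (G : Type u) [Group G] [Finite G] : 𝐂 (pCore p G) ≤ pCore p G →
    ⁅pResidualOf p (⊤ : Subgroup G), pResidualOf p (⊤ : Subgroup G)⁆ ≤ pCore p G →
    ∀ A : Subgroup G, MA p A → A ≤ pCore p G := by
  refine H1.card_induction (P := fun G _ _ => 𝐂 (pCore p G) ≤ pCore p G →
    ⁅pResidualOf p (⊤ : Subgroup G), pResidualOf p (⊤ : Subgroup G)⁆ ≤ pCore p G →
    ∀ A : Subgroup G, MA p A → A ≤ pCore p G) (fun G _ _ ih hC hK A₀ hA₀ => ?_) G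
  set T := pCore p G with hT
  have tp : IsPGroup p T := isPGroup_pCore p G
  by_contra hn₀
  obtain ⟨A, hA, hn, hq⟩ : ∃ A : Subgroup G, MA p A ∧ ¬ A ≤ T ∧ ⁅⁅T ⊓ 𝐂 T, A⁆, A⁆ = ⊥ := by
    by_cases c : A₀ ≤ 𝐂 (T ⊓ 𝐂 T)
    · exact ⟨A₀, hA₀, hn₀, by rw [commutator_eq_bot_iff'.2 c, commutator_bot_left]⟩
    obtain ⟨S, hS, h1⟩ := H26.exists_isSyl_ge hA₀.1 le_top
    obtain ⟨B, h2, -, h3, h4⟩ := MaxEA.exists_quadratic (hA₀.maxEA hS.isP h1) hS.isP
      (inf_le_left.trans ((pCoreOf_top p G).ge.trans hS.pCoreOf_le)) (elemAb_zero.2 (comm_inf_centralizer T))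
      le_normalizer_of_normal c
    exact ⟨B, ma_of_maxEA hS h2, fun c => h4 (c.trans (le_centralizer_iff.1 inf_le_right)), h3⟩
  have IH : ∀ L ≠ ⊤, T ≤ L → A ≤ L → A ≤ pCoreOf p L := fun L hL h1 h2 => by
    have h3 : T ≤ pCoreOf p L := le_pCoreOf tp h1 le_normalizer_of_normal
    have h4 := ih L (card_subgroup_lt hL) (charPOf_iff.1 ((charPOf_top.2 hC).of_le le_top ((pCoreOf_top p G).le.trans h1)))
      (by
        rw [← map_le_map_iff_of_injective L.subtype_injective, map_commutator,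
          map_pResidualOf_of_injective L.subtype_injective, map_subtype_top]
        exact ((commutator_mono (pResidualOf_mono le_top) (pResidualOf_mono le_top)).trans hK).trans h3)
      _ (hA.subgroupOf h2)
    have h5 := map_mono (f := L.subtype) h4
    rwa [subgroupOf_map_subtype, inf_eq_left.2 h2] at h5
  let π := QuotientGroup.mk' T
  have hπ : Function.Surjective π := QuotientGroup.mk'_surjective T
  have hk : π.ker = T := QuotientGroup.ker_mk' T
  obtain ⟨h1, _, ⟨g, hg, rfl⟩, h2⟩ := coatom_cyclic (G := G ⧸ T) (p := p) (H17.pCore_quotient G p) (by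
      rw [← map_top_of_surjective π hπ, ← map_pResidualOf, isMulCommutative_iff',
        ← commutator_eq_bot_iff_le_centralizer, ← map_commutator, Subgroup.map_eq_bot_iff, hk]
      exact hK) (hA.1.map π) (comm_map hA.2.1 π) (by rwa [Ne, Subgroup.map_eq_bot_iff, hk]) fun L hL h3 => by
    have h4 := map_mono (f := π) (IH (L.comap π) (fun c => hL (by
      rw [← map_comap_eq_self_of_surjective hπ L, c, map_top_of_surjective π hπ])) (hk.ge.trans (ker_le_comap π L))
      (map_le_iff_le_comap.1 h3))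
    exact h4.trans ((map_pCoreOf_le π _).trans (by rw [map_comap_eq_self_of_surjective hπ]))
  have h3 := isCoatom_comap_of_surjective hπ h1
  have h4 : IsPGroup p ((A.map π).comap π) := (hA.1.map π).comap_of_ker_isPGroup π (by rw [hk]; exact tp)
  have h6 : H26.IsSyl p ((A.map π).comap π) ⊤ := ⟨le_top, h4, fun Q q1 q2 _ => q2.eq_or_lt.elim Eq.ge fun q3 =>
    absurd (le_top.trans (H26.le_pCore (h3.2 Q q3 ▸ q1 : IsPGroup p (⊤ : Subgroup G)))) hn⟩
  have cy : ∀ a ∈ A, ∃ i : ℕ, (g ^ i)⁻¹ * a ∈ T := fun a ha => by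
    obtain ⟨i, hi⟩ := (mem_powers_iff_mem_zpowers.2 (h2 ▸ mem_map_of_mem π ha) : π a ∈ Submonoid.powers (π g))
    exact ⟨i, QuotientGroup.eq.1 hi⟩
  have h7 := final h5 hC h6 h3 (hA.maxEA h4 (le_comap_map π A)) hg cy hq
  refine hn fun a ha => ?_
  obtain ⟨i, hi⟩ := cy a ha
  simpa using mul_mem (pow_mem h7 i) hi

theorem thompson_normal (h5 : 5 ≤ p) {G : Type u} [Group G] [Finite G] (hC : 𝐂 (pCore p G) ≤ pCore p G)
    (hN : HasNormalPComplement p (G ⧸ pCore p G)) {S : Subgroup G} (hS : H26.IsSyl p S ⊤) (hM : IsCoatom S) :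
    (thompsonSubgroupOf 0 S).Normal := by
  have hTS : pCore p G ≤ S := (pCoreOf_top p G).ge.trans hS.pCoreOf_le
  let π := QuotientGroup.mk' (pCore p G)
  have hπ : Function.Surjective π := QuotientGroup.mk'_surjective _
  have hk : π.ker = pCore p G := QuotientGroup.ker_mk' _
  have e : (pResidualOf p (⊤ : Subgroup G)).map π = pResidual p (G ⧸ pCore p G) := by
    rw [map_pResidualOf, map_top_of_surjective π hπ, pResidualOf_top]
  set K := pResidual p (G ⧸ pCore p G) with hK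
  have : K.Normal := e ▸ (normal_of_top_le_normalizer (le_normalizer_pResidualOf p ⊤)).map π hπ
  have kp : ¬ p ∣ Nat.card K := H3.hasNormalPComplement_iff_not_dvd_card_pResidual.1 hN
  have sp := hS.isP.map π
  have key : IsMulCommutative K := by
    by_cases k0 : K = ⊥
    · exact k0 ▸ comm_bot
    obtain ⟨q, hq, hqK⟩ := Nat.exists_prime_and_dvd (n := Nat.card K) (by rwa [Ne, card_eq_one])
    have := Fact.mk hq
    obtain ⟨Q, hQ, hn⟩ := (H17.Cop.of_pgroup sp kp le_normalizer_of_normal).exists_isSyl q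
    have q0 : Q ≠ ⊥ := fun c => hQ.not_dvd (by rwa [c, relIndex_bot_left])
    have z0 := center_ne_bot hQ.pgroup q0
    have zn : S.map π ≤ 𝐍 (Q ⊓ 𝐂 Q) := le_normalizer_inf hn (le_normalizer_centralizer hn)
    have h1 : S.map π ⊔ Q ⊓ 𝐂 Q = ⊤ := by
      rw [← map_comap_eq_self_of_surjective hπ (_ ⊔ _), hM.2 _ (lt_of_le_of_ne
        ((le_comap_map π S).trans (comap_mono le_sup_left)) fun c => z0 ?_), map_top_of_surjective π hπ]
      rw [← le_bot_iff, ← H3.inf_eq_bot_of_not_dvd_card kp sp]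
      have c2 := congrArg (map π) c
      rw [map_comap_eq_self_of_surjective hπ] at c2
      exact le_inf (inf_le_left.trans hQ.le) (le_sup_right.trans c2.ge)
    have h2 := pResidualOf_sup_le sp zn
    rw [h1, pResidualOf_top] at h2
    exact comm_mono (comm_inf_centralizer Q) h2
  have h1 : thompsonSubgroupOf 0 S ≤ pCore p G := thompsonOf_le_iff.2 fun A hA =>
    MA.le_pCore h5 G hC (by
      rw [← hk, ← Subgroup.map_eq_bot_iff, map_commutator, e]
      exact commutator_eq_bot_iff'.2 (comm_le_centralizer key)) A (ma_of_maxEA hS hA)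
  rw [← thompsonOf_eq_of_le h1 hTS]
  infer_instance

/-- `J(Q)` as a functor on groups. -/
def jFun (Q : Type u) [Group Q] : Subgroup Q := thompsonSubgroupOf 0 ⊤

theorem inducedFunctor_jFun {G : Type u} [Group G] (P : Subgroup G) :
    inducedFunctor jFun P = thompsonSubgroupOf 0 P := by
  rw [inducedFunctor, jFun, map_thompsonOf P.subtype_injective, map_subtype_top]

omit hp in
theorem isCharPFunctor_jFun : IsCharPFunctor.{u} p jFun :=
  ⟨fun Q _ _ _ _ => by
    obtain ⟨x, hx⟩ := exists_ne (1 : Q)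
    exact thompsonOf_ne_bot (mem_top x) hx (pow_zero x), fun _ _ _ _ _ _ φ => by
    rw [jFun, map_thompsonOf φ.injective, map_top_of_surjective _ φ.surjective, jFun]⟩

theorem pnil_of_J (h5 : 5 ≤ p) {G : Type u} [Group G] [Finite G] {S : Subgroup G} (hS : H26.IsSyl p S ⊤)
    (h : HasNormalPComplement p (𝐍 (thompsonSubgroupOf 0 S))) : HasNormalPComplement p G := by
  refine pnil_of_sections isCharPFunctor_jFun (fun K R _ hC hN T hT => ?_) S hS (by rwa [inducedFunctor_jFun])
  rw [inducedFunctor_jFun]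
  exact thompson_normal h5 hC hN (isSyl_top T) hT

end H17.TJ
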